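import Mathlib
import Cfsg.Agent.H14.Conj
import Cfsg.Agent.H4.ZStar2
set_option autoImplicit false

/-! Automorphisms centralizing a Sylow 2-subgroup (Glauberman): the commutator and the norm arguments. -/

namespace Cfsg.Agent.H4.AutC

open Cfsg Subgroup
open Cfsg.Agent.H14 (IsSylIn cj cj_cj mem_cj cj_mono card_cj isPGroup_cj conj_mem_cj)

universe u
variable {X : Type u} [Group X]

open scoped commutatorElement

theorem mem_sup_comm {A B : Subgroup X} (h : ∀ a ∈ A, ∀ b ∈ B, a * b = b * a) {x : X} :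
    x ∈ A ⊔ B ↔ ∃ a ∈ A, ∃ b ∈ B, x = a * b := by
  constructor
  · intro hx
    let K : Subgroup X :=
      { carrier := {x | ∃ a ∈ A, ∃ b ∈ B, x = a * b}
        one_mem' := ⟨1, A.one_mem, 1, B.one_mem, (mul_one 1).symm⟩
        mul_mem' := by
          rintro _ _ ⟨a, ha, b, hb, rfl⟩ ⟨c, hc, d, hd, rfl⟩
          refine ⟨a * c, mul_mem ha hc, b * d, mul_mem hb hd, ?_⟩
          rw [mul_assoc, ← mul_assoc b c d, ← h c hc b hb]; group
        inv_mem' := by
          rintro _ ⟨a, ha, b, hb, rfl⟩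
          exact ⟨a⁻¹, inv_mem ha, b⁻¹, inv_mem hb, by rw [h _ (inv_mem ha) _ (inv_mem hb), mul_inv_rev]⟩ }
    have h1 : A ⊔ B ≤ K := sup_le (fun a ha => ⟨a, ha, 1, B.one_mem, (mul_one a).symm⟩)
      (fun b hb => ⟨1, A.one_mem, b, hb, (one_mul b).symm⟩)
    exact h1 hx
  · rintro ⟨a, ha, b, hb, rfl⟩
    exact mul_mem (le_sup_left (a := A) (b := B) ha) (le_sup_right (a := A) (b := B) hb)

/-- the data: `S` Sylow in the normal subgroup `G`, `T` a 2-group commuting with `S` and meeting `G` trivially -/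
structure Dat (G S T : Subgroup X) : Prop where
  Gn : G.Normal
  syl : IsSylIn 2 S G
  T2 : IsPGroup 2 T
  GT : G ⊓ T = ⊥
  ST : ∀ s ∈ S, ∀ t ∈ T, s * t = t * s

variable {G S T : Subgroup X}

namespace Dat

theorem mem_P (d : Dat G S T) {x : X} : x ∈ S ⊔ T ↔ ∃ s ∈ S, ∃ t ∈ T, x = s * t := mem_sup_comm d.ST

theorem mem_Y (d : Dat G S T) {x : X} : x ∈ G ⊔ T ↔ ∃ g ∈ G, ∃ t ∈ T, x = g * t := by
  haveI := d.Gn
  rw [← SetLike.mem_coe, Subgroup.normal_mul, Set.mem_mul]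
  constructor
  · rintro ⟨a, ha, b, hb, rfl⟩; exact ⟨a, ha, b, hb, rfl⟩
  · rintro ⟨a, ha, b, hb, rfl⟩; exact ⟨a, ha, b, hb, rfl⟩

theorem SG (d : Dat G S T) : S ≤ G := d.syl.le

theorem eq_one_of (d : Dat G S T) {x : X} (h1 : x ∈ G) (h2 : x ∈ T) : x = 1 := by
  have : x ∈ G ⊓ T := mem_inf.2 ⟨h1, h2⟩
  rwa [d.GT, mem_bot] at this

theorem P_inf_G (d : Dat G S T) {x : X} (h1 : x ∈ S ⊔ T) (h2 : x ∈ G) : x ∈ S := by
  obtain ⟨s, hs, t, ht, rfl⟩ := d.mem_P.1 h1
  have h3 : t ∈ G := by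
    have := mul_mem (inv_mem (d.SG hs)) h2
    rwa [inv_mul_cancel_left] at this
  rw [d.eq_one_of h3 ht, mul_one]; exact hs

theorem P_le_Y (d : Dat G S T) : S ⊔ T ≤ G ⊔ T := sup_le_sup_right d.SG _

theorem P_pgroup (d : Dat G S T) : IsPGroup 2 (S ⊔ T : Subgroup X) := by
  refine d.syl.pgroup.to_sup_of_normal_right' d.T2 ?_
  intro s hs
  rw [mem_normalizer_iff]
  intro t
  constructor
  · intro ht
    rw [d.ST s hs t ht, mul_inv_cancel_right]; exact ht
  · intro ht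
    have h1 := d.ST s hs _ ht
    have h2 : s * t * s⁻¹ = t := by
      have h3 : s * (s * t * s⁻¹) = s * t := by rw [h1]; group
      exact mul_left_cancel h3
    rwa [h2] at ht

/-- the form of conjugates in `P` of elements of `T` -/
theorem conj_form (d : Dat G S T) {g a : X} (hg : g ∈ G) (ha : a ∈ T) (h : g * a * g⁻¹ ∈ S ⊔ T) :
    ∃ r ∈ S, g * a * g⁻¹ = r * a := by
  obtain ⟨s, hs, t, ht, he⟩ := d.mem_P.1 h
  refine ⟨s, hs, ?_⟩
  have h1 : t * a⁻¹ ∈ G := by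
    have h2 : t * a⁻¹ = s⁻¹ * (g * (a * g⁻¹ * a⁻¹)) := by
      have h3 : t = s⁻¹ * (g * a * g⁻¹) := by rw [he]; group
      rw [h3]; group
    rw [h2]
    exact mul_mem (inv_mem (d.SG hs)) (mul_mem hg (d.Gn.conj_mem _ (inv_mem hg) a))
  have h2 := d.eq_one_of h1 (mul_mem ht (inv_mem ha))
  rw [he, mul_inv_eq_one.1 h2]

theorem conj_mem_S (d : Dat G S T) {g a : X} (ha : a ∈ G) (h : g * a * g⁻¹ ∈ S ⊔ T) :
    g * a * g⁻¹ ∈ S := d.P_inf_G h (d.Gn.conj_mem _ ha g)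

theorem exists_G_of (d : Dat G S T) {k : X} (hk : k ∈ G ⊔ T) {Q : Subgroup X} (hQ : cj k Q ≤ S ⊔ T) :
    ∃ g ∈ G, ∃ t ∈ T, k = t * g ∧ cj g Q ≤ S ⊔ T := by
  obtain ⟨g', hg', t, ht, rfl⟩ := d.mem_Y.1 hk
  refine ⟨t⁻¹ * g' * t, ?_, t, ht, by group, ?_⟩
  · have := d.Gn.conj_mem _ hg' t⁻¹
    rwa [inv_inv] at this
  · have h1 : cj (t⁻¹ * g' * t) Q = cj t⁻¹ (cj (g' * t) Q) := by rw [cj_cj, mul_assoc]
    rw [h1]
    have ht' : t⁻¹ ∈ S ⊔ T := inv_mem (le_sup_right (a := S) (b := T) ht)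
    exact (cj_mono hQ).trans (H14.cj_le_of_mem ht' le_rfl)

theorem cj_conj {g x : X} {Q : Subgroup X} {K : Subgroup X} (h : cj g Q ≤ K) (hx : x ∈ Q) : g * x * g⁻¹ ∈ K :=
  h (conj_mem_cj.2 hx)

variable [Finite X]

theorem sylP (d : Dat G S T) : IsSylIn 2 (S ⊔ T) (G ⊔ T) := by
  haveI : Fact (Nat.Prime 2) := ⟨Nat.prime_two⟩
  obtain ⟨P', hP', hle⟩ := H14.exists_isSylIn_ge (p := 2) d.P_le_Y d.P_pgroup
  have h1 : P' = S ⊔ T := by
    apply le_antisymm _ hle
    intro x hx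
    obtain ⟨g, hg, t, ht, rfl⟩ := d.mem_Y.1 (hP'.le hx)
    have ht' : t ∈ P' := hle (le_sup_right (a := S) (b := T) ht)
    have hg' : g ∈ P' := by
      have := mul_mem hx (inv_mem ht')
      rwa [mul_inv_cancel_right] at this
    have h2 : P' ⊓ G = S := d.syl.eq_of_le (le_inf (le_sup_left.trans hle) d.SG) inf_le_right
      (hP'.pgroup.to_le inf_le_left)
    have h3 : g ∈ S := by rw [← h2]; exact mem_inf.2 ⟨hg', hg⟩
    exact d.mem_P.2 ⟨g, h3, t, ht, rfl⟩
  rw [← h1]; exact hP'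

/-- moving `C_S(s) T` into `P` -/
theorem lemA (d : Dat G S T) {c s g : X} (hc : c ∈ T) (hcT : ∀ t ∈ T, t * c = c * t) (hs : s ∈ S)
    (hg : g ∈ G) (he : g * c * g⁻¹ = s * c) :
    ∃ w ∈ G, cj w ((S ⊓ centralizer {s}) ⊔ T) ≤ S ⊔ T ∧ w * (s * c) * w⁻¹ = c := by
  haveI : Fact (Nat.Prime 2) := ⟨Nat.prime_two⟩
  set Q := (S ⊓ centralizer {s}) ⊔ T with hQ
  have hQP : Q ≤ S ⊔ T := sup_le_sup_right inf_le_left _
  have hP : S ⊔ T ≤ (G ⊔ T) ⊓ centralizer {c} := by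
    refine le_inf d.P_le_Y ?_
    intro x hx
    obtain ⟨a, ha, t, ht, rfl⟩ := d.mem_P.1 hx
    rw [mem_centralizer_singleton_iff]
    rw [mul_assoc, hcT t ht, ← mul_assoc, d.ST a ha c hc, mul_assoc]
  have hsyl := d.sylP.mono hP inf_le_left
  have hQc : ∀ x ∈ Q, x * (s * c) = (s * c) * x := by
    intro x hx
    have hQm : ∀ a ∈ S ⊓ centralizer {s}, ∀ b ∈ T, a * b = b * a := fun a ha b hb => d.ST a ha.1 b hb
    obtain ⟨a, ha, t, ht, rfl⟩ := (mem_sup_comm hQm).1 hx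
    have h1 : a * s = s * a := mem_centralizer_singleton_iff.1 ha.2
    have h2 := d.ST a ha.1 c hc
    have h3 := d.ST s hs t ht
    have h4 := hcT t ht
    calc a * t * (s * c) = a * (t * s) * c := by group
      _ = a * (s * t) * c := by rw [h3]
      _ = (a * s) * (t * c) := by group
      _ = (s * a) * (c * t) := by rw [h1, h4]
      _ = s * (a * c) * t := by group
      _ = s * (c * a) * t := by rw [h2]
      _ = s * c * (a * t) := by group
  have hQle : cj g⁻¹ Q ≤ (G ⊔ T) ⊓ centralizer {c} := by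
    intro x hx
    rw [mem_cj, inv_inv] at hx
    have hgY : g ∈ G ⊔ T := le_sup_left (a := G) (b := T) hg
    refine mem_inf.2 ⟨?_, ?_⟩
    · have h1 := mul_mem (mul_mem (inv_mem hgY) (d.P_le_Y (hQP hx))) hgY
      have h2 : g⁻¹ * (g * x * g⁻¹) * g = x := by group
      rwa [h2] at h1
    · rw [mem_centralizer_singleton_iff]
      have h1 := hQc _ hx
      rw [← he] at h1
      have h2 : g * x * g⁻¹ * (g * c * g⁻¹) = g * (x * c) * g⁻¹ := by group
      have h3 : g * c * g⁻¹ * (g * x * g⁻¹) = g * (c * x) * g⁻¹ := by group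
      rw [h2, h3] at h1
      exact mul_left_cancel (mul_right_cancel h1)
  obtain ⟨k, hk, hkle⟩ := hsyl.exists_cj_le hQle (isPGroup_cj.2 (d.P_pgroup.to_le hQP))
  rw [cj_cj] at hkle
  have hkY : k * g⁻¹ ∈ G ⊔ T := mul_mem hk.1 (inv_mem (le_sup_left (a := G) (b := T) hg))
  obtain ⟨w, hw, t, ht, hwt, hwle⟩ := d.exists_G_of hkY hkle
  refine ⟨w, hw, hwle, ?_⟩
  have h1 : w = t⁻¹ * (k * g⁻¹) := by rw [hwt]; group
  have h2 : k * c = c * k := mem_centralizer_singleton_iff.1 hk.2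
  have h3 : g⁻¹ * (s * c) * g = c := by rw [← he]; group
  have h4 := hcT t ht
  calc w * (s * c) * w⁻¹ = t⁻¹ * (k * (g⁻¹ * (s * c) * g) * k⁻¹) * t := by rw [h1]; group
    _ = t⁻¹ * (k * c * k⁻¹) * t := by rw [h3]
    _ = t⁻¹ * c * t := by rw [h2, mul_inv_cancel_right]
    _ = c := by rw [mul_assoc, ← h4, inv_mul_cancel_left]

/-- elements of `T'` central in `T` are isolated -/
theorem part1 (d : Dat G S T) {c : X} (hc : c ∈ T) (hcT : ∀ t ∈ T, t * c = c * t) (hc' : c ∈ ⁅T, T⁆)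
    {g₀ : X} (hg₀ : g₀ ∈ G) (h₀ : g₀ * c * g₀⁻¹ ∈ S ⊔ T) : g₀ * c * g₀⁻¹ = c := by
  by_contra hne
  obtain ⟨B, hB⟩ : ∃ B : Set X, B = {s | s ∈ S ∧ s ≠ 1 ∧ ∃ g ∈ G, g * c * g⁻¹ = s * c} := ⟨_, rfl⟩
  have hBne : B.Nonempty := by
    obtain ⟨r, hr, he⟩ := d.conj_form hg₀ hc h₀
    refine ⟨r, ?_⟩
    rw [hB]
    refine ⟨hr, ?_, g₀, hg₀, he⟩
    rintro rfl
    rw [one_mul] at he
    exact hne he
  obtain ⟨s, hsB, hmax⟩ := Set.exists_max_image B (fun s => Nat.card (S ⊓ centralizer {s} : Subgroup X))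
    (Set.toFinite B) hBne
  rw [hB] at hsB
  obtain ⟨hs, hs1, g, hg, he⟩ := hsB
  obtain ⟨w, hw, hwle, hwc⟩ := d.lemA hc hcT hs hg he
  obtain ⟨R, hR⟩ : ∃ R : Subgroup X, R = S ⊓ centralizer {s} := ⟨_, rfl⟩
  rw [← hR] at hwle
  have hRS : R ≤ S := by rw [hR]; exact inf_le_left
  have hsR : s ∈ R := by rw [hR]; exact mem_inf.2 ⟨hs, mem_centralizer_singleton_iff.2 rfl⟩
  have hcP : w * c * w⁻¹ ∈ S ⊔ T := cj_conj hwle (le_sup_right (a := R) (b := T) hc)
  obtain ⟨u, hu, hue⟩ := d.conj_form hw hc hcP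
  have hu1 : u ≠ 1 := by
    rintro rfl
    rw [one_mul] at hue
    have h1 : w * (s * c) * w⁻¹ = w * s * w⁻¹ * (w * c * w⁻¹) := by group
    rw [hwc, hue] at h1
    have h2 : w * s * w⁻¹ = 1 := by
      have := mul_right_cancel (h1.symm.trans (one_mul c).symm)
      exact this
    apply hs1
    exact conj_eq_one_iff.1 h2
  have hcardu : Nat.card (S ⊓ centralizer {u} : Subgroup X) ≤ Nat.card R := by
    rw [hR]
    exact hmax u (by rw [hB]; exact ⟨hu, hu1, w, hw, hue⟩)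
  -- `w s w⁻¹ = u⁻¹`
  have hsu : w * s * w⁻¹ = u⁻¹ := by
    have h1 : w * (s * c) * w⁻¹ = w * s * w⁻¹ * (w * c * w⁻¹) := by group
    rw [hwc, hue] at h1
    have h2 : w * s * w⁻¹ * u = 1 := by
      have h3 : w * s * w⁻¹ * u * c = 1 * c := by rw [one_mul, mul_assoc]; exact h1.symm
      exact mul_right_cancel h3
    exact eq_inv_of_mul_eq_one_left h2
  have hle : cj w R ≤ S ⊓ centralizer {u} := by
    intro x hx
    rw [mem_cj] at hx
    have h1 : x = w * (w⁻¹ * x * w) * w⁻¹ := by group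
    refine mem_inf.2 ⟨?_, ?_⟩
    · rw [h1]
      exact d.conj_mem_S (d.SG (hRS hx)) (cj_conj hwle (le_sup_left (a := R) (b := T) hx))
    · rw [mem_centralizer_singleton_iff]
      rw [hR] at hx
      have h2 : w⁻¹ * x * w * s = s * (w⁻¹ * x * w) := mem_centralizer_singleton_iff.1 hx.2
      have h3 : x * (w * s * w⁻¹) = (w * s * w⁻¹) * x := by
        have h4 : x * (w * s * w⁻¹) = w * (w⁻¹ * x * w * s) * w⁻¹ := by group
        rw [h4, h2]; group
      rw [hsu] at h3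
      have h5 : u * (x * u⁻¹) * u = u * (u⁻¹ * x) * u := by rw [h3]
      have h6 : u * (x * u⁻¹) * u = u * x := by group
      have h7 : u * (u⁻¹ * x) * u = x * u := by group
      rw [h6, h7] at h5
      exact h5.symm
  have heq : cj w R = S ⊓ centralizer {u} :=
    eq_of_le_of_card_ge hle (by rw [card_cj]; exact hcardu)
  -- the elements `r_a`
  have hr : ∀ a ∈ T, ∃ r ∈ S ⊓ centralizer {u}, (∀ y ∈ S ⊓ centralizer {u}, r * y = y * r) ∧
      w * a * w⁻¹ = r * a := by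
    intro a ha
    have haP : w * a * w⁻¹ ∈ S ⊔ T := cj_conj hwle (le_sup_right (a := R) (b := T) ha)
    obtain ⟨r, hr, hre⟩ := d.conj_form hw ha haP
    have hcomm : ∀ y ∈ S ⊓ centralizer {u}, r * y = y * r := by
      intro y hy
      have hyS : y ∈ S := hy.1
      rw [← heq, mem_cj] at hy
      have h1 := d.ST _ (hRS hy) a ha
      have h2 : y * (w * a * w⁻¹) = (w * a * w⁻¹) * y := by
        have h3 : y * (w * a * w⁻¹) = w * (w⁻¹ * y * w * a) * w⁻¹ := by group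
        rw [h3, h1]; group
      rw [hre] at h2
      have h4 := d.ST y hyS a ha
      have h5 : y * r * a = r * y * a := by
        calc y * r * a = y * (r * a) := by group
          _ = r * (a * y) := by rw [h2]; group
          _ = r * y * a := by rw [← h4]; group
      exact (mul_right_cancel h5).symm
    refine ⟨r, mem_inf.2 ⟨hr, ?_⟩, hcomm, hre⟩
    rw [mem_centralizer_singleton_iff]
    exact hcomm u (mem_inf.2 ⟨hu, mem_centralizer_singleton_iff.2 rfl⟩)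
  -- the commutator subgroup is centralized by `w`
  have hcen : ⁅T, T⁆ ≤ centralizer {w} := by
    rw [Subgroup.commutator_le]
    intro a ha b hb
    obtain ⟨r, hr1, hr2, hr3⟩ := hr a ha
    obtain ⟨q, hq1, hq2, hq3⟩ := hr b hb
    have h1 : r * q = q * r := hr2 q hq1
    have h2 := d.ST r hr1.1 a ha
    have h3 := d.ST r hr1.1 b hb
    have h4 := d.ST q hq1.1 a ha
    have h5 := d.ST q hq1.1 b hb
    rw [mem_centralizer_singleton_iff]
    have e1 : w * ⁅a, b⁆ * w⁻¹ = ⁅r * a, q * b⁆ := by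
      rw [← hr3, ← hq3, commutatorElement_def, commutatorElement_def]; group
    have e2 : ⁅r * a, q * b⁆ = ⁅a, b⁆ := by
      rw [commutatorElement_def, commutatorElement_def]
      have e3 : r * a * (q * b) = (r * q) * (a * b) := by
        calc r * a * (q * b) = r * (a * q) * b := by group
          _ = r * (q * a) * b := by rw [h4]
          _ = (r * q) * (a * b) := by group
      have e4 : q * b * (r * a) = (r * q) * (b * a) := by
        calc q * b * (r * a) = q * (b * r) * a := by group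
          _ = q * (r * b) * a := by rw [h3]
          _ = (q * r) * (b * a) := by group
          _ = (r * q) * (b * a) := by rw [h1]
      have e5 : r * a * (q * b) * (r * a)⁻¹ * (q * b)⁻¹ = (r * a * (q * b)) * (q * b * (r * a))⁻¹ := by group
      have e6 : a * b * a⁻¹ * b⁻¹ = (a * b) * (b * a)⁻¹ := by group
      rw [e5, e6, e3, e4]
      have hra : Commute r a := h2
      have hrb : Commute r b := h3
      have hqa : Commute q a := h4
      have hqb : Commute q b := h5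
      have hza : Commute (r * q) a := hra.mul_left hqa
      have hzb : Commute (r * q) b := hrb.mul_left hqb
      have hz : Commute (r * q) ((a * b) * (b * a)⁻¹) :=
        (hza.mul_right hzb).mul_right (hzb.mul_right hza).inv_right
      have e8 : r * q * (a * b) * (r * q * (b * a))⁻¹ = (r * q) * ((a * b) * (b * a)⁻¹) * (r * q)⁻¹ := by group
      rw [e8, hz.eq, mul_inv_cancel_right]
    rw [e2] at e1
    have e7 : w * ⁅a, b⁆ = ⁅a, b⁆ * w := by
      calc w * ⁅a, b⁆ = (w * ⁅a, b⁆ * w⁻¹) * w := by group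
        _ = ⁅a, b⁆ * w := by rw [e1]
    exact e7.symm
  have hcw := mem_centralizer_singleton_iff.1 (hcen hc')
  apply hu1
  have h1 : w * c * w⁻¹ = c := by rw [← hcw, mul_inv_cancel_right]
  rw [hue] at h1
  exact mul_eq_right.1 h1

/-- isolated elements centralize `G` -/
theorem central_of_isolated (d : Dat G S T)
    (hO : ∀ N : Subgroup X, N ≤ G → G ≤ normalizer (N : Set X) → Odd (Nat.card N) → N = ⊥)
    {c : X} (hc : c ∈ T) (hcT : ∀ t ∈ T, t * c = c * t)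
    (hiso : ∀ g ∈ G, g * c * g⁻¹ ∈ S ⊔ T → g * c * g⁻¹ = c) {g : X} (hg : g ∈ G) : g * c = c * g := by
  haveI : Fact (Nat.Prime 2) := ⟨Nat.prime_two⟩
  haveI := d.Gn
  obtain ⟨Q, hQ⟩ := d.sylP.exists_sylow
  have hcP : c ∈ S ⊔ T := le_sup_right (a := S) (b := T) hc
  have hcY : c ∈ G ⊔ T := d.P_le_Y hcP
  have hgY : g ∈ G ⊔ T := le_sup_left (a := G) (b := T) hg
  have hmem : ∀ y : (G ⊔ T : Subgroup X), y ∈ (Q : Subgroup (G ⊔ T : Subgroup X)) ↔ (y : X) ∈ S ⊔ T := by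
    intro y
    rw [← hQ]
    constructor
    · intro hy; exact ⟨y, hy, rfl⟩
    · rintro ⟨z, hz, hzy⟩
      have : z = y := Subtype.ext hzy
      rwa [← this]
  have key := zstar_elt Q (x := ⟨c, hcY⟩) ((hmem _).2 hcP) (by
    intro y hy
    rw [hmem] at hy
    obtain ⟨g', hg', t, ht, hy'⟩ := d.mem_Y.1 y.2
    apply Subtype.ext
    have h1 : (y : X) * c * (y : X)⁻¹ = g' * c * g'⁻¹ := by
      rw [hy']
      have h2 := hcT t ht
      have h3 : g' * t * c * (g' * t)⁻¹ = g' * (t * c) * t⁻¹ * g'⁻¹ := by group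
      rw [h3, h2]; group
    show (y : X) * c * (y : X)⁻¹ = c
    have h4 : (y : X) * c * (y : X)⁻¹ ∈ S ⊔ T := hy
    rw [h1] at h4 ⊢
    exact hiso g' hg' h4) ⟨g, hgY⟩
  obtain ⟨N, hN⟩ : ∃ N : Subgroup X, N = (oddCore (G ⊔ T : Subgroup X)).map (G ⊔ T).subtype ⊓ G := ⟨_, rfl⟩
  have hcore : Odd (Nat.card ((oddCore (G ⊔ T : Subgroup X)).map (G ⊔ T).subtype)) := by
    rw [card_map_of_injective (G ⊔ T).subtype_injective]
    exact oddCore_odd _
  have hNbot : N = ⊥ := by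
    apply hO
    · rw [hN]; exact inf_le_right
    · intro x hx
      rw [hN, mem_normalizer_iff]
      have hxY : x ∈ G ⊔ T := le_sup_left (a := G) (b := T) hx
      haveI hnorm : (oddCore (G ⊔ T : Subgroup X)).Normal := Cfsg.Agent.H1.pPrimeCore_normal 2 _
      have aux : ∀ x ∈ G, ∀ y : X, y ∈ (oddCore (G ⊔ T : Subgroup X)).map (G ⊔ T).subtype ⊓ G →
          x * y * x⁻¹ ∈ (oddCore (G ⊔ T : Subgroup X)).map (G ⊔ T).subtype ⊓ G := by
        rintro x hx y ⟨⟨z, hz, rfl⟩, hyG⟩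
        have hxY : x ∈ G ⊔ T := le_sup_left (a := G) (b := T) hx
        refine mem_inf.2 ⟨⟨⟨x, hxY⟩ * z * ⟨x, hxY⟩⁻¹, hnorm.conj_mem z hz _, rfl⟩, d.Gn.conj_mem _ hyG x⟩
      intro y
      constructor
      · exact aux x hx y
      · intro hy
        have := aux x⁻¹ (inv_mem hx) _ hy
        have h2 : x⁻¹ * (x * y * x⁻¹) * x⁻¹⁻¹ = y := by group
        rwa [h2] at this
    · rw [hN]
      exact Odd.of_dvd_nat hcore (card_dvd_of_le inf_le_left)
  have h1 : c * g * c⁻¹ * g⁻¹ ∈ N := by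
    rw [hN]
    refine mem_inf.2 ⟨⟨_, key, rfl⟩, ?_⟩
    exact mul_mem (d.Gn.conj_mem _ hg c) (inv_mem hg)
  rw [hNbot, mem_bot] at h1
  have h2 : c * g * c⁻¹ = g := mul_inv_eq_one.1 h1
  calc g * c = (c * g * c⁻¹) * c := by rw [h2]
    _ = c * g := by group

end Dat
end Cfsg.Agent.H4.AutC
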