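import Mathlib
import Cfsg.Agent.H4.AutCent
set_option autoImplicit false

/-! Automorphisms centralizing a Sylow 2-subgroup (Glauberman): the norm argument. -/

namespace Cfsg.Agent.H4.AutC

open Cfsg Subgroup
open Cfsg.Agent.H14 (IsSylIn cj cj_cj mem_cj cj_mono card_cj isPGroup_cj conj_mem_cj)

universe u
variable {X : Type u} [Group X] [Finite X]

/-- conjugation by `y` on a subgroup it normalizes -/
def cA (A : Subgroup X) (y : X) (hy : ∀ a ∈ A, y * a * y⁻¹ ∈ A) : A →* A where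
  toFun a := ⟨y * a * y⁻¹, hy a a.2⟩
  map_one' := Subtype.ext (by simp)
  map_mul' a b := Subtype.ext (by simp [mul_assoc])

theorem norm_lemma {N T Z D : Subgroup X} (hZc : ∀ x ∈ Z, ∀ y ∈ Z, x * y = y * x)
    (hZT : ∀ z ∈ Z, ∀ t ∈ T, z * t = t * z) (hTc : ∀ a ∈ T, ∀ b ∈ T, a * b = b * a)
    (hNZ : ∀ x ∈ N, ∀ z ∈ Z, x * z * x⁻¹ ∈ Z) (hNT : ∀ x ∈ N, ∀ a ∈ T, x * a * x⁻¹ * a⁻¹ ∈ Z)
    (hDN : D ≤ N) (hDT : ∀ x ∈ D, ∀ a ∈ T, x * a = a * x) (hodd : Odd (D.relIndex N)) {h : X}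
    (hhN : ∀ x ∈ N, h⁻¹ * x * h ∈ N) (hhZ : ∀ z ∈ Z, h * z = z * h) (hhT : ∀ t ∈ T, h * t * h⁻¹ ∈ T)
    (hT2 : IsPGroup 2 T) {a : X} (ha : a ∈ T) {x : X} (hx : x ∈ N) :
    x * (a⁻¹ * (h * a * h⁻¹)) = (a⁻¹ * (h * a * h⁻¹)) * x := by
  classical
  obtain ⟨A, hA⟩ : ∃ A : Subgroup X, A = Z ⊔ T := ⟨_, rfl⟩
  have hAm : ∀ {x : X}, x ∈ A ↔ ∃ z ∈ Z, ∃ t ∈ T, x = z * t := by
    intro x; rw [hA]; exact mem_sup_comm hZT
  have hAc : ∀ x ∈ A, ∀ y ∈ A, x * y = y * x := by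
    intro x hx y hy
    obtain ⟨z, hz, t, ht, rfl⟩ := hAm.1 hx
    obtain ⟨w, hw, s, hs, rfl⟩ := hAm.1 hy
    have h1 : Commute z w := hZc z hz w hw
    have h2 : Commute z s := hZT z hz s hs
    have h3 : Commute t w := (hZT w hw t ht).symm
    have h4 : Commute t s := hTc t ht s hs
    exact ((h1.mul_right h2).mul_left (h3.mul_right h4)).eq
  letI : CommGroup A := { (inferInstance : Group A) with
    mul_comm := fun a b => Subtype.ext (hAc a a.2 b b.2) }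
  have hNA : ∀ y ∈ N, ∀ b ∈ A, y * b * y⁻¹ ∈ A := by
    intro y hy b hb
    obtain ⟨z, hz, t, ht, rfl⟩ := hAm.1 hb
    have h1 : y * (z * t) * y⁻¹ = (y * z * y⁻¹) * (y * t * y⁻¹ * t⁻¹) * t := by group
    rw [h1]
    exact hAm.2 ⟨_, mul_mem (hNZ y hy z hz) (hNT y hy t ht), t, ht, rfl⟩
  have haA : a ∈ A := hAm.2 ⟨1, Z.one_mem, a, ha, (one_mul a).symm⟩
  obtain ⟨D', hD'⟩ : ∃ D' : Subgroup N, D' = D.subgroupOf N := ⟨_, rfl⟩
  haveI : Fintype (N ⧸ D') := Fintype.ofFinite _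
  -- the orbit map
  let f : N ⧸ D' → A := Quotient.lift (fun x : N => (⟨(x : X) * a * (x : X)⁻¹, hNA x x.2 a haA⟩ : A)) (by
    intro x y hxy
    have h1 : x⁻¹ * y ∈ D' := QuotientGroup.leftRel_apply.1 hxy
    rw [hD', mem_subgroupOf] at h1
    have h2 := hDT _ h1 a ha
    apply Subtype.ext
    show (x : X) * a * (x : X)⁻¹ = (y : X) * a * (y : X)⁻¹
    have h3 : (y : X) = x * ((x⁻¹ * y : N) : X) := by simp
    rw [h3]
    have h4 : (x : X) * ((x⁻¹ * y : N) : X) * a * ((x : X) * ((x⁻¹ * y : N) : X))⁻¹ =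
      (x : X) * (((x⁻¹ * y : N) : X) * a) * ((x⁻¹ * y : N) : X)⁻¹ * (x : X)⁻¹ := by group
    rw [h4, h2]; group)
  have hf : ∀ x : N, ((f (x : N ⧸ D') : A) : X) = (x : X) * a * (x : X)⁻¹ := fun x => rfl
  obtain ⟨F, hF⟩ : ∃ F : A, F = ∏ q, f q := ⟨_, rfl⟩
  -- invariance
  have hinv : ∀ y ∈ N, y * (F : X) * y⁻¹ = F := by
    intro y hy
    have h1 : cA A y (hNA y hy) F = F := by
      have h2 : ∀ q : N ⧸ D', cA A y (hNA y hy) (f q) = f ((⟨y, hy⟩ : N) • q) := by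
        intro q
        obtain ⟨x, rfl⟩ := QuotientGroup.mk_surjective q
        apply Subtype.ext
        show y * ((x : X) * a * (x : X)⁻¹) * y⁻¹ = (y * x) * a * (y * x)⁻¹
        group
      rw [hF, map_prod]
      calc ∏ q, cA A y (hNA y hy) (f q) = ∏ q, f ((⟨y, hy⟩ : N) • q) := by
            apply Finset.prod_congr rfl; intro q _; exact h2 q
        _ = ∏ q, f q := Equiv.prod_comp (MulAction.toPerm (⟨y, hy⟩ : N)) f
    exact congrArg Subtype.val h1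
  -- the form of `F`
  obtain ⟨k, hk⟩ : ∃ k : ℕ, k = Fintype.card (N ⧸ D') := ⟨_, rfl⟩
  have hkodd : Odd k := by
    rw [hk, ← Nat.card_eq_fintype_card]
    have : Nat.card (N ⧸ D') = D.relIndex N := by rw [hD']; rfl
    rw [this]; exact hodd
  obtain ⟨z, hz, hzF⟩ : ∃ z ∈ Z, (F : X) = z * a ^ k := by
    have h1 : ∀ q : N ⧸ D', f q * (⟨a, haA⟩ : A)⁻¹ ∈ Z.subgroupOf A := by
      intro q
      obtain ⟨x, rfl⟩ := QuotientGroup.mk_surjective q
      rw [mem_subgroupOf]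
      show (x : X) * a * (x : X)⁻¹ * a⁻¹ ∈ Z
      exact hNT x x.2 a ha
    have h2 : ∏ q, (f q * (⟨a, haA⟩ : A)⁻¹) ∈ Z.subgroupOf A := prod_mem (fun q _ => h1 q)
    refine ⟨_, mem_subgroupOf.1 h2, ?_⟩
    have h3 : (∏ q, (f q * (⟨a, haA⟩ : A)⁻¹)) * (⟨a, haA⟩ : A) ^ k = F := by
      rw [Finset.prod_mul_distrib, Finset.prod_const, Finset.card_univ, ← hk, hF, inv_pow, inv_mul_cancel_right]
    rw [← h3]; rfl
  obtain ⟨b, hb⟩ : ∃ b : X, b = h * a * h⁻¹ := ⟨_, rfl⟩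
  have hbT : b ∈ T := by rw [hb]; exact hhT a ha
  have hFh : h * (F : X) * h⁻¹ = z * b ^ k := by
    rw [hzF, hb, conj_pow]
    have h1 := hhZ z hz
    have h2 : h * (z * a ^ k) * h⁻¹ = (h * z) * a ^ k * h⁻¹ := by group
    rw [h2, h1]; group
  have hinv2 : ∀ y ∈ N, y * (h * (F : X) * h⁻¹) * y⁻¹ = h * (F : X) * h⁻¹ := by
    intro y hy
    have h1 := hinv _ (hhN y hy)
    have h2 : y * (h * (F : X) * h⁻¹) * y⁻¹ = h * ((h⁻¹ * y * h) * F * (h⁻¹ * y * h)⁻¹) * h⁻¹ := by group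
    rw [h2, h1]
  -- conclusion for the power
  obtain ⟨c, hc⟩ : ∃ c : X, c = a⁻¹ * b := ⟨_, rfl⟩
  have hcT : c ∈ T := by rw [hc]; exact mul_mem (inv_mem ha) hbT
  have hck : c ^ k = (F : X)⁻¹ * (h * (F : X) * h⁻¹) := by
    rw [hFh, hzF]
    have h1 : Commute a⁻¹ b := (show Commute a b from hTc a ha b hbT).inv_left
    rw [hc, h1.mul_pow, mul_inv_rev, inv_pow]; group
  have hcomm : x * c ^ k = c ^ k * x := by
    have h1 := hinv x hx
    have h2 := hinv2 x hx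
    have h3 : Commute x (F : X) := by
      show x * (F : X) = F * x
      calc x * (F : X) = (x * F * x⁻¹) * x := by group
        _ = F * x := by rw [h1]
    have h4 : Commute x (h * (F : X) * h⁻¹) := by
      show x * (h * (F : X) * h⁻¹) = (h * (F : X) * h⁻¹) * x
      calc x * (h * (F : X) * h⁻¹) = (x * (h * (F : X) * h⁻¹) * x⁻¹) * x := by group
        _ = (h * (F : X) * h⁻¹) * x := by rw [h2]
    rw [hck]
    exact (h3.inv_right.mul_right h4).eq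
  have hcop : Nat.Coprime k (orderOf c) := by
    obtain ⟨n, hn⟩ := IsPGroup.iff_orderOf.1 hT2 ⟨c, hcT⟩
    rw [Subgroup.orderOf_mk] at hn
    rw [hn]
    apply Nat.Coprime.pow_right
    exact Nat.coprime_two_right.2 hkodd
  obtain ⟨m, hm⟩ := exists_pow_eq_self_of_coprime hcop
  have h1 : Commute x c := by
    have h2 : Commute x (c ^ k) := hcomm
    have h3 := h2.pow_right m
    rwa [hm] at h3
  rw [← hb, ← hc]
  exact h1.eq

variable {G S T : Subgroup X}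

theorem card_sup_of {A : Subgroup X} (d : Dat G S T) (hA : A ≤ S) :
    Nat.card (A ⊔ T : Subgroup X) = Nat.card A * Nat.card T := by
  have hm : ∀ a ∈ A, ∀ b ∈ T, a * b = b * a := fun a ha b hb => d.ST a (hA ha) b hb
  rw [← Nat.card_prod]
  refine (Nat.card_congr (Equiv.ofBijective (fun p : A × T => (⟨(p.1 : X) * p.2,
    (mem_sup_comm hm).2 ⟨p.1, p.1.2, p.2, p.2.2, rfl⟩⟩ : (A ⊔ T : Subgroup X))) ⟨?_, ?_⟩)).symm
  · rintro ⟨a, t⟩ ⟨b, s⟩ h
    have h1 : (a : X) * t = b * s := congrArg Subtype.val h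
    have h2 : (b : X)⁻¹ * a = s * (t : X)⁻¹ := by
      have h3 : (b : X)⁻¹ * a = (b : X)⁻¹ * (a * t) * (t : X)⁻¹ := by group
      rw [h3, h1]; group
    have h4 : (b : X)⁻¹ * a = 1 := by
      apply d.eq_one_of
      · exact d.SG (hA (mul_mem (inv_mem b.2) a.2))
      · rw [h2]; exact mul_mem s.2 (inv_mem t.2)
    have h5 : b = a := Subtype.ext (inv_mul_eq_one.1 h4)
    subst h5
    have h6 : s = t := by
      apply Subtype.ext
      exact (mul_left_cancel h1).symm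
    rw [h6]
  · rintro ⟨x, hx⟩
    obtain ⟨a, ha, t, ht, rfl⟩ := (mem_sup_comm hm).1 hx
    exact ⟨(⟨a, ha⟩, ⟨t, ht⟩), rfl⟩

theorem mem_cent_sup (d : Dat G S T) (hTc : ∀ a ∈ T, ∀ b ∈ T, a * b = b * a) {x v c : X}
    (hx : x ∈ S ⊔ T) (hv : v ∈ S) (hc : c ∈ T) (h : x * (v * c) = (v * c) * x) :
    x ∈ (S ⊓ centralizer {v}) ⊔ T := by
  obtain ⟨s, hs, t, ht, rfl⟩ := d.mem_P.1 hx
  refine mul_mem (le_sup_left (a := S ⊓ centralizer {v}) (b := T) (mem_inf.2 ⟨hs, ?_⟩))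
    (le_sup_right (a := S ⊓ centralizer {v}) (b := T) ht)
  rw [mem_centralizer_singleton_iff]
  have h1 : Commute (s * t) (v * c) := h
  have h2 : Commute s c := d.ST s hs c hc
  have h3 : Commute t c := hTc t ht c hc
  have h4 : Commute t v := (d.ST v hv t ht).symm
  have h5 : Commute (s * t) c := h2.mul_left h3
  have h6 : Commute (s * t) v := by
    have h7 : Commute (s * t) (v * c * c⁻¹) := h1.mul_right h5.inv_right
    rwa [mul_inv_cancel_right] at h7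
  have h8 : Commute (s * t * t⁻¹) v := h6.mul_left h4.inv_left
  rw [mul_inv_cancel_right] at h8
  exact h8.eq

theorem part2 (d : Dat G S T) (hTc : ∀ a ∈ T, ∀ b ∈ T, a * b = b * a) {h : X}
    (hhT : ∀ t ∈ T, h * t * h⁻¹ ∈ T) (hhS : ∀ s ∈ S, h * s = s * h) {a₀ : X} (ha₀ : a₀ ∈ T)
    {g₀ : X} (hg₀ : g₀ ∈ G) (h₀ : g₀ * (a₀⁻¹ * (h * a₀ * h⁻¹)) * g₀⁻¹ ∈ S ⊔ T) :
    g₀ * (a₀⁻¹ * (h * a₀ * h⁻¹)) * g₀⁻¹ = a₀⁻¹ * (h * a₀ * h⁻¹) := by
  haveI : Fact (Nat.Prime 2) := ⟨Nat.prime_two⟩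
  by_contra hne
  obtain ⟨A0, hA0⟩ : ∃ A0 : Set X, A0 = {c | ∃ a ∈ T, c = a⁻¹ * (h * a * h⁻¹)} := ⟨_, rfl⟩
  have hA0T : ∀ c ∈ A0, c ∈ T := by
    intro c hc
    rw [hA0] at hc
    obtain ⟨a, ha, rfl⟩ := hc
    exact mul_mem (inv_mem ha) (hhT a ha)
  obtain ⟨B, hB⟩ : ∃ B : Set X, B = {s | s ∈ S ∧ s ≠ 1 ∧ ∃ c ∈ A0, ∃ g ∈ G, g * c * g⁻¹ = s * c} := ⟨_, rfl⟩
  have hBne : B.Nonempty := by
    have hcT := hA0T (a₀⁻¹ * (h * a₀ * h⁻¹)) (by rw [hA0]; exact ⟨a₀, ha₀, rfl⟩)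
    obtain ⟨r, hr, he⟩ := d.conj_form hg₀ hcT h₀
    refine ⟨r, ?_⟩
    rw [hB]
    refine ⟨hr, ?_, _, (by rw [hA0]; exact ⟨a₀, ha₀, rfl⟩), g₀, hg₀, he⟩
    rintro rfl
    rw [one_mul] at he
    exact hne he
  obtain ⟨s, hsB, hmax'⟩ := Set.exists_max_image B (fun s => Nat.card (S ⊓ centralizer {s} : Subgroup X))
    (Set.toFinite B) hBne
  obtain ⟨R, hR⟩ : ∃ R : Subgroup X, R = S ⊓ centralizer {s} := ⟨_, rfl⟩
  have hmax : ∀ u ∈ S, u ≠ 1 → (∃ c ∈ A0, ∃ g ∈ G, g * c * g⁻¹ = u * c) →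
      Nat.card (S ⊓ centralizer {u} : Subgroup X) ≤ Nat.card R := by
    intro u hu hu1 hex
    rw [hR]
    exact hmax' u (by rw [hB]; exact ⟨hu, hu1, hex⟩)
  rw [hB] at hsB
  obtain ⟨hs, hs1, c, hcA, g, hg, he⟩ := hsB
  have hc : c ∈ T := hA0T c hcA
  have hRS : R ≤ S := by rw [hR]; exact inf_le_left
  have hsR : s ∈ R := by rw [hR]; exact mem_inf.2 ⟨hs, mem_centralizer_singleton_iff.2 rfl⟩
  obtain ⟨Q, hQ⟩ : ∃ Q : Subgroup X, Q = R ⊔ T := ⟨_, rfl⟩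
  have hRQ : R ≤ Q := by rw [hQ]; exact le_sup_left
  have hTQ : T ≤ Q := by rw [hQ]; exact le_sup_right
  have hQP : Q ≤ S ⊔ T := by rw [hQ]; exact sup_le_sup_right hRS _
  have hcardQ : Nat.card Q = Nat.card R * Nat.card T := by rw [hQ]; exact card_sup_of d hRS
  have hQm : ∀ {x : X}, x ∈ Q ↔ ∃ a ∈ R, ∃ b ∈ T, x = a * b := by
    intro x; rw [hQ]
    exact mem_sup_comm (fun a ha b hb => d.ST a (hRS ha) b hb)
  -- (M)
  have hM : ∀ R1 : Subgroup X, R1 ≤ S → Nat.card R < Nat.card R1 → ∀ g1 ∈ G, cj g1 (R1 ⊔ T) ≤ S ⊔ T →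
      ∀ c1 ∈ A0, g1 * c1 * g1⁻¹ = c1 := by
    intro R1 hR1S hlt g1 hg1 hle c1 hc1
    have hc1T := hA0T c1 hc1
    obtain ⟨u, hu, hue⟩ := d.conj_form hg1 hc1T (Dat.cj_conj hle (le_sup_right (a := R1) (b := T) hc1T))
    by_cases hu1 : u = 1
    · rw [hue, hu1, one_mul]
    · exfalso
      have h1 := hmax u hu hu1 ⟨c1, hc1, g1, hg1, hue⟩
      have h2 : cj g1 R1 ≤ S ⊓ centralizer {u} := by
        intro x hx
        rw [mem_cj] at hx
        have h3 : x = g1 * (g1⁻¹ * x * g1) * g1⁻¹ := by group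
        have hxS : x ∈ S := by
          rw [h3]
          exact d.conj_mem_S (d.SG (hR1S hx)) (Dat.cj_conj hle (le_sup_left (a := R1) (b := T) hx))
        refine mem_inf.2 ⟨hxS, ?_⟩
        rw [mem_centralizer_singleton_iff]
        have h4 : Commute (g1⁻¹ * x * g1) c1 := d.ST _ (hR1S hx) c1 hc1T
        have h5 : Commute x (u * c1) := by
          show x * (u * c1) = (u * c1) * x
          rw [← hue]
          calc x * (g1 * c1 * g1⁻¹) = g1 * (g1⁻¹ * x * g1 * c1) * g1⁻¹ := by group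
            _ = g1 * (c1 * (g1⁻¹ * x * g1)) * g1⁻¹ := by rw [h4.eq]
            _ = g1 * c1 * g1⁻¹ * x := by group
        have h6 : Commute x c1 := d.ST x hxS c1 hc1T
        have h7 : Commute x (u * c1 * c1⁻¹) := h5.mul_right h6.inv_right
        rw [mul_inv_cancel_right] at h7
        exact h7.eq
      have h3 := card_le_of_le h2
      rw [card_cj] at h3
      omega
  -- (TQ)
  have hTQ' : ∀ y ∈ G, cj y Q ≤ S ⊔ T → T ≤ cj y Q := by
    intro y hy hle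
    obtain ⟨v, hv, hvc, hvle⟩ : ∃ v ∈ S, Nat.card (S ⊓ centralizer {v} : Subgroup X) ≤ Nat.card R ∧
        cj y Q ≤ (S ⊓ centralizer {v}) ⊔ T := by
      obtain ⟨u, hu, hue⟩ := d.conj_form hy hc (Dat.cj_conj hle (hTQ hc))
      by_cases hu1 : u = 1
      · rw [hu1, one_mul] at hue
        have hvS : y * s * y⁻¹ ∈ S := d.conj_mem_S (d.SG hs) (Dat.cj_conj hle (hRQ hsR))
        refine ⟨y * s * y⁻¹, hvS, ?_, ?_⟩
        · apply hmax _ hvS
          · intro h1; exact hs1 (conj_eq_one_iff.1 h1)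
          · refine ⟨c, hcA, y * g, mul_mem hy hg, ?_⟩
            calc y * g * c * (y * g)⁻¹ = y * (g * c * g⁻¹) * y⁻¹ := by group
              _ = y * (s * c) * y⁻¹ := by rw [he]
              _ = (y * s * y⁻¹) * (y * c * y⁻¹) := by group
              _ = y * s * y⁻¹ * c := by rw [hue]
        · intro x hx
          apply mem_cent_sup d hTc (hle hx) hvS T.one_mem
          rw [mem_cj] at hx
          rw [mul_one]
          obtain ⟨a, ha, b, hb, hab⟩ := hQm.1 hx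
          have h1 : Commute a s := by
            rw [hR] at ha
            exact mem_centralizer_singleton_iff.1 ha.2
          have h2 : Commute b s := (d.ST s hs b hb).symm
          have h3 : Commute (y⁻¹ * x * y) s := by rw [hab]; exact h1.mul_left h2
          calc x * (y * s * y⁻¹) = y * (y⁻¹ * x * y * s) * y⁻¹ := by group
            _ = y * (s * (y⁻¹ * x * y)) * y⁻¹ := by rw [h3.eq]
            _ = y * s * y⁻¹ * x := by group
      · refine ⟨u, hu, hmax u hu hu1 ⟨c, hcA, y, hy, hue⟩, ?_⟩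
        intro x hx
        apply mem_cent_sup d hTc (hle hx) hu hc
        rw [mem_cj] at hx
        obtain ⟨a, ha, b, hb, hab⟩ := hQm.1 hx
        have h1 : Commute a c := d.ST a (hRS ha) c hc
        have h2 : Commute b c := hTc b hb c hc
        have h3 : Commute (y⁻¹ * x * y) c := by rw [hab]; exact h1.mul_left h2
        rw [← hue]
        calc x * (y * c * y⁻¹) = y * (y⁻¹ * x * y * c) * y⁻¹ := by group
          _ = y * (c * (y⁻¹ * x * y)) * y⁻¹ := by rw [h3.eq]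
          _ = y * c * y⁻¹ * x := by group
    have heq : cj y Q = (S ⊓ centralizer {v}) ⊔ T := by
      apply eq_of_le_of_card_ge hvle
      rw [card_cj, hcardQ, card_sup_of d inf_le_left]
      exact Nat.mul_le_mul_right _ hvc
    rw [heq]; exact le_sup_right
  -- choose `y₀`
  obtain ⟨y₀, ⟨hy₀, hy₀le⟩, hymax⟩ := Set.exists_max_image {y : X | y ∈ G ∧ cj y Q ≤ S ⊔ T}
    (fun y => Nat.card (S ⊓ normalizer ((cj y Q : Subgroup X) : Set X) : Subgroup X))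
    (Set.toFinite _) ⟨1, G.one_mem, by rw [H14.cj_one]; exact hQP⟩
  obtain ⟨Q1, hQ1⟩ : ∃ Q1 : Subgroup X, Q1 = cj y₀ Q := ⟨_, rfl⟩
  have hQ1P : Q1 ≤ S ⊔ T := by rw [hQ1]; exact hy₀le
  have hTQ1 : T ≤ Q1 := by rw [hQ1]; exact hTQ' y₀ hy₀ hy₀le
  have hcardQ1 : Nat.card Q1 = Nat.card Q := by rw [hQ1, card_cj]
  obtain ⟨N, hN⟩ : ∃ N : Subgroup X, N = G ⊓ normalizer (Q1 : Set X) := ⟨_, rfl⟩
  obtain ⟨D, hD⟩ : ∃ D : Subgroup X, D = S ⊓ normalizer (Q1 : Set X) := ⟨_, rfl⟩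
  have hQ1Y : Q1 ≤ G ⊔ T := hQ1P.trans d.P_le_Y
  have hsylD : IsSylIn 2 D N := by
    have hDN : D ≤ N := by rw [hD, hN]; exact inf_le_inf_right _ d.SG
    have hD2 : IsPGroup 2 D := d.syl.pgroup.to_le (by rw [hD]; exact inf_le_left)
    obtain ⟨D', hD', hDD'⟩ := H14.exists_isSylIn_ge (p := 2) hDN hD2
    have hD'norm : D' ≤ normalizer (Q1 : Set X) := hD'.le.trans (by rw [hN]; exact inf_le_right)
    have hE2 : IsPGroup 2 (D' ⊔ Q1 : Subgroup X) :=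
      hD'.pgroup.to_sup_of_normal_right' (d.P_pgroup.to_le hQ1P) hD'norm
    have hEY : D' ⊔ Q1 ≤ G ⊔ T :=
      sup_le ((hD'.le.trans (by rw [hN]; exact inf_le_left)).trans le_sup_left) hQ1Y
    obtain ⟨k, hk, hkle⟩ := d.sylP.exists_cj_le hEY hE2
    obtain ⟨g', hg', t, ht, -, hg'le⟩ := d.exists_G_of hk hkle
    have h1 : cj g' Q1 ≤ S ⊔ T := (cj_mono le_sup_right).trans hg'le
    have h2 : cj g' D' ≤ S ⊔ T := (cj_mono le_sup_left).trans hg'le
    have h3 : cj (g' * y₀) Q = cj g' Q1 := by rw [hQ1, cj_cj]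
    have h4 := hymax (g' * y₀) ⟨mul_mem hg' hy₀, by rw [h3]; exact h1⟩
    simp only [h3, ← hQ1, ← hD] at h4
    have h5 : cj g' D' ≤ S ⊓ normalizer ((cj g' Q1 : Subgroup X) : Set X) := by
      rw [H14.normalizer_cj]
      refine le_inf ?_ (cj_mono hD'norm)
      intro x hx
      apply d.P_inf_G (h2 hx)
      rw [mem_cj] at hx
      have h6 : g'⁻¹ * x * g' ∈ G := by
        have := hD'.le hx
        rw [hN] at this; exact this.1
      have h7 := d.Gn.conj_mem _ h6 g'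
      have h8 : g' * (g'⁻¹ * x * g') * g'⁻¹ = x := by group
      rwa [h8] at h7
    have h6 := card_le_of_le h5
    rw [card_cj] at h6
    have h7 : D = D' := eq_of_le_of_card_ge hDD' (h6.trans h4)
    rw [h7]; exact hD'
  -- decomposition of `Q1`
  have hQ1dec : ∀ q ∈ Q1, ∃ r ∈ Q1 ⊓ G, ∃ t ∈ T, q = r * t := by
    intro q hq
    obtain ⟨r, hr, t, ht, rfl⟩ := d.mem_P.1 (hQ1P hq)
    refine ⟨r, mem_inf.2 ⟨?_, d.SG hr⟩, t, ht, rfl⟩
    have := mul_mem hq (inv_mem (hTQ1 ht))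
    rwa [mul_inv_cancel_right] at this
  have hQ1S : ∀ r ∈ Q1 ⊓ G, r ∈ S := fun r hr => d.P_inf_G (hQ1P hr.1) hr.2
  have hhQ1 : cj h Q1 = Q1 := by
    apply eq_of_le_of_card_ge _ (by rw [card_cj])
    intro x hx
    rw [mem_cj] at hx
    obtain ⟨r, hr, t, ht, hrt⟩ := hQ1dec _ hx
    have h1 : x = r * (h * t * h⁻¹) := by
      have h2 : x = h * (h⁻¹ * x * h) * h⁻¹ := by group
      rw [h2, hrt]
      have h3 := hhS r (hQ1S r hr)
      calc h * (r * t) * h⁻¹ = (h * r) * t * h⁻¹ := by group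
        _ = (r * h) * t * h⁻¹ := by rw [h3]
        _ = r * (h * t * h⁻¹) := by group
    rw [h1]
    exact mul_mem hr.1 (hTQ1 (hhT t ht))
  have hhQ1' : h ∈ normalizer (Q1 : Set X) := H14.mem_normalizer_cj.2 hhQ1
  -- (C)
  obtain ⟨Z, hZ⟩ : ∃ Z : Subgroup X, Z = (Q1 ⊓ G) ⊓ centralizer ((Q1 ⊓ G : Subgroup X) : Set X) := ⟨_, rfl⟩
  have hNQ : ∀ x ∈ N, ∀ q ∈ Q1, x * q * x⁻¹ ∈ Q1 := by
    intro x hx q hq
    rw [hN] at hx
    exact (mem_normalizer_iff.1 hx.2 q).1 hq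
  have hNQG : ∀ x ∈ N, ∀ q ∈ Q1 ⊓ G, x * q * x⁻¹ ∈ Q1 ⊓ G := by
    intro x hx q hq
    exact mem_inf.2 ⟨hNQ x hx q hq.1, d.Gn.conj_mem _ hq.2 x⟩
  have hC : ∀ c1 ∈ A0, ∀ x ∈ N, x * c1 = c1 * x := by
    intro c1 hc1 x hx
    rw [hA0] at hc1
    obtain ⟨a, ha, rfl⟩ := hc1
    refine norm_lemma (N := N) (T := T) (Z := Z) (D := D) ?_ ?_ hTc ?_ ?_ hsylD.le ?_ ?_ ?_ ?_ hhT d.T2 ha hx
    · intro x hx y hy
      rw [hZ] at hx hy
      exact (mem_centralizer_iff.1 hx.2 y hy.1).symm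
    · intro z hz t ht
      rw [hZ] at hz
      exact d.ST z (hQ1S z hz.1) t ht
    · intro x hx z hz
      rw [hZ] at hz ⊢
      refine mem_inf.2 ⟨hNQG x hx z hz.1, ?_⟩
      rw [mem_centralizer_iff]
      intro y hy
      have h1 := hNQG x⁻¹ (inv_mem hx) y hy
      have h2 := mem_centralizer_iff.1 hz.2 _ h1
      have h3 : y * (x * z * x⁻¹) = x * (x⁻¹ * y * x⁻¹⁻¹ * z) * x⁻¹ := by group
      rw [h3, h2]; group
    · intro x hx b hb
      rw [hZ]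
      have h1 : x * b * x⁻¹ * b⁻¹ ∈ Q1 ⊓ G := by
        refine mem_inf.2 ⟨mul_mem (hNQ x hx b (hTQ1 hb)) (inv_mem (hTQ1 hb)), ?_⟩
        have hxG : x ∈ G := by rw [hN] at hx; exact hx.1
        have h2 : x * b * x⁻¹ * b⁻¹ = x * (b * x⁻¹ * b⁻¹) := by group
        rw [h2]
        exact mul_mem hxG (d.Gn.conj_mem _ (inv_mem hxG) b)
      refine mem_inf.2 ⟨h1, ?_⟩
      rw [mem_centralizer_iff]
      intro y hy
      have h2 : Commute (x⁻¹ * y * x⁻¹⁻¹) b := d.ST _ (hQ1S _ (hNQG x⁻¹ (inv_mem hx) y hy)) b hb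
      have h3 : Commute y (x * b * x⁻¹) := by
        show y * (x * b * x⁻¹) = (x * b * x⁻¹) * y
        calc y * (x * b * x⁻¹) = x * (x⁻¹ * y * x⁻¹⁻¹ * b) * x⁻¹ := by group
          _ = x * (b * (x⁻¹ * y * x⁻¹⁻¹)) * x⁻¹ := by rw [h2.eq]
          _ = (x * b * x⁻¹) * y := by group
      have h4 : Commute y b := d.ST y (hQ1S y hy) b hb
      exact (h3.mul_right h4.inv_right).eq
    · intro x hx b hb
      rw [hD] at hx
      exact d.ST x hx.1 b hb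
    · have := hsylD.ndvd
      rwa [← even_iff_two_dvd, Nat.not_even_iff_odd] at this
    · intro x hx
      rw [hN] at hx ⊢
      refine mem_inf.2 ⟨?_, mul_mem (mul_mem (inv_mem hhQ1') hx.2) hhQ1'⟩
      have := d.Gn.conj_mem _ hx.1 h⁻¹
      rwa [inv_inv] at this
    · intro z hz
      rw [hZ] at hz
      exact hhS z (hQ1S z hz.1)
  -- (AL)
  have hAL : ∀ y ∈ G, cj y Q1 ≤ S ⊔ T → ∀ c1 ∈ A0, y * c1 * y⁻¹ = c1 := by
    intro y hy hle c1 hc1
    obtain ⟨Q2, hQ2⟩ : ∃ Q2 : Subgroup X, Q2 = cj y Q1 := ⟨_, rfl⟩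
    rw [← hQ2] at hle
    have hTQ2 : T ≤ Q2 := by
      have h1 : Q2 = cj (y * y₀) Q := by rw [hQ2, hQ1, cj_cj]
      rw [h1]
      exact hTQ' _ (mul_mem hy hy₀) (by rw [← h1]; exact hle)
    have hcardQ2 : Nat.card Q2 = Nat.card R * Nat.card T := by rw [hQ2, card_cj, hcardQ1, hcardQ]
    obtain ⟨R3, hR3⟩ : ∃ R3 : Subgroup X, R3 = S ⊓ normalizer (Q2 : Set X) := ⟨_, rfl⟩
    have hR3S : R3 ≤ S := by rw [hR3]; exact inf_le_left
    by_cases hlt : Nat.card R < Nat.card R3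
    · have h1 : cj y⁻¹ R3 ≤ N := by
        rw [hN]
        intro x hx
        rw [mem_cj, inv_inv, hR3] at hx
        refine mem_inf.2 ⟨?_, ?_⟩
        · have h2 := d.Gn.conj_mem _ (d.SG hx.1) y⁻¹
          have h3 : y⁻¹ * (y * x * y⁻¹) * y⁻¹⁻¹ = x := by group
          rwa [h3] at h2
        · have h2 : y * x * y⁻¹ ∈ cj y (normalizer (Q1 : Set X)) := by
            rw [← H14.normalizer_cj, ← hQ2]; exact hx.2
          have h4 := mem_cj.1 h2
          have h3 : y⁻¹ * (y * x * y⁻¹) * y = x := by group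
          rwa [h3] at h4
      obtain ⟨n, hn, hnle⟩ := hsylD.exists_cj_le h1 (isPGroup_cj.2 (d.syl.pgroup.to_le hR3S))
      rw [cj_cj] at hnle
      have hnG : n ∈ G := by rw [hN] at hn; exact hn.1
      have hnQ : cj n Q1 = Q1 := H14.mem_normalizer_cj.1 (by rw [hN] at hn; exact hn.2)
      have h2 : cj (n * y⁻¹) (R3 ⊔ T) ≤ S ⊔ T := by
        rw [H14.cj_sup]
        refine sup_le (hnle.trans (le_trans (by rw [hD]; exact inf_le_left) le_sup_left)) ?_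
        have h3 : cj (n * y⁻¹) T ≤ cj (n * y⁻¹) Q2 := cj_mono hTQ2
        refine h3.trans ?_
        rw [hQ2, cj_cj, inv_mul_cancel_right, hnQ]
        exact hQ1P
      have h3 := hM R3 hR3S hlt (n * y⁻¹) (mul_mem hnG (inv_mem hy)) h2 c1 hc1
      have h4 := hC c1 hc1 n hn
      have h5 : y⁻¹ * c1 * y = c1 := by
        have h6 : y⁻¹ * c1 * y = n⁻¹ * (n * y⁻¹ * c1 * (n * y⁻¹)⁻¹) * n := by group
        rw [h6, h3, mul_assoc, ← h4, inv_mul_cancel_left]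
      calc y * c1 * y⁻¹ = y * (y⁻¹ * c1 * y) * y⁻¹ := by rw [h5]
        _ = c1 := by group
    · -- `R2 = S`
      obtain ⟨R2, hR2⟩ : ∃ R2 : Subgroup X, R2 = S ⊓ Q2 := ⟨_, rfl⟩
      have hR2S : R2 ≤ S := by rw [hR2]; exact inf_le_left
      have hQ2eq : Q2 = R2 ⊔ T := by
        apply le_antisymm
        · intro q hq
          obtain ⟨r, hr, t, ht, rfl⟩ := d.mem_P.1 (hle hq)
          refine mul_mem (le_sup_left (a := R2) (b := T) ?_) (le_sup_right (a := R2) (b := T) ht)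
          rw [hR2]
          refine mem_inf.2 ⟨hr, ?_⟩
          have := mul_mem hq (inv_mem (hTQ2 ht))
          rwa [mul_inv_cancel_right] at this
        · exact sup_le (by rw [hR2]; exact inf_le_right) hTQ2
      have hcardR2 : Nat.card R2 = Nat.card R := by
        have h1 := card_sup_of d hR2S
        rw [← hQ2eq, hcardQ2] at h1
        exact (Nat.eq_of_mul_eq_mul_right Nat.card_pos h1).symm
      have hR2norm : S ⊓ normalizer (R2 : Set X) ≤ R3 := by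
        rw [hR3]
        refine le_inf inf_le_left ?_
        intro x hx
        rw [H14.mem_normalizer_cj, hQ2eq, H14.cj_sup]
        congr 1
        · exact H14.mem_normalizer_cj.1 hx.2
        · apply H14.cj_eq_of_mem_centralizer
          rw [mem_centralizer_iff]
          intro t ht
          exact (d.ST x hx.1 t ht).symm
      have hR2eq : R2 = S := by
        by_contra hne2
        have h1 := H14.lt_inf_normalizer_of_lt d.syl.pgroup (lt_of_le_of_ne hR2S hne2)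
        have h2 : Nat.card R2 < Nat.card R3 := by
          have h3 : R2 < R3 := lt_of_lt_of_le h1 hR2norm
          exact lt_of_le_of_ne (card_le_of_le h3.le) (fun h4 => h3.ne (eq_of_le_of_card_ge h3.le h4.ge))
        omega
      have hQ2P : Q2 = S ⊔ T := by rw [hQ2eq, hR2eq]
      have hQ1eq : Q1 = S ⊔ T := by
        apply eq_of_le_of_card_ge hQ1P
        rw [← hQ2P, hQ2, card_cj]
      have hyN : y ∈ N := by
        rw [hN]
        refine mem_inf.2 ⟨hy, H14.mem_normalizer_cj.2 ?_⟩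
        rw [← hQ2, hQ2P, hQ1eq]
      rw [hC c1 hc1 y hyN, mul_inv_cancel_right]
  -- conclusion
  obtain ⟨w, hw, hwle, hwc⟩ := d.lemA hc (fun t ht => hTc t ht c hc) hs hg he
  rw [← hR, ← hQ] at hwle
  have h1 : y₀⁻¹ * c * y₀⁻¹⁻¹ = c := by
    apply hAL y₀⁻¹ (inv_mem hy₀) _ c hcA
    rw [hQ1, H14.cj_inv_cj]; exact hQP
  have h2 : (w * y₀⁻¹) * c * (w * y₀⁻¹)⁻¹ = c := by
    apply hAL (w * y₀⁻¹) (mul_mem hw (inv_mem hy₀)) _ c hcA
    rw [hQ1, cj_cj, inv_mul_cancel_right]; exact hwle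
  have h3 : w * c * w⁻¹ = c := by
    have h4 : (w * y₀⁻¹) * c * (w * y₀⁻¹)⁻¹ = w * (y₀⁻¹ * c * y₀⁻¹⁻¹) * w⁻¹ := by group
    rw [h4, h1] at h2
    exact h2
  have h5 : s * c = c := by
    have h6 : w * (s * c) * w⁻¹ = w * c * w⁻¹ := by rw [hwc, h3]
    exact mul_left_cancel (mul_right_cancel h6)
  exact hs1 (mul_eq_right.1 h5)

end Cfsg.Agent.H4.AutC
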