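import Mathlib
import Cfsg.Agent.H2.Basic
import Cfsg.Agent.H4.AutCent2
set_option autoImplicit false

/-! Automorphisms centralizing a Sylow 2-subgroup (Glauberman's theorem). -/

namespace Cfsg.Agent.H4.AutC

open Cfsg Subgroup
open scoped commutatorElement
open Cfsg.Agent.H14 (IsSylIn cj cj_cj mem_cj cj_mono card_cj isPGroup_cj conj_mem_cj)

universe u
variable {G : Type u} [Group G] [Finite G]

section
variable (C : Subgroup (MulAut G))

abbrev XX := SemidirectProduct G C C.subtype

theorem finite_XX : Finite (XX C) := Finite.of_equiv _ (SemidirectProduct.equivProd (φ := C.subtype)).symm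

theorem inl_range_conj {x : XX C} : x ∈ (SemidirectProduct.inl : G →* XX C).range ↔ x.right = 1 := by
  rw [SemidirectProduct.range_inl_eq_ker_rightHom, MonoidHom.mem_ker]
  rfl

theorem mkDat {S : Sylow 2 G} (hC : ∀ φ ∈ C, ∀ s ∈ S, φ s = s) (T : Sylow 2 C) :
    Dat (SemidirectProduct.inl : G →* XX C).range ((S : Subgroup G).map (SemidirectProduct.inl : G →* XX C))
      ((T : Subgroup C).map (SemidirectProduct.inr : C →* XX C)) := by
  haveI : Fact (Nat.Prime 2) := ⟨Nat.prime_two⟩
  haveI := finite_XX C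
  refine ⟨?_, ?_, T.2.map _, ?_, ?_⟩
  · rw [SemidirectProduct.range_inl_eq_ker_rightHom]; infer_instance
  · refine ⟨MonoidHom.range_eq_map (SemidirectProduct.inl : G →* XX C) ▸ map_mono le_top, S.2.map _, ?_⟩
    rw [MonoidHom.range_eq_map, relIndex_map_map_of_injective _ _ SemidirectProduct.inl_injective,
      relIndex_top_right]
    exact S.not_dvd_index
  · rw [eq_bot_iff]
    rintro x ⟨hx', ⟨t, ht, rfl⟩⟩
    have hx := (inl_range_conj C).1 hx'
    rw [SemidirectProduct.right_inr] at hx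
    rw [hx, map_one]; exact one_mem _
  · rintro _ ⟨s, hs, rfl⟩ _ ⟨t, ht, rfl⟩
    ext
    · simp
      exact (hC t t.2 s hs).symm
    · simp

theorem hO_XX (hO : ∀ N : Subgroup G, N.Normal → Odd (Nat.card N) → N = ⊥) (N : Subgroup (XX C))
    (hN : N ≤ (SemidirectProduct.inl : G →* XX C).range)
    (hn : (SemidirectProduct.inl : G →* XX C).range ≤ normalizer (N : Set (XX C)))
    (hodd : Odd (Nat.card N)) : N = ⊥ := by
  have h1 : (N.comap (SemidirectProduct.inl : G →* XX C)).map (SemidirectProduct.inl : G →* XX C) = N := by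
    rw [map_comap_eq, inf_eq_right]; exact hN
  have h2 : N.comap (SemidirectProduct.inl : G →* XX C) = ⊥ := by
    apply hO
    · constructor
      intro n hn' g
      rw [mem_comap] at hn' ⊢
      rw [map_mul, map_mul, map_inv]
      exact (mem_normalizer_iff.1 (hn ⟨g, rfl⟩) _).1 hn'
    · have h3 : Nat.card ((N.comap (SemidirectProduct.inl : G →* XX C)).map (SemidirectProduct.inl : G →* XX C)) =
          Nat.card (N.comap (SemidirectProduct.inl : G →* XX C)) :=
        card_map_of_injective SemidirectProduct.inl_injective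
      rw [h1] at h3
      rw [← h3]; exact hodd
  rw [← h1, h2, Subgroup.map_bot]

theorem eq_one_of_central {c : C} (h : ∀ g ∈ (SemidirectProduct.inl : G →* XX C).range,
    g * (SemidirectProduct.inr c : XX C) = (SemidirectProduct.inr c : XX C) * g) : c = 1 := by
  apply Subtype.ext
  apply MulEquiv.ext
  intro g
  have h1 := h _ ⟨g, rfl⟩
  have h2 := congrArg SemidirectProduct.left h1
  simp at h2
  exact h2.symm

variable {C}

theorem sylow_comm (hO : ∀ N : Subgroup G, N.Normal → Odd (Nat.card N) → N = ⊥) {S : Sylow 2 G}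
    (hC : ∀ φ ∈ C, ∀ s ∈ S, φ s = s) (T : Sylow 2 C) (a b : (T : Subgroup C)) : a * b = b * a := by
  haveI : Fact (Nat.Prime 2) := ⟨Nat.prime_two⟩
  haveI := finite_XX C
  have d := mkDat C hC T
  by_cases hbot : commutator (T : Subgroup C) = ⊥
  · have h1 : ⁅a, b⁆ ∈ commutator (T : Subgroup C) :=
      Subgroup.commutator_mem_commutator (mem_top a) (mem_top b)
    rw [hbot, mem_bot, commutatorElement_eq_one_iff_mul_comm] at h1
    exact h1
  · exfalso
    have h1 := H2.inf_center_ne_bot_of_normal T.2 (commutator (T : Subgroup C)) hbot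
    obtain ⟨⟨c, hc⟩, hc1⟩ := (Subgroup.ne_bot_iff_exists_ne_one).1 h1
    have hcc : c ∈ commutator (T : Subgroup C) := hc.1
    have hcz : c ∈ center (T : Subgroup C) := hc.2
    apply hc1
    apply Subtype.ext
    apply Subtype.ext
    show ((c : (T : Subgroup C)) : C) = 1
    apply eq_one_of_central C
    intro g hg
    refine d.central_of_isolated (hO_XX C hO) ⟨(c : C), c.2, rfl⟩ ?_ ?_ hg
    · rintro _ ⟨t, ht, rfl⟩
      have h2 := (mem_center_iff.1 hcz) ⟨t, ht⟩
      have h3 : t * (c : C) = (c : C) * t := congrArg Subtype.val h2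
      rw [← map_mul, h3, map_mul]
    · intro g hg hgP
      refine d.part1 ⟨(c : C), c.2, rfl⟩ ?_ ?_ hg hgP
      · rintro _ ⟨t, ht, rfl⟩
        have h2 := (mem_center_iff.1 hcz) ⟨t, ht⟩
        have h3 : t * (c : C) = (c : C) * t := congrArg Subtype.val h2
        rw [← map_mul, h3, map_mul]
      · rw [← Subgroup.map_commutator]
        refine ⟨(c : C), ?_, rfl⟩
        have h4 : (commutator (T : Subgroup C)).map (T : Subgroup C).subtype = ⁅(T : Subgroup C), (T : Subgroup C)⁆ := by
          rw [_root_.commutator_def, Subgroup.map_commutator, ← MonoidHom.range_eq_map, range_subtype]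
        rw [← h4]
        exact ⟨c, hcc, rfl⟩

theorem normalizer_le (hO : ∀ N : Subgroup G, N.Normal → Odd (Nat.card N) → N = ⊥) {S : Sylow 2 G}
    (hC : ∀ φ ∈ C, ∀ s ∈ S, φ s = s) (T : Sylow 2 C) :
    normalizer ((T : Subgroup C) : Set C) ≤ centralizer ((T : Subgroup C) : Set C) := by
  haveI : Fact (Nat.Prime 2) := ⟨Nat.prime_two⟩
  haveI := finite_XX C
  have d := mkDat C hC T
  have hTc : ∀ a ∈ (T : Subgroup C).map (SemidirectProduct.inr : C →* XX C),
      ∀ b ∈ (T : Subgroup C).map (SemidirectProduct.inr : C →* XX C), a * b = b * a := by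
    rintro _ ⟨a, ha, rfl⟩ _ ⟨b, hb, rfl⟩
    have := congrArg Subtype.val (sylow_comm hO hC T ⟨a, ha⟩ ⟨b, hb⟩)
    have h2 : a * b = b * a := this
    rw [← map_mul, h2, map_mul]
  intro h hh
  rw [mem_centralizer_iff]
  intro a ha
  have key : a⁻¹ * (h * a * h⁻¹) = 1 := by
    have hmemT : a⁻¹ * (h * a * h⁻¹) ∈ (T : Subgroup C) :=
      mul_mem (inv_mem ha) ((mem_normalizer_iff.1 hh a).1 ha)
    apply eq_one_of_central C
    intro g hg
    refine d.central_of_isolated (hO_XX C hO) ⟨_, hmemT, rfl⟩ ?_ ?_ hg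
    · rintro _ ⟨t, ht, rfl⟩
      exact hTc _ ⟨t, ht, rfl⟩ _ ⟨_, hmemT, rfl⟩
    · intro g hg hgP
      have e1 : (SemidirectProduct.inr (a⁻¹ * (h * a * h⁻¹)) : XX C) =
        (SemidirectProduct.inr a : XX C)⁻¹ * ((SemidirectProduct.inr h : XX C) * (SemidirectProduct.inr a : XX C) *
          (SemidirectProduct.inr h : XX C)⁻¹) := by
        simp only [map_mul, map_inv]
      rw [e1] at hgP ⊢
      refine part2 d hTc (h := (SemidirectProduct.inr h : XX C)) ?_ ?_ ⟨a, ha, rfl⟩ hg hgP
      · rintro _ ⟨t, ht, rfl⟩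
        refine ⟨h * t * h⁻¹, (mem_normalizer_iff.1 hh t).1 ht, ?_⟩
        simp only [map_mul, map_inv]
      · rintro _ ⟨s, hs, rfl⟩
        ext
        · simp
          exact hC h h.2 s hs
        · simp
  have h2 : h * a * h⁻¹ = a := (inv_mul_eq_one.1 key).symm
  calc a * h = (h * a * h⁻¹) * h := by rw [h2]
    _ = h * a := by group

theorem main (hO : ∀ N : Subgroup G, N.Normal → Odd (Nat.card N) → N = ⊥) {S : Sylow 2 G}
    (hC : ∀ φ ∈ C, ∀ s ∈ S, φ s = s) (T : Sylow 2 C) :
    (∀ a b : T, a * b = b * a) ∧ ∃ N : Subgroup C, N.Normal ∧ IsComplement' N (T : Subgroup C) := by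
  haveI : Fact (Nat.Prime 2) := ⟨Nat.prime_two⟩
  refine ⟨fun a b => sylow_comm hO hC T a b, ?_⟩
  have hP := normalizer_le hO hC T
  exact ⟨(MonoidHom.transferSylow T hP).ker, inferInstance, MonoidHom.ker_transferSylow_isComplement' T hP⟩

theorem solvable (hFT : ∀ N : Subgroup C, Odd (Nat.card N) → Group.IsSolvable N)
    (hO : ∀ N : Subgroup G, N.Normal → Odd (Nat.card N) → N = ⊥) {S : Sylow 2 G}
    (hC : ∀ φ ∈ C, ∀ s ∈ S, φ s = s) : Group.IsSolvable C := by
  haveI : Fact (Nat.Prime 2) := ⟨Nat.prime_two⟩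
  obtain ⟨T⟩ : Nonempty (Sylow 2 C) := inferInstance
  obtain ⟨-, N, hN, hcomp⟩ := main hO hC T
  have hodd : Odd (Nat.card N) := by
    have h1 : (T : Subgroup C).index = Nat.card N := hcomp.index_eq_card
    have h2 := T.not_dvd_index
    rw [h1] at h2
    rwa [← Nat.not_even_iff_odd, even_iff_two_dvd]
  haveI := hFT N hodd
  have hq : IsPGroup 2 (C ⧸ N) := by
    rw [IsPGroup.iff_card]
    obtain ⟨n, hn⟩ := IsPGroup.iff_card.1 T.2
    exact ⟨n, by rw [← hn]; exact hcomp.symm.index_eq_card⟩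
  haveI : Group.IsNilpotent (C ⧸ N) := hq.isNilpotent
  haveI : Group.IsSolvable (C ⧸ N) := inferInstance
  exact Group.isSolvable_of_ker_le_range N.subtype (QuotientGroup.mk' N) (by
    rw [QuotientGroup.ker_mk', range_subtype])

end
end Cfsg.Agent.H4.AutC
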