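import Mathlib
import Cfsg.Agent.H4.CG33C

set_option autoImplicit false

/-! The commuting graph of `PSL(3,3)`: flag systems. -/

open scoped MatrixGroups Matrix

namespace Cfsg.Agent.H4

open Cfsg.Agent.H17 Cfsg.Agent.H12 Matrix

local notation "LL" => Matrix.SpecialLinearGroup (Fin 3) (ZMod 3)

instance fact3 : Fact (Nat.Prime 3) := ⟨Nat.prime_three⟩

theorem dvd_card_centralizer_iff {s : LL} (hs : s ≠ 1) :
    27 ∣ Nat.card (Subgroup.centralizer {s}) ↔
      ∃ v f : Fin 3 → ZMod 3, v ≠ 0 ∧ f ≠ 0 ∧ f ⬝ᵥ v = 0 ∧ s = tS v f := by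
  constructor
  · intro h
    obtain ⟨K, hK⟩ := Sylow.exists_subgroup_card_pow_prime (G := Subgroup.centralizer {s}) 3 (n := 3)
      (by norm_num; exact h)
    set K' : Subgroup LL := K.map (Subgroup.centralizer {s}).subtype with hK'
    have cK' : Nat.card K' = 27 := by
      rw [hK', Nat.card_congr (K.equivMapOfInjective _ (Subgroup.subtype_injective _)).symm.toEquiv, hK]
      norm_num
    have hp : IsPGroup 3 K' := IsPGroup.of_card (n := 3) (by rw [cK']; norm_num)
    obtain ⟨P, hP⟩ := hp.exists_le_sylow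
    obtain ⟨k, hk⟩ := (IsPGroup.iff_card).1 P.isPGroup'
    have hk2 : 3 ^ k ∣ 5616 := by
      rw [← hk, ← card_L33]; exact Subgroup.card_subgroup_dvd_card _
    have hk3 : k ≤ 3 := by
      by_contra hcon
      have h81 : 3 ^ 4 ∣ 5616 := (pow_dvd_pow 3 (by omega : 4 ≤ k)).trans hk2
      norm_num at h81
    have hcP : Nat.card (P : Subgroup LL) ≤ 27 := by
      rw [hk]
      calc 3 ^ k ≤ 3 ^ 3 := Nat.pow_le_pow_right (by norm_num) hk3
        _ = 27 := by norm_num
    have hPK : K' = (P : Subgroup LL) := Subgroup.eq_of_le_of_card_ge hP (by rw [cK']; exact hcP)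
    have hcomm : ∀ x ∈ P, Commute s x := by
      intro x hx
      have hx' : x ∈ K' := by rw [hPK]; exact hx
      obtain ⟨⟨y, hy⟩, _, rfl⟩ := Subgroup.mem_map.1 hx'
      exact (Subgroup.mem_centralizer_singleton_iff.1 hy).symm
    obtain ⟨v, hv0, hv⟩ := exists_fixed_vec 3 (by norm_num) _ P.isPGroup'
    obtain ⟨g, hg, hsg⟩ := eq_tS_of_comm (s := s) hv0 (fun h hh => hcomm _ (tS_mem_sylow 3 P hv hh))
    refine ⟨v, g, hv0, ?_, hg, hsg⟩
    rintro rfl
    exact hs (by rw [hsg, tS_zero])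
  · rintro ⟨v, f, hv, hf, hfv, rfl⟩
    obtain ⟨P₀⟩ : Nonempty (Sylow 3 LL) := inferInstance
    obtain ⟨v₀, hv₀, hv₀P⟩ := exists_fixed_vec 3 (by norm_num) _ P₀.isPGroup'
    obtain ⟨f₀, hf₀, hf₀P⟩ := exists_fixed_dual 3 (by norm_num) _ P₀.isPGroup'
    have h₀ := dot_eq_zero_of_fixed 3 (by norm_num) P₀ hv₀P hf₀P
    obtain ⟨g, hg1, hg2⟩ := exists_gl_pair hv₀ hf₀ h₀ hv hf hfv
    have hconj : conjSL g (tS v₀ f₀) = tS v f := by rw [conjSL_tS g h₀, hg1, hg2]
    set P : Sylow 3 LL := (conjSL g) • P₀ with hP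
    have hmemP : ∀ s, s ∈ P ↔ ∃ t ∈ P₀, conjSL g t = s := by
      intro s
      rw [hP, mem_smul_sylow]
    have hle : (P : Subgroup LL) ≤ Subgroup.centralizer {tS v f} := by
      intro x hx
      obtain ⟨t, ht, rfl⟩ := (hmemP x).1 hx
      rw [Subgroup.mem_centralizer_singleton_iff]
      have h1 : Commute (tS v₀ f₀) t := by
        apply sl_ext_mulVec
        intro y
        rw [sl_mul_mulVec, sl_mul_mulVec, tS_mulVec h₀, tS_mulVec h₀, mulVec_add, mulVec_smul, hv₀P t ht,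
          dotProduct_mulVec, hf₀P t ht]
      have h2 : Commute (conjSL g (tS v₀ f₀)) (conjSL g t) := h1.map (conjSL g : LL ≃* LL)
      rw [hconj] at h2
      exact h2.symm.eq
    have h27 : 27 ∣ Nat.card (P : Subgroup LL) := by
      have : 3 ^ 3 ∣ Nat.card LL := by rw [card_L33]; norm_num
      have := P.pow_dvd_card_of_pow_dvd_card this
      norm_num at this
      exact this
    exact h27.trans (Subgroup.card_dvd_of_le hle)

theorem zmod3_cases : ∀ c : ZMod 3, c = 0 ∨ c = 1 ∨ c = -1 := by decide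

theorem mem_cc_iff {v f : Fin 3 → ZMod 3} (hv : v ≠ 0) (hf : f ≠ 0) (hfv : f ⬝ᵥ v = 0) (s : LL) :
    (∀ z, Commute z (tS v f) → Commute z s) ↔ s = 1 ∨ s = tS v f ∨ s = (tS v f)⁻¹ := by
  constructor
  · intro h
    obtain ⟨g, hg, rfl⟩ := eq_tS_of_comm (s := s) hv (fun k hk => (h (tS v k) (by
      change tS v k * tS v f = tS v f * tS v k
      rw [tS_mul hk hfv, tS_mul hfv hk, add_comm])).symm)
    obtain ⟨c, hc⟩ := smul_of_comm hv hf hfv hg (fun w hw => (h (tS w f) (by
      change tS w f * tS v f = tS v f * tS w f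
      rw [tS_mul' hw hfv, tS_mul' hfv hw, add_comm])).symm)
    rcases zmod3_cases c with rfl | rfl | rfl
    · left; rw [hc, zero_smul, tS_zero]
    · right; left; rw [hc, one_smul]
    · right; right; rw [hc, neg_one_smul, tS_inv hfv]
  · rintro (rfl | rfl | rfl) z hz
    · exact Commute.one_right z
    · exact hz
    · exact hz.inv_right

noncomputable def cgR (i : Fin 52) : LL := tS (cgV i) (cgF i)

theorem cgR_ne (i : Fin 52) : cgR i ≠ 1 := by
  intro h
  rcases (tS_eq_one_iff (cgFV i)).1 h with h | h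
  · exact cgV_ne i h
  · exact cgF_ne i h

theorem cgR_cube (i : Fin 52) : cgR i ^ 3 = 1 := tS_pow_char 3 (cgFV i)

theorem tS_eq_cgR {v f : Fin 3 → ZMod 3} (hv : v ≠ 0) (hf : f ≠ 0) (hfv : f ⬝ᵥ v = 0) :
    ∃ i, tS v f = cgR i ∨ tS v f = (cgR i)⁻¹ := by
  obtain ⟨i, h1, h2⟩ := cg_exists v f hv hf hfv
  refine ⟨i, ?_⟩
  unfold cgR
  have e1 : ∀ g : Fin 3 → ZMod 3, g ⬝ᵥ v = 0 → tS (-v) g = tS v (-g) := by
    intro g hg
    have := tS_smul hg (-1)
    rwa [neg_one_smul, neg_one_smul] at this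
  have hfv' : (-f) ⬝ᵥ v = 0 := by rw [neg_dotProduct, hfv, neg_zero]
  rcases h1 with h1 | h1 <;> rcases h2 with h2 | h2 <;> rw [h1, h2]
  · left; rfl
  · right; rw [tS_inv hfv', neg_neg]
  · right; rw [e1 f hfv, tS_inv hfv', neg_neg]
  · left; rw [e1 _ hfv', neg_neg]

theorem cgR_comm (i j : Fin 52) : Commute (cgR i) (cgR j) ↔ cgAdj i j = true := by
  unfold cgR
  rw [commute_tS_iff (cgV_ne i) (cgF_ne i) (cgV_ne j) (cgF_ne j) (cgFV i) (cgFV j), cgAdj_iff]

theorem cgAdj_not : ∀ i, ¬ ∀ j, cgAdj i j = true := by decide +kernel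

theorem cgR_faith (k : LL) (hk : ∀ i, Commute k (cgR i)) : k = 1 := by
  by_contra hk1
  have h1 : ∀ v f : Fin 3 → ZMod 3, v ≠ 0 → f ≠ 0 → f ⬝ᵥ v = 0 → Commute k (tS v f) := by
    intro v f hv hf hfv
    obtain ⟨i, h | h⟩ := tS_eq_cgR hv hf hfv
    · rw [h]; exact hk i
    · rw [h]; exact (hk i).inv_right
  obtain ⟨g, hg, hkg⟩ := eq_tS_of_comm (s := k) (cgV_ne 0) (fun h hh => by
    by_cases h0 : h = 0
    · rw [h0, tS_zero]; exact Commute.one_right k
    · exact h1 _ _ (cgV_ne 0) h0 hh)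
  have hg0 : g ≠ 0 := by
    rintro rfl
    exact hk1 (by rw [hkg, tS_zero])
  obtain ⟨i, h⟩ := tS_eq_cgR (cgV_ne 0) hg0 hg
  rw [← hkg] at h
  apply cgAdj_not i
  intro j
  rw [← cgR_comm]
  rcases h with h | h
  · rw [← h]; exact hk j
  · rw [← inv_inv (cgR i), ← h]; exact (hk j).inv_left

theorem cgSys_LL : CGSys cgR where
  comm := cgR_comm
  conj := by
    intro g i
    have h1 : g * cgR i * g⁻¹ ≠ 1 := by
      intro h
      exact cgR_ne i (by simpa using h)
    have h2 := conj_tS g (cgFV i)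
    have h3 : (cgF i ᵥ* ((g⁻¹ : LL) : Matrix (Fin 3) (Fin 3) (ZMod 3))) ⬝ᵥ
        ((g : Matrix (Fin 3) (Fin 3) (ZMod 3)) *ᵥ cgV i) = 0 := by
      rw [← dotProduct_mulVec, sl_inv_mulVec_mulVec, cgFV]
    have h4 : ((g : Matrix (Fin 3) (Fin 3) (ZMod 3)) *ᵥ cgV i) ≠ 0 := by
      intro h0
      apply h1
      change g * tS (cgV i) (cgF i) * g⁻¹ = 1
      rw [h2, h0, tS_zero_left]
    have h5 : (cgF i ᵥ* ((g⁻¹ : LL) : Matrix (Fin 3) (Fin 3) (ZMod 3))) ≠ 0 := by
      intro h0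
      apply h1
      change g * tS (cgV i) (cgF i) * g⁻¹ = 1
      rw [h2, h0, tS_zero]
    obtain ⟨j, hj⟩ := tS_eq_cgR h4 h5 h3
    refine ⟨j, ?_⟩
    change g * tS (cgV i) (cgF i) * g⁻¹ = _ ∨ g * tS (cgV i) (cgF i) * g⁻¹ = _
    rw [h2]
    exact hj
  cube := cgR_cube
  ne := cgR_ne
  faith := cgR_faith

section H

variable {H : Type*} [Group H] [Finite H] (F : H ≃ LL) (F1 : F 1 = 1)
  (hF : ∀ x y : H, Commute x y ↔ Commute (F x) (F y))

include F1 hF

theorem cg_key (i : Fin 52) : (F.symm (cgR i)) ^ 3 = 1 ∧ F.symm ((cgR i)⁻¹) = (F.symm (cgR i))⁻¹ := by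
  set x := F.symm (cgR i) with hx
  set x' := F.symm ((cgR i)⁻¹) with hx'
  have hFx : F x = cgR i := F.apply_symm_apply _
  have hFx' : F x' = (cgR i)⁻¹ := F.apply_symm_apply _
  set Z : Subgroup H := Subgroup.centralizer (Subgroup.centralizer {x} : Set H) with hZ
  have hmem : ∀ y, y ∈ Z ↔ y = 1 ∨ y = x ∨ y = x' := by
    intro y
    have h1 : y ∈ Z ↔ ∀ z, Commute z (cgR i) → Commute z (F y) := by
      rw [hZ, Subgroup.mem_centralizer_iff]
      constructor
      · intro h z hz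
        have h2 : Commute (F.symm z) x := by
          rw [hF, hFx, F.apply_symm_apply]; exact hz
        have h3 := h (F.symm z) (Subgroup.mem_centralizer_singleton_iff.2 h2.eq)
        have h4 : Commute (F.symm z) y := h3
        rw [hF, F.apply_symm_apply] at h4
        exact h4
      · intro h z hz
        have h2 : Commute z x := Subgroup.mem_centralizer_singleton_iff.1 hz
        rw [hF, hFx] at h2
        exact ((hF z y).2 (h _ h2)).eq
    rw [h1]
    unfold cgR at *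
    rw [mem_cc_iff (cgV_ne i) (cgF_ne i) (cgFV i)]
    rw [← hFx', ← hFx, ← F1]
    simp only [F.injective.eq_iff]
  have hx1 : x ≠ 1 := by
    intro h
    apply cgR_ne i
    rw [← hFx, h, F1]
  have hxx' : x ≠ x' := by
    intro h
    have h1 : cgR i = (cgR i)⁻¹ := by rw [← hFx', ← hFx, ← h]
    have h2 := cgR_cube i
    rw [pow_succ, pow_two] at h2
    nth_rewrite 1 [h1] at h2
    rw [inv_mul_cancel, one_mul] at h2
    exact cgR_ne i h2
  have hx'1 : x' ≠ 1 := by
    intro h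
    apply cgR_ne i
    rw [← inv_inv (cgR i), ← hFx', h, F1, inv_one]
  have hcard : Nat.card Z = 3 := by
    have hset : (Z : Set H) = {1, x, x'} := by
      ext y
      rw [SetLike.mem_coe, hmem]
      simp
    have h2 : Nat.card (Z : Set H) = (Z : Set H).ncard := rfl
    change Nat.card (Z : Set H) = 3
    rw [h2, hset, Set.ncard_eq_three]
    exact ⟨1, x, x', hx1.symm, hx'1.symm, hxx', rfl⟩
  have hxZ : x ∈ Z := (hmem x).2 (Or.inr (Or.inl rfl))
  have hcube : x ^ 3 = 1 := by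
    have h1 : (⟨x, hxZ⟩ : Z) ^ Nat.card Z = 1 := pow_card_eq_one'
    rw [hcard] at h1
    exact congrArg Subtype.val h1
  refine ⟨hcube, ?_⟩
  rcases (hmem x⁻¹).1 (Z.inv_mem hxZ) with h | h | h
  · exact absurd (inv_eq_one.1 h) hx1
  · exfalso
    rw [pow_succ, pow_two] at hcube
    nth_rewrite 1 [← h] at hcube
    rw [inv_mul_cancel, one_mul] at hcube
    exact hx1 hcube
  · exact h.symm

theorem card_centralizer_F (x : H) :
    Nat.card (Subgroup.centralizer {x}) = Nat.card (Subgroup.centralizer {F x}) := by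
  apply Nat.card_congr
  exact F.subtypeEquiv (fun y => by
    change y ∈ Subgroup.centralizer {x} ↔ F y ∈ Subgroup.centralizer {F x}
    rw [Subgroup.mem_centralizer_singleton_iff, Subgroup.mem_centralizer_singleton_iff]
    exact hF y x)

omit F1 hF F in
theorem card_centralizer_conj (g x : H) :
    Nat.card (Subgroup.centralizer {g * x * g⁻¹}) = Nat.card (Subgroup.centralizer {x}) := by
  apply Nat.card_congr
  exact (MulAut.conj g⁻¹).toEquiv.subtypeEquiv (fun y => by
    change y ∈ Subgroup.centralizer {g * x * g⁻¹} ↔ g⁻¹ * y * g⁻¹⁻¹ ∈ Subgroup.centralizer {x}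
    rw [Subgroup.mem_centralizer_singleton_iff, Subgroup.mem_centralizer_singleton_iff]
    constructor
    · intro h
      calc g⁻¹ * y * g⁻¹⁻¹ * x = g⁻¹ * (y * (g * x * g⁻¹)) * g := by group
        _ = g⁻¹ * ((g * x * g⁻¹) * y) * g := by rw [h]
        _ = x * (g⁻¹ * y * g⁻¹⁻¹) := by group
    · intro h
      calc y * (g * x * g⁻¹) = g * (g⁻¹ * y * g⁻¹⁻¹ * x) * g⁻¹ := by group
        _ = g * (x * (g⁻¹ * y * g⁻¹⁻¹)) * g⁻¹ := by rw [h]
        _ = g * x * g⁻¹ * y := by group)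

theorem cgSys_H : CGSys (fun i => F.symm (cgR i)) where
  comm := by
    intro i j
    rw [hF, F.apply_symm_apply, F.apply_symm_apply, cgR_comm]
  ne := by
    intro i h
    apply cgR_ne i
    rw [← F.apply_symm_apply (cgR i), h, F1]
  cube := fun i => (cg_key F F1 hF i).1
  faith := by
    intro k hk
    have h1 : F k = 1 := by
      apply cgR_faith
      intro i
      have := (hF k _).1 (hk i)
      rwa [F.apply_symm_apply] at this
    apply F.injective
    rw [h1, F1]
  conj := by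
    intro g i
    set y := g * F.symm (cgR i) * g⁻¹ with hy
    have hy1 : F y ≠ 1 := by
      intro h
      have h2 : y = 1 := F.injective (by rw [h, F1])
      have h3 : F.symm (cgR i) = 1 := by
        rw [hy] at h2; simpa using h2
      apply cgR_ne i
      rw [← F.apply_symm_apply (cgR i), h3, F1]
    have h27 : 27 ∣ Nat.card (Subgroup.centralizer {F y}) := by
      rw [← card_centralizer_F F F1 hF, hy, card_centralizer_conj, card_centralizer_F F F1 hF,
        F.apply_symm_apply, dvd_card_centralizer_iff (cgR_ne i)]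
      exact ⟨_, _, cgV_ne i, cgF_ne i, cgFV i, rfl⟩
    obtain ⟨v, f, hv, hf, hfv, hyv⟩ := (dvd_card_centralizer_iff hy1).1 h27
    obtain ⟨j, hj | hj⟩ := tS_eq_cgR hv hf hfv
    · refine ⟨j, Or.inl ?_⟩
      rw [← hj, ← hyv, F.symm_apply_apply]
    · refine ⟨j, Or.inr ?_⟩
      rw [← (cg_key F F1 hF j).2, ← hj, ← hyv, F.symm_apply_apply]

theorem cg_final : Nonempty (H ≃* LL) := by
  refine CGSys.nonempty_mulEquiv (cgSys_H F F1 hF) cgSys_LL ?_ card_L33
  rw [← card_L33]
  exact Nat.card_congr F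

end H

end Cfsg.Agent.H4
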