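import Cfsg.Agent.H14.Conj
import Cfsg.Agent.H24.RegClass
import Cfsg.Agent.H24.CoprimeLift2
import Mathlib

/-!
# Groups whose `p`-elements have class sizes prime to `p` (helper4)
-/

set_option autoImplicit false

open Subgroup

namespace Cfsg.Agent.H4

open H14

variable {G : Type*} [Group G]

/-- every `p`-element has class size prime to `p` -/
def PC (p : ℕ) (G : Type*) [Group G] : Prop :=
  ∀ x : G, (∃ k : ℕ, orderOf x = p ^ k) → ¬ p ∣ (centralizer ({x} : Set G)).index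

theorem PC.normal [Finite G] {p : ℕ} (h : PC p G) (N : Subgroup G) [N.Normal] : PC p N := by
  intro x hx hd
  refine h (x : G) (by simpa [Subgroup.orderOf_coe] using hx) (hd.trans ?_)
  exact H24.index_centralizer_normal_dvd N x

theorem PC.quotient [Finite G] {p : ℕ} [Fact p.Prime] (h : PC p G) (N : Subgroup G) [N.Normal] :
    PC p (G ⧸ N) := by
  intro y hy hd
  obtain ⟨x, rfl, hx⟩ := H24.exists_lift_pElt p N y hy
  exact h x hx (hd.trans (H24.index_centralizer_quotient_dvd N x))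

section fin
variable [Finite G] {p : ℕ} [hp : Fact p.Prime]

theorem PC.exists_sylow (h : PC p G) {x : G} (hx : ∃ k : ℕ, orderOf x = p ^ k) :
    ∃ P : Sylow p G, (P : Subgroup G) ≤ centralizer {x} := by
  obtain ⟨P, hP⟩ := exists_isSylIn (p := p) (centralizer ({x} : Set G))
  have h1 : IsSylIn p P ⊤ := by
    refine ⟨le_top, hP.pgroup, ?_⟩
    rw [relIndex_top_right, ← relIndex_mul_index hP.le]
    exact hp.out.not_dvd_mul hP.ndvd (h x hx)
  obtain ⟨S, hS⟩ := IsSylIn.eq_sylow h1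
  exact ⟨S, hS ▸ hP.le⟩

theorem isPGroup_zpowers_of {x : G} (hx : ∃ k : ℕ, orderOf x = p ^ k) :
    IsPGroup p (zpowers x) := by
  obtain ⟨k, hk⟩ := hx
  exact IsPGroup.of_card (n := k) (by rw [Nat.card_zpowers, hk])

theorem mem_sylow_of_centralizes {x : G} (hx : ∃ k : ℕ, orderOf x = p ^ k) (P : Sylow p G)
    (hP : (P : Subgroup G) ≤ centralizer {x}) : x ∈ P := by
  have h1 := (isPGroup_zpowers_of hx).inf_normalizer_sylow P
  have h2 : x ∈ normalizer (P : Set G) := by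
    apply Subgroup.centralizer_le_normalizer
    rw [mem_centralizer_iff]
    intro g hg
    exact ((mem_centralizer_singleton_iff).1 (hP hg))
  have h3 : x ∈ zpowers x ⊓ normalizer (P : Set G) := ⟨mem_zpowers x, h2⟩
  rw [h1] at h3
  exact h3.2

theorem exists_pow_mem_sylow_of_normalizer (P : Sylow p G) :
    ∃ m : ℕ, ¬ p ∣ m ∧ ∀ n ∈ normalizer (P : Set G), n ^ m ∈ P := by
  refine ⟨(P : Subgroup G).relIndex (normalizer (P : Set G)), ?_, ?_⟩
  · exact (Sylow.isSylIn_of_le P le_normalizer).ndvd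
  · intro n hn
    haveI : ((P : Subgroup G).subgroupOf (normalizer (P : Set G))).Normal := normal_in_normalizer
    have h1 := Subgroup.pow_index_mem ((P : Subgroup G).subgroupOf (normalizer (P : Set G)))
      (⟨n, hn⟩ : normalizer (P : Set G))
    exact h1

/-- the key commutator lemma -/
theorem comm_eq_one_of_sylow {x y z : G} (hz : ∃ k : ℕ, orderOf z = p ^ k)
    (P : Sylow p G) (hPx : (P : Subgroup G) ≤ centralizer {x})
    (hPz : (P : Subgroup G) ≤ centralizer {z}) (hyz : y * z = z * y)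
    (hxz : z * x = x * z)
    (hxy : y⁻¹ * x * y = x * z) : z = 1 := by
  have hxM : x ∈ centralizer ({z} : Set G) := mem_centralizer_singleton_iff.2 hxz.symm
  have hyM : y ∈ centralizer ({z} : Set G) := mem_centralizer_singleton_iff.2 hyz
  have hzM : z ∈ centralizer ({z} : Set G) := mem_centralizer_singleton_iff.2 rfl
  let Q : Sylow p (centralizer ({z} : Set G)) := P.subtype hPz
  have hQ : ∀ g : centralizer ({z} : Set G), g ∈ Q → (g : G) ∈ P := by
    intro g hg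
    exact hg
  have h1 : (⟨x, hxM⟩ : centralizer ({z} : Set G)) ∈
      centralizer ((Q : Subgroup (centralizer ({z} : Set G))) : Set (centralizer ({z} : Set G))) := by
    rw [mem_centralizer_iff]
    intro g hg
    apply Subtype.ext
    exact (mem_centralizer_singleton_iff.1 (hPx (hQ g hg)))
  have h2 : (⟨y, hyM⟩ : centralizer ({z} : Set G))⁻¹ * ⟨x, hxM⟩ * ⟨y, hyM⟩ ∈
      centralizer ((Q : Subgroup (centralizer ({z} : Set G))) : Set (centralizer ({z} : Set G))) := by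
    rw [mem_centralizer_iff]
    intro g hg
    apply Subtype.ext
    show (g : G) * (y⁻¹ * x * y) = (y⁻¹ * x * y) * g
    rw [hxy]
    have e1 := (mem_centralizer_singleton_iff.1 (hPx (hQ g hg)))
    have e2 := (mem_centralizer_singleton_iff.1 (hPz (hQ g hg)))
    rw [← mul_assoc, e1, mul_assoc, e2, mul_assoc]
  obtain ⟨n, hn, hn2⟩ := Sylow.conj_eq_normalizer_conj_of_mem_centralizer Q _ _ h1 h2
  have hn3 : y⁻¹ * x * y = (n : G)⁻¹ * x * n := congrArg Subtype.val hn2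
  rw [hxy] at hn3
  -- n⁻¹ x n = x z
  have hnz : z * (n : G) = n * z := (mem_centralizer_singleton_iff.1 n.2).symm
  have hpow : ∀ m : ℕ, ((n : G) ^ m)⁻¹ * x * (n : G) ^ m = x * z ^ m := by
    intro m
    induction m with
    | zero => simp
    | succ m ih =>
      have hc : Commute (n : G) (z ^ m) := (Commute.pow_right (show Commute (n : G) z from hnz.symm) m)
      calc ((n : G) ^ (m + 1))⁻¹ * x * (n : G) ^ (m + 1)
          = (n : G)⁻¹ * (((n : G) ^ m)⁻¹ * x * (n : G) ^ m) * n := by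
            rw [pow_succ]; group
        _ = (n : G)⁻¹ * (x * z ^ m) * n := by rw [ih]
        _ = (n : G)⁻¹ * x * (z ^ m * n) := by group
        _ = (n : G)⁻¹ * x * (n * z ^ m) := by rw [hc.eq]
        _ = ((n : G)⁻¹ * x * n) * z ^ m := by group
        _ = x * z * z ^ m := by rw [← hn3]
        _ = x * z ^ (m + 1) := by rw [pow_succ', mul_assoc]
  obtain ⟨m, hm, hm2⟩ := exists_pow_mem_sylow_of_normalizer Q
  have h3 : (n : G) ^ m ∈ P := by
    have := hQ _ (hm2 n hn)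
    simpa using this
  have h4 := mem_centralizer_singleton_iff.1 (hPx h3)
  have h5 : z ^ m = 1 := by
    have := hpow m
    rw [mul_assoc, ← h4, ← mul_assoc, inv_mul_cancel, one_mul] at this
    exact (left_eq_mul.1 this)
  obtain ⟨k, hk⟩ := hz
  have h6 : orderOf z ∣ m := orderOf_dvd_of_pow_eq_one h5
  rw [hk] at h6
  have h7 : k = 0 := by
    by_contra hk0
    exact hm ((dvd_pow_self p hk0).trans h6)
  rw [h7, pow_zero] at hk
  exact orderOf_eq_one_iff.1 hk

/-- a `p`-element lies in the group generated by any power prime to `p` -/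
theorem mem_zpowers_pow_of_not_dvd {x : G} (hx : ∃ k : ℕ, orderOf x = p ^ k) {m : ℕ}
    (hm : ¬ p ∣ m) : x ∈ zpowers (x ^ m) := by
  obtain ⟨k, hk⟩ := hx
  have h1 : (orderOf x).Coprime m := by
    rw [hk]; exact Nat.Coprime.pow_left k ((Nat.Prime.coprime_iff_not_dvd hp.out).2 hm)
  obtain ⟨j, hj⟩ := exists_pow_eq_self_of_coprime h1.symm
  exact ⟨(j : ℤ), by simpa using hj⟩

/-- Sylow subgroups centralize their intersection with a normal subgroup, when it is
commutative -/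
theorem PC.centralizes_inf (h : PC p G) (N : Subgroup G) [N.Normal] (P : Sylow p G)
    (hcomm : ∀ a ∈ (P : Subgroup G) ⊓ N, ∀ b ∈ (P : Subgroup G) ⊓ N, a * b = b * a) :
    ∀ x ∈ P, ∀ a ∈ (P : Subgroup G) ⊓ N, x * a = a * x := by
  intro x hx
  have hxp : ∃ k : ℕ, orderOf x = p ^ k := by
    obtain ⟨k, hk⟩ := (IsPGroup.iff_orderOf.1 P.2) ⟨x, hx⟩
    exact ⟨k, by rw [← hk, Subgroup.orderOf_mk]⟩
  obtain ⟨P₁, hP₁⟩ := h.exists_sylow hxp
  have hN : (⊤ : Subgroup G) ≤ normalizer (N : Set G) := by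
    rw [normalizer_eq_top]
  have s1 : IsSylIn p ((P₁ : Subgroup G) ⊓ N) N :=
    (Sylow.isSylIn_top P₁).inf_of_normalizes le_top hN
  have s2 : IsSylIn p ((P : Subgroup G) ⊓ N) N :=
    (Sylow.isSylIn_top P).inf_of_normalizes le_top hN
  obtain ⟨n, hn, hn2⟩ := s2.exists_cj_eq s1
  -- x' = n x n⁻¹ centralizes P₀
  have hx' : ∀ a ∈ (P : Subgroup G) ⊓ N, (n * x * n⁻¹) * a = a * (n * x * n⁻¹) := by
    intro a ha
    rw [← hn2, mem_cj] at ha
    have h1 := mem_centralizer_singleton_iff.1 (hP₁ ha.1)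
    calc (n * x * n⁻¹) * a = n * (x * (n⁻¹ * a * n)) * n⁻¹ := by group
      _ = n * ((n⁻¹ * a * n) * x) * n⁻¹ := by rw [← h1]
      _ = a * (n * x * n⁻¹) := by group
  -- P₀ is normalized by x
  have hxn : ∀ a, a ∈ (P : Subgroup G) ⊓ N → x⁻¹ * a * x ∈ (P : Subgroup G) ⊓ N := by
    intro a ha
    refine mem_inf.2 ⟨mul_mem (mul_mem (inv_mem hx) (mem_inf.1 ha).1) hx, ?_⟩
    simpa using (inferInstance : N.Normal).conj_mem a ha.2 x⁻¹
  have hxn' : ∀ a, a ∈ (P : Subgroup G) ⊓ N → x * a * x⁻¹ ∈ (P : Subgroup G) ⊓ N := by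
    intro a ha
    exact mem_inf.2 ⟨mul_mem (mul_mem hx (mem_inf.1 ha).1) (inv_mem hx), (inferInstance : N.Normal).conj_mem a ha.2 x⟩
  set u : G := (n * x * n⁻¹) * x⁻¹ with hu
  have huN : u ∈ N := by
    have : u = n * (x * n⁻¹ * x⁻¹) := by rw [hu]; group
    rw [this]
    exact mul_mem hn ((inferInstance : N.Normal).conj_mem _ (inv_mem hn) x)
  have hua : ∀ a ∈ (P : Subgroup G) ⊓ N, u * a * u⁻¹ = x⁻¹ * a * x := by
    intro a ha
    have h1 := hx' _ (hxn a ha)
    calc u * a * u⁻¹ = ((n * x * n⁻¹) * (x⁻¹ * a * x)) * (n * x * n⁻¹)⁻¹ := by rw [hu]; group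
      _ = ((x⁻¹ * a * x) * (n * x * n⁻¹)) * (n * x * n⁻¹)⁻¹ := by rw [h1]
      _ = x⁻¹ * a * x := by group
  have hpow : ∀ m : ℕ, ∀ a ∈ (P : Subgroup G) ⊓ N, u ^ m * a * (u ^ m)⁻¹ = (x ^ m)⁻¹ * a * x ^ m := by
    intro m
    induction m with
    | zero => intro a _; simp
    | succ m ih =>
      intro a ha
      calc u ^ (m + 1) * a * (u ^ (m + 1))⁻¹ = u ^ m * (u * a * u⁻¹) * (u ^ m)⁻¹ := by
            rw [pow_succ]; group
        _ = u ^ m * (x⁻¹ * a * x) * (u ^ m)⁻¹ := by rw [hua a ha]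
        _ = (x ^ m)⁻¹ * (x⁻¹ * a * x) * x ^ m := ih _ (hxn a ha)
        _ = (x ^ (m + 1))⁻¹ * a * x ^ (m + 1) := by rw [pow_succ']; group
  -- u normalizes P₀
  set P₀ : Subgroup G := (P : Subgroup G) ⊓ N with hP₀
  have hun : u ∈ normalizer (P₀ : Set G) ⊓ N := by
    refine mem_inf.2 ⟨?_, huN⟩
    rw [mem_normalizer_iff]
    intro a
    constructor
    · intro ha
      rw [hua a ha]; exact hxn a ha
    · intro ha
      -- b = u a u⁻¹ ∈ P₀ ; a = u⁻¹ b u ; u (x b x⁻¹) u⁻¹ = b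
      have hb := hxn' _ ha
      have h1 := hua _ hb
      have h2 : u * (x * (u * a * u⁻¹) * x⁻¹) * u⁻¹ = u * a * u⁻¹ := by
        rw [h1]; group
      have h3 : x * (u * a * u⁻¹) * x⁻¹ = a := by
        have := congrArg (fun t => u⁻¹ * t * u) h2
        simpa [mul_assoc] using this
      rw [h3] at hb; exact hb
  -- power of u in P₀
  have hidx : ¬ p ∣ P₀.relIndex (normalizer (P₀ : Set G) ⊓ N) :=
    (s2.mono (le_inf le_normalizer inf_le_right) inf_le_right).ndvd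
  set m := P₀.relIndex (normalizer (P₀ : Set G) ⊓ N) with hm
  have hum : u ^ m ∈ P₀ := by
    haveI : (P₀.subgroupOf (normalizer (P₀ : Set G) ⊓ N)).Normal := by
      refine ⟨fun a ha g => ?_⟩
      rw [mem_subgroupOf] at ha ⊢
      exact (mem_normalizer_iff.1 g.2.1 a).1 ha
    exact Subgroup.pow_index_mem (P₀.subgroupOf (normalizer (P₀ : Set G) ⊓ N)) ⟨u, hun⟩
  intro a ha
  have hxm : x ^ m * a = a * x ^ m := by
    have h1 := hpow m a ha
    have h2 := hcomm _ hum _ ha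
    rw [h2, mul_assoc, mul_inv_cancel, mul_one] at h1
    calc x ^ m * a = x ^ m * ((x ^ m)⁻¹ * a * x ^ m) := by rw [← h1]
      _ = a * x ^ m := by group
  obtain ⟨j, hj⟩ := mem_zpowers_pow_of_not_dvd hxp hidx
  have : Commute (x ^ m) a := hxm
  have h3 := this.zpow_left j
  have hj' : (x ^ m) ^ j = x := hj
  rw [hj'] at h3
  exact h3

/-- main step -/
theorem PC.sylow_comm (h : PC p G) (N : Subgroup G) [N.Normal]
    (hN : ∀ P : Sylow p G, ∀ a ∈ (P : Subgroup G) ⊓ N, ∀ b ∈ (P : Subgroup G) ⊓ N, a * b = b * a)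
    (hQ : ∀ P : Sylow p G, ∀ a ∈ P, ∀ b ∈ P, a⁻¹ * b⁻¹ * a * b ∈ N) (P : Sylow p G) :
    ∀ x ∈ P, ∀ y ∈ P, x * y = y * x := by
  intro x hx y hy
  have hpe : ∀ w ∈ P, ∃ k : ℕ, orderOf w = p ^ k := by
    intro w hw
    obtain ⟨k, hk⟩ := (IsPGroup.iff_orderOf.1 P.2) ⟨w, hw⟩
    exact ⟨k, by rw [← hk, Subgroup.orderOf_mk]⟩
  set z : G := x⁻¹ * y⁻¹ * x * y with hz
  have hzP : z ∈ (P : Subgroup G) ⊓ N :=
    mem_inf.2 ⟨mul_mem (mul_mem (mul_mem (inv_mem hx) (inv_mem hy)) hx) hy, hQ P x hx y hy⟩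
  have hcx := h.centralizes_inf N P (hN P) x hx z hzP
  have hcy := h.centralizes_inf N P (hN P) y hy z hzP
  obtain ⟨P₁, hP₁⟩ := h.exists_sylow (hpe x hx)
  have s1 : IsSylIn p (P₁ : Subgroup G) (centralizer ({x} : Set G)) := Sylow.isSylIn_of_le P₁ hP₁
  have hzc : zpowers z ≤ centralizer ({x} : Set G) := by
    rw [zpowers_le, mem_centralizer_singleton_iff]; exact hcx.symm
  obtain ⟨c, hc, hc2⟩ := s1.exists_cj_le hzc (isPGroup_zpowers_of (hpe z hzP.1))
  -- P₂ = c⁻¹ P₁ c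
  have s2 : IsSylIn p (cj c⁻¹ (P₁ : Subgroup G)) ⊤ := by
    have := (Sylow.isSylIn_top P₁).cj c⁻¹
    rwa [cj_top] at this
  obtain ⟨P₂, hP₂⟩ := IsSylIn.eq_sylow s2
  have hzP₂ : z ∈ P₂ := by
    show z ∈ (P₂ : Subgroup G)
    rw [hP₂]
    exact (cj_le_iff.1 hc2) (mem_zpowers z)
  have hP₂x : (P₂ : Subgroup G) ≤ centralizer ({x} : Set G) := by
    rw [hP₂]
    exact cj_le_of_mem (inv_mem hc) hP₁
  have hP₂z : (P₂ : Subgroup G) ≤ centralizer ({z} : Set G) := by
    intro w hw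
    rw [mem_centralizer_singleton_iff]
    exact (h.centralizes_inf N P₂ (hN P₂) w hw z (mem_inf.2 ⟨hzP₂, hzP.2⟩))
  have hxy : y⁻¹ * x * y = x * z := by rw [hz]; group
  have := comm_eq_one_of_sylow (hpe z hzP.1) P₂ hP₂x hP₂z hcy hcx.symm hxy
  rw [this, mul_one] at hxy
  calc x * y = y * (y⁻¹ * x * y) := by group
    _ = y * x := by rw [hxy]

end fin

end Cfsg.Agent.H4
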