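import Mathlib
import Cfsg.Agent.H16.SL2Class
set_option autoImplicit false

/-! Elements of order four in `SL_2(q)`, `q` odd. -/

namespace Cfsg.Agent.H4

open Matrix Cfsg.Agent.H16

variable {F : Type*} [Field F]

theorem sum_two_sq [Fintype F] (hF : Odd (Fintype.card F)) (x : F) : ∃ a b : F, a ^ 2 + b ^ 2 = x := by
  have hodd : Fintype.card F % 2 = 1 := Nat.odd_iff.1 hF
  obtain ⟨a, b, hab⟩ := FiniteField.exists_root_sum_quadratic (R := F) (f := Polynomial.X ^ 2)
    (g := Polynomial.X ^ 2 - Polynomial.C x) (by simp) (by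
      rw [Polynomial.degree_X_pow_sub_C (by norm_num)]; rfl) hodd
  refine ⟨a, b, ?_⟩
  simp at hab
  linear_combination hab

theorem two_ne_zero_of_odd [Fintype F] (hF : Odd (Fintype.card F)) : (2 : F) ≠ 0 := by
  intro h
  have h1 : ringChar F ∣ 2 := (ringChar.spec F 2).1 (by exact_mod_cast h)
  haveI := ringChar.charP F
  obtain ⟨n, hp, hn⟩ := FiniteField.card F (ringChar F)
  have h2 : ringChar F = 2 := (Nat.prime_dvd_prime_iff_eq hp Nat.prime_two).1 h1
  rw [hn, h2] at hF
  exact (Nat.not_even_iff_odd.2 hF) ((Nat.even_pow.2 ⟨even_two, n.ne_zero⟩))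

theorem sl2_ext {A B : SpecialLinearGroup (Fin 2) F} (h : (A : Matrix (Fin 2) (Fin 2) F) = B) : A = B :=
  Subtype.ext h

/-- Cayley–Hamilton in `SL_2` -/
theorem sl2_sq (A : SpecialLinearGroup (Fin 2) F) :
    (A : Matrix (Fin 2) (Fin 2) F) * A = (A : Matrix (Fin 2) (Fin 2) F).trace • (A : Matrix (Fin 2) (Fin 2) F) - 1 := by
  have hd := A.2
  rw [det_fin_two] at hd
  ext i j
  fin_cases i <;> fin_cases j <;> simp [Matrix.mul_apply, Fin.sum_univ_two, Matrix.trace_fin_two, Matrix.one_apply]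
  · linear_combination -hd
  · ring
  · ring
  · linear_combination -hd

theorem sl2_sq_one (h2 : (2 : F) ≠ 0) {A : SpecialLinearGroup (Fin 2) F} (h : A * A = 1) : A = 1 ∨ A = -1 := by
  have h1 : (A : Matrix (Fin 2) (Fin 2) F) * A = 1 := congrArg (fun M : SpecialLinearGroup (Fin 2) F => (M : Matrix (Fin 2) (Fin 2) F)) h
  have h3 := sl2_sq A
  rw [h1] at h3
  have h4 : (A : Matrix (Fin 2) (Fin 2) F).trace • (A : Matrix (Fin 2) (Fin 2) F) = (2 : F) • 1 := by
    have : (2 : F) • (1 : Matrix (Fin 2) (Fin 2) F) = 1 + 1 := by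
      ext i j; fin_cases i <;> fin_cases j <;> norm_num
    rw [this, h3]
    nth_rewrite 2 [← h3]
    abel
  set t := (A : Matrix (Fin 2) (Fin 2) F).trace with ht
  have ht0 : t ≠ 0 := by
    intro h0
    rw [h0, zero_smul] at h4
    have := congrFun (congrFun h4 0) 0
    simp at this
    exact h2 this.symm
  have h5 : (A : Matrix (Fin 2) (Fin 2) F) = (2 / t) • 1 := by
    have : (A : Matrix (Fin 2) (Fin 2) F) = (t⁻¹ * t) • (A : Matrix (Fin 2) (Fin 2) F) := by
      rw [inv_mul_cancel₀ ht0, one_smul]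
    rw [this, mul_smul, h4, smul_smul]
    congr 1
    field_simp
  have h6 : (2 / t) ^ 2 = 1 := by
    have hd := A.2
    rw [h5, Matrix.det_smul] at hd
    simpa using hd
  have h8 : (2 / t - 1) * (2 / t + 1) = 0 := by linear_combination h6
  rcases (mul_eq_zero.1 h8).imp sub_eq_zero.1 eq_neg_of_add_eq_zero_left with h7 | h7
  · left
    apply sl2_ext
    rw [h5, h7, one_smul]; rfl
  · right
    apply sl2_ext
    rw [h5, h7]; simp

theorem sl2_four_not_scal (h2 : (2 : F) ≠ 0) {A : SpecialLinearGroup (Fin 2) F} (h : A * A = -1) :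
    ¬ IsScal (A : Matrix (Fin 2) (Fin 2) F) := by
  intro hs
  have h1 : (A : Matrix (Fin 2) (Fin 2) F) * A = -1 := by
    have := congrArg (fun M : SpecialLinearGroup (Fin 2) F => (M : Matrix (Fin 2) (Fin 2) F)) h
    simpa using this
  obtain ⟨c, hc⟩ := (isScal_iff _).1 hs
  have hd := A.2
  rw [hc, Matrix.det_smul] at hd
  simp at hd
  rw [hc] at h1
  have := congrFun (congrFun h1 0) 0
  simp at this
  apply h2
  have h3 : c * c = 1 := by
    rcases hd with h | h <;> rw [h] <;> ring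
  linear_combination this - h3

theorem sl2_four_trace (h2 : (2 : F) ≠ 0) {A : SpecialLinearGroup (Fin 2) F} (h : A * A = -1) :
    (A : Matrix (Fin 2) (Fin 2) F).trace = 0 := by
  have h1 : (A : Matrix (Fin 2) (Fin 2) F) * A = -1 := by
    have := congrArg (fun M : SpecialLinearGroup (Fin 2) F => (M : Matrix (Fin 2) (Fin 2) F)) h
    simpa using this
  have h3 := sl2_sq A
  rw [h1] at h3
  have h4 : (A : Matrix (Fin 2) (Fin 2) F).trace • (A : Matrix (Fin 2) (Fin 2) F) = 0 := by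
    have h5 : (-1 : Matrix (Fin 2) (Fin 2) F) + 1 =
      (A : Matrix (Fin 2) (Fin 2) F).trace • (A : Matrix (Fin 2) (Fin 2) F) - 1 + 1 := by rw [← h3]
    rw [neg_add_cancel, sub_add_cancel] at h5
    exact h5.symm
  rcases smul_eq_zero.1 h4 with h | h
  · exact h
  · rw [h] at h1
    have := congrFun (congrFun h1 0) 0
    simp at this

theorem sl2_of_trace {A : SpecialLinearGroup (Fin 2) F} (h : (A : Matrix (Fin 2) (Fin 2) F).trace = 0) :
    A * A = -1 := by
  apply sl2_ext
  have h3 := sl2_sq A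
  rw [h, zero_smul, zero_sub] at h3
  simpa using h3

theorem sl2_four_conj [Fintype F] (hF : Odd (Fintype.card F)) {A B : SpecialLinearGroup (Fin 2) F} (hA : A * A = -1)
    (hB : B * B = -1) : ∃ P : SpecialLinearGroup (Fin 2) F, P * B * P⁻¹ = A := by
  have h2 := two_ne_zero_of_odd hF
  obtain ⟨c, hc, h1⟩ := sl2_exists_conj_cform A (sl2_four_not_scal h2 hA)
  obtain ⟨d, hd, h3⟩ := sl2_exists_conj_cform B (sl2_four_not_scal h2 hB)
  have hA' : (cform (A : Matrix (Fin 2) (Fin 2) F).trace c hc) = cform 0 c hc := by rw [sl2_four_trace h2 hA]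
  have hB' : (cform (B : Matrix (Fin 2) (Fin 2) F).trace d hd) = cform 0 d hd := by rw [sl2_four_trace h2 hB]
  rw [hA'] at h1
  rw [hB'] at h3
  have h4 : IsConj (cform (0 : F) d hd) (cform (0 : F) c hc) := by
    rw [sl2_cform_conj_iff]
    obtain ⟨a, b, hab⟩ := sum_two_sq hF (c / d)
    refine ⟨a, b, ?_⟩
    rw [mul_zero, add_zero, hab]
    field_simp
  exact isConj_iff.1 ((h3.trans h4).trans h1.symm)

theorem sl2_four_comm (h2 : (2 : F) ≠ 0) {A X Y : SpecialLinearGroup (Fin 2) F} (hA : A * A = -1)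
    (hX : X * A = A * X) (hY : Y * A = A * Y) : X * Y = Y * X := by
  have hn := sl2_four_not_scal h2 hA
  have hX' : (A : Matrix (Fin 2) (Fin 2) F) * X = X * A := by
    have := congrArg (fun M : SpecialLinearGroup (Fin 2) F => (M : Matrix (Fin 2) (Fin 2) F)) hX
    simpa using this.symm
  have hY' : (A : Matrix (Fin 2) (Fin 2) F) * Y = Y * A := by
    have := congrArg (fun M : SpecialLinearGroup (Fin 2) F => (M : Matrix (Fin 2) (Fin 2) F)) hY
    simpa using this.symm
  obtain ⟨a, b, h1⟩ := commute_nonscalar hn hX'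
  obtain ⟨c, d, h3⟩ := commute_nonscalar hn hY'
  apply sl2_ext
  rw [Matrix.SpecialLinearGroup.coe_mul, Matrix.SpecialLinearGroup.coe_mul, h1, h3]
  simp only [add_mul, mul_add, smul_mul_assoc, mul_smul_comm, one_mul, mul_one, smul_add, smul_smul]
  rw [mul_comm c a, mul_comm d b, mul_comm c b, mul_comm d a]
  abel

theorem sl2_anti (h2 : (2 : F) ≠ 0) {A W : SpecialLinearGroup (Fin 2) F}
    (hW : W * A * W⁻¹ = A * (-1)) : W * W = -1 := by
  apply sl2_of_trace
  have h1 : W * A = A * (-1) * W := by rw [← hW]; group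
  have h3 : (W : Matrix (Fin 2) (Fin 2) F) * A = -((A : Matrix (Fin 2) (Fin 2) F) * W) := by
    have := congrArg (fun M : SpecialLinearGroup (Fin 2) F => (M : Matrix (Fin 2) (Fin 2) F)) h1
    simpa using this
  -- W = - A W A⁻¹
  have h4 : (W : Matrix (Fin 2) (Fin 2) F) = -((A : Matrix (Fin 2) (Fin 2) F) * W * (A⁻¹ : SpecialLinearGroup (Fin 2) F)) := by
    have h5 : (A : Matrix (Fin 2) (Fin 2) F) * (A⁻¹ : SpecialLinearGroup (Fin 2) F) = 1 := by
      rw [← Matrix.SpecialLinearGroup.coe_mul, mul_inv_cancel, Matrix.SpecialLinearGroup.coe_one]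
    calc (W : Matrix (Fin 2) (Fin 2) F) = W * ((A : Matrix (Fin 2) (Fin 2) F) * (A⁻¹ : SpecialLinearGroup (Fin 2) F)) := by rw [h5, mul_one]
      _ = (W : Matrix (Fin 2) (Fin 2) F) * A * (A⁻¹ : SpecialLinearGroup (Fin 2) F) := by rw [mul_assoc]
      _ = _ := by rw [h3, neg_mul]
  have h5 : (W : Matrix (Fin 2) (Fin 2) F).trace = -(W : Matrix (Fin 2) (Fin 2) F).trace := by
    nth_rewrite 1 [h4]
    rw [Matrix.trace_neg, Matrix.trace_mul_comm, ← mul_assoc]
    have h6 : ((A⁻¹ : SpecialLinearGroup (Fin 2) F) : Matrix (Fin 2) (Fin 2) F) * (A : Matrix (Fin 2) (Fin 2) F) = 1 := by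
      rw [← Matrix.SpecialLinearGroup.coe_mul, inv_mul_cancel, Matrix.SpecialLinearGroup.coe_one]
    rw [h6, one_mul]
  have h7 : (2 : F) * (W : Matrix (Fin 2) (Fin 2) F).trace = 0 := by linear_combination h5
  exact (mul_eq_zero.1 h7).resolve_left h2

theorem sl2_exists_four : ∃ A : SpecialLinearGroup (Fin 2) F, A * A = -1 := by
  refine ⟨⟨!![0, -1; 1, 0], by rw [det_fin_two_of]; ring⟩, ?_⟩
  apply sl2_of_trace
  show (!![0, -1; 1, 0] : Matrix (Fin 2) (Fin 2) F).trace = 0
  rw [trace_fin_two_of]; ring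

theorem sl2_neg_one_ne (h2 : (2 : F) ≠ 0) : (-1 : SpecialLinearGroup (Fin 2) F) ≠ 1 := by
  intro h
  have := congrArg (fun M : SpecialLinearGroup (Fin 2) F => (M : Matrix (Fin 2) (Fin 2) F) 0 0) h
  simp at this
  apply h2
  linear_combination -this

end Cfsg.Agent.H4
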