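import Mathlib
import Cfsg.Agent.H4.SL2Four
import Cfsg.Agent.H4.ZStarF
set_option autoImplicit false

/-! Two commuting `SL_2(q)` swapped by an element whose square is the central involution. -/

namespace Cfsg.Agent.H4.SwapPair

open Cfsg Subgroup

variable {G : Type*} [Group G]

/-- the properties of `SL_2(q)` needed -/
structure SL2Like (L : Subgroup G) (j : G) : Prop where
  jL : j ∈ L
  jj : j * j = 1
  j1 : j ≠ 1
  inv : ∀ x ∈ L, x * x = 1 → x = 1 ∨ x = j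
  comm : ∀ a ∈ L, ∀ x ∈ L, ∀ y ∈ L, a * a = j → x * a = a * x → y * a = a * y → x * y = y * x
  anti : ∀ a ∈ L, ∀ w ∈ L, a * a = j → w * a * w⁻¹ = a * j → w * w = j
  conj : ∀ a ∈ L, ∀ b ∈ L, a * a = j → b * b = j → ∃ x ∈ L, x * b * x⁻¹ = a
  four : ∃ a ∈ L, a * a = j

/-- the configuration -/
structure Dat (L₁ L₂ : Subgroup G) (j n : G) : Prop where
  sl : SL2Like L₁ j
  hc : ∀ x ∈ L₁, ∀ y ∈ L₂, x * y = y * x
  hm : ∀ x, x ∈ L₁ → x ∈ L₂ → x = 1 ∨ x = j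
  hn2 : n * n = j
  sw1 : ∀ x, x ∈ L₁ → n * x * n⁻¹ ∈ L₂
  sw2 : ∀ y, y ∈ L₂ → n * y * n⁻¹ ∈ L₁

variable {L₁ L₂ : Subgroup G} {j n : G}

namespace Dat

theorem nj (d : Dat L₁ L₂ j n) : n * j = j * n := by rw [← d.hn2, mul_assoc]

theorem j2 (d : Dat L₁ L₂ j n) : j ∈ L₂ := by
  have h := d.sw1 j d.sl.jL
  rwa [d.nj, mul_inv_cancel_right] at h

theorem nn1 (d : Dat L₁ L₂ j n) {x : G} (hx : x ∈ L₁) : n * (n * x * n⁻¹) * n⁻¹ = x := by
  have h1 : n * (n * x * n⁻¹) * n⁻¹ = (n * n) * x * (n * n)⁻¹ := by group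
  have h2 := d.hc x hx j d.j2
  rw [h1, d.hn2, ← h2, mul_inv_cancel_right]

theorem nn2 (d : Dat L₁ L₂ j n) {x : G} (hx : x ∈ L₂) : n * (n * x * n⁻¹) * n⁻¹ = x := by
  have h1 : n * (n * x * n⁻¹) * n⁻¹ = (n * n) * x * (n * n)⁻¹ := by group
  have h2 := d.hc j d.sl.jL x hx
  rw [h1, d.hn2, h2, mul_inv_cancel_right]

theorem jc1 (d : Dat L₁ L₂ j n) {x : G} (hx : x ∈ L₁) : x * j = j * x := d.hc x hx j d.j2
theorem jc2 (d : Dat L₁ L₂ j n) {x : G} (hx : x ∈ L₂) : x * j = j * x := (d.hc j d.sl.jL x hx).symm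

/-- properties transported to `L₂` -/
theorem inv2 (d : Dat L₁ L₂ j n) {y : G} (hy : y ∈ L₂) (h : y * y = 1) : y = 1 ∨ y = j := by
  have h1 : (n * y * n⁻¹) * (n * y * n⁻¹) = 1 := by
    calc (n * y * n⁻¹) * (n * y * n⁻¹) = n * (y * y) * n⁻¹ := by group
      _ = 1 := by rw [h]; group
  rcases d.sl.inv _ (d.sw2 y hy) h1 with h2 | h2
  · left; exact conj_eq_one_iff.1 h2
  · right
    have h3 : y = n⁻¹ * j * n := by rw [← h2]; group
    rw [h3, mul_assoc, ← d.nj, inv_mul_cancel_left]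

theorem comm2 (d : Dat L₁ L₂ j n) {a x y : G} (ha : a ∈ L₂) (hx : x ∈ L₂) (hy : y ∈ L₂) (haa : a * a = j)
    (h1 : x * a = a * x) (h2 : y * a = a * y) : x * y = y * x := by
  have e : ∀ u v : G, (n * u * n⁻¹) * (n * v * n⁻¹) = n * (u * v) * n⁻¹ := fun u v => by group
  have h3 := d.sl.comm _ (d.sw2 a ha) _ (d.sw2 x hx) _ (d.sw2 y hy)
    (by rw [e, haa, d.nj, mul_inv_cancel_right]) (by rw [e, e, h1]) (by rw [e, e, h2])
  rw [e, e] at h3
  exact mul_left_cancel (mul_right_cancel h3)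

theorem anti2 (d : Dat L₁ L₂ j n) {a w : G} (ha : a ∈ L₂) (hw : w ∈ L₂) (haa : a * a = j)
    (h1 : w * a * w⁻¹ = a * j) : w * w = j := by
  have e : ∀ u v : G, (n * u * n⁻¹) * (n * v * n⁻¹) = n * (u * v) * n⁻¹ := fun u v => by group
  have h3 := d.sl.anti _ (d.sw2 a ha) _ (d.sw2 w hw) (by rw [e, haa, d.nj, mul_inv_cancel_right]) (by
    have h4 : n * w * n⁻¹ * (n * a * n⁻¹) * (n * w * n⁻¹)⁻¹ = n * (w * a * w⁻¹) * n⁻¹ := by group
    rw [h4, h1]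
    have h5 : n * (a * j) * n⁻¹ = n * a * (j * n⁻¹) := by group
    have h6 : j * n⁻¹ = n⁻¹ * j := by
      calc j * n⁻¹ = n⁻¹ * (n * j) * n⁻¹ := by group
        _ = n⁻¹ * (j * n) * n⁻¹ := by rw [d.nj]
        _ = n⁻¹ * j := by group
    rw [h5, h6]; group)
  rw [e] at h3
  have h4 : w * w = n⁻¹ * j * n := by rw [← h3]; group
  rw [h4, mul_assoc, ← d.nj, inv_mul_cancel_left]

/-- elements of `L₁L₂` as products -/
theorem mem_L (d : Dat L₁ L₂ j n) {x : G} : x ∈ L₁ ⊔ L₂ ↔ ∃ a ∈ L₁, ∃ b ∈ L₂, x = a * b := by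
  constructor
  · intro hx
    let K : Subgroup G :=
      { carrier := {x | ∃ a ∈ L₁, ∃ b ∈ L₂, x = a * b}
        one_mem' := ⟨1, L₁.one_mem, 1, L₂.one_mem, (mul_one 1).symm⟩
        mul_mem' := by
          rintro _ _ ⟨a, ha, b, hb, rfl⟩ ⟨c, hc, e, he, rfl⟩
          refine ⟨a * c, mul_mem ha hc, b * e, mul_mem hb he, ?_⟩
          rw [mul_assoc, ← mul_assoc b c e, ← d.hc c hc b hb]; group
        inv_mem' := by
          rintro _ ⟨a, ha, b, hb, rfl⟩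
          exact ⟨a⁻¹, inv_mem ha, b⁻¹, inv_mem hb, by rw [d.hc _ (inv_mem ha) _ (inv_mem hb), mul_inv_rev]⟩ }
    have h1 : L₁ ⊔ L₂ ≤ K := sup_le (fun a ha => ⟨a, ha, 1, L₂.one_mem, (mul_one a).symm⟩)
      (fun b hb => ⟨1, L₁.one_mem, b, hb, (one_mul b).symm⟩)
    exact h1 hx
  · rintro ⟨a, ha, b, hb, rfl⟩
    exact mul_mem (le_sup_left (a := L₁) (b := L₂) ha) (le_sup_right (a := L₁) (b := L₂) hb)

/-- comparison of products -/
theorem cmp (d : Dat L₁ L₂ j n) {x x' y y' : G} (hx : x ∈ L₁) (hx' : x' ∈ L₁) (hy : y ∈ L₂) (hy' : y' ∈ L₂)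
    (h : x * y = x' * y') : (x = x' ∧ y = y') ∨ (x = x' * j ∧ y = y' * j) := by
  have h1 : x'⁻¹ * x = y' * y⁻¹ := by
    calc x'⁻¹ * x = x'⁻¹ * (x * y) * y⁻¹ := by group
      _ = y' * y⁻¹ := by rw [h]; group
  rcases d.hm _ (mul_mem (inv_mem hx') hx) (by rw [h1]; exact mul_mem hy' (inv_mem hy)) with h2 | h2
  · left
    refine ⟨(inv_mul_eq_one.1 h2).symm, ?_⟩
    rw [h1] at h2
    exact (mul_inv_eq_one.1 h2).symm
  · right
    refine ⟨by rw [← h2, mul_inv_cancel_left], ?_⟩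
    rw [h1] at h2
    have h3 : y' = j * y := by rw [← h2]; group
    rw [h3, ← d.jc2 hy, mul_assoc, d.sl.jj, mul_one]

/-- the square of `x y n` -/
theorem sq_out (d : Dat L₁ L₂ j n) {x y : G} (hx : x ∈ L₁) (hy : y ∈ L₂) :
    (x * y * n) * (x * y * n) = (x * (n * y * n⁻¹)) * ((y * (n * x * n⁻¹)) * j) := by
  have h1 := d.hc _ (d.sw2 y hy) _ (d.sw1 x hx)
  have h2 := d.hc _ (d.sw2 y hy) y hy
  calc (x * y * n) * (x * y * n) = x * y * ((n * x * n⁻¹) * (n * y * n⁻¹)) * (n * n) := by group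
    _ = x * y * ((n * y * n⁻¹) * (n * x * n⁻¹)) * j := by rw [h1, d.hn2]
    _ = x * (y * (n * y * n⁻¹)) * (n * x * n⁻¹) * j := by group
    _ = x * ((n * y * n⁻¹) * y) * (n * x * n⁻¹) * j := by rw [h2]
    _ = _ := by group

/-- no involutions outside -/
theorem no_inv_out (d : Dat L₁ L₂ j n) {x y : G} (hx : x ∈ L₁) (hy : y ∈ L₂) :
    (x * y * n) * (x * y * n) ≠ 1 := by
  intro h
  rw [d.sq_out hx hy] at h
  obtain ⟨u, hu⟩ : ∃ u, u = x * (n * y * n⁻¹) := ⟨_, rfl⟩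
  obtain ⟨v, hv⟩ : ∃ v, v = y * (n * x * n⁻¹) := ⟨_, rfl⟩
  have huL : u ∈ L₁ := by rw [hu]; exact mul_mem hx (d.sw2 y hy)
  have hvL : v ∈ L₂ := by rw [hv]; exact mul_mem hy (d.sw1 x hx)
  rw [← hu, ← hv] at h
  have h1 : u * (v * j) = 1 * 1 := by rw [h, mul_one]
  have hj1 := d.sl.j1
  have hjj := d.sl.jj
  -- `n u n⁻¹ = (n x n⁻¹) y`
  have h2 : n * u * n⁻¹ = (n * x * n⁻¹) * y := by
    rw [hu]
    have : n * (x * (n * y * n⁻¹)) * n⁻¹ = (n * x * n⁻¹) * (n * (n * y * n⁻¹) * n⁻¹) := by group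
    rw [this, d.nn2 hy]
  rcases d.cmp huL L₁.one_mem (mul_mem hvL d.j2) L₂.one_mem h1 with ⟨h3, h4⟩ | ⟨h3, h4⟩
  · -- u = 1
    rw [h3, mul_one, mul_inv_cancel] at h2
    have h5 : v = 1 := by
      rw [hv]
      have h6 : n * x * n⁻¹ = y⁻¹ := eq_inv_of_mul_eq_one_left h2.symm
      rw [h6, mul_inv_cancel]
    rw [h5, one_mul] at h4
    exact hj1 h4
  · rw [h3, one_mul, d.nj, mul_inv_cancel_right] at h2
    have h5 : v = j := by
      rw [hv]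
      have h6 : n * x * n⁻¹ = j * y⁻¹ := by rw [h2]; group
      have h7 := d.jc2 (inv_mem hy)
      rw [h6, ← h7, mul_inv_cancel_left]
    rw [h5, hjj, one_mul] at h4
    exact hj1 h4.symm

end Dat

/-- with the choice of `a` of order four -/
structure Dat2 (L₁ L₂ : Subgroup G) (j n a b : G) : Prop extends Dat L₁ L₂ j n where
  ha : a ∈ L₁
  haa : a * a = j
  hb : b = n * a * n⁻¹

namespace Dat2

variable {a b : G}

theorem hbL (d : Dat2 L₁ L₂ j n a b) : b ∈ L₂ := by rw [d.hb]; exact d.sw1 a d.ha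

theorem hbb (d : Dat2 L₁ L₂ j n a b) : b * b = j := by
  rw [d.hb]
  calc n * a * n⁻¹ * (n * a * n⁻¹) = n * (a * a) * n⁻¹ := by group
    _ = j := by rw [d.haa, d.nj, mul_inv_cancel_right]

theorem nbn (d : Dat2 L₁ L₂ j n a b) : n * b * n⁻¹ = a := by rw [d.hb]; exact d.nn1 d.ha

theorem hab (d : Dat2 L₁ L₂ j n a b) : a * b = b * a := d.hc a d.ha b d.hbL

theorem nt (d : Dat2 L₁ L₂ j n a b) : n * (a * b) * n⁻¹ = a * b := by
  have h1 : n * (a * b) * n⁻¹ = (n * a * n⁻¹) * (n * b * n⁻¹) := by group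
  rw [h1, ← d.hb, d.nbn, d.hab]

theorem tt (d : Dat2 L₁ L₂ j n a b) : (a * b) * (a * b) = 1 := by
  have h1 : (a * b) * (a * b) = a * (b * a) * b := by group
  rw [h1, ← d.hab]
  have h2 : a * (a * b) * b = (a * a) * (b * b) := by group
  rw [h2, d.haa, d.hbb, d.sl.jj]

theorem t1 (d : Dat2 L₁ L₂ j n a b) : a * b ≠ 1 := by
  intro h
  have h1 : a ∈ L₂ := by rw [eq_inv_of_mul_eq_one_left h]; exact inv_mem d.hbL
  rcases d.hm a d.ha h1 with h2 | h2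
  · have := d.haa; rw [h2, one_mul] at this; exact d.sl.j1 this.symm
  · have := d.haa; rw [h2, d.sl.jj] at this; exact d.sl.j1 this.symm

theorem tj (d : Dat2 L₁ L₂ j n a b) : a * b ≠ j := by
  intro h
  have h1 : a ∈ L₂ := by
    have : a = j * b⁻¹ := by rw [← h]; group
    rw [this]; exact mul_mem d.j2 (inv_mem d.hbL)
  rcases d.hm a d.ha h1 with h2 | h2
  · have := d.haa; rw [h2, one_mul] at this; exact d.sl.j1 this.symm
  · have := d.haa; rw [h2, d.sl.jj] at this; exact d.sl.j1 this.symm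

/-- elements of `L₁L₂` commuting with `t = ab` -/
theorem comm_t (d : Dat2 L₁ L₂ j n a b) {x y : G} (hx : x ∈ L₁) (hy : y ∈ L₂)
    (h : (x * y) * (a * b) = (a * b) * (x * y)) :
    (x * a = a * x ∧ y * b = b * y) ∨ (x * a * x⁻¹ = a * j ∧ y * b * y⁻¹ = b * j) := by
  have h1 : (x * a * x⁻¹) * (y * b * y⁻¹) = a * b := by
    have hxy := d.hc x hx y hy
    have h2 := d.hc _ (mul_mem (mul_mem hx d.ha) (inv_mem hx)) y hy
    have h3 := d.hc x hx b d.hbL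
    calc (x * a * x⁻¹) * (y * b * y⁻¹) = ((x * a * x⁻¹) * y) * b * y⁻¹ := by group
      _ = (y * (x * a * x⁻¹)) * b * y⁻¹ := by rw [h2]
      _ = (y * x) * a * (x⁻¹ * b) * y⁻¹ := by group
      _ = (x * y) * a * (b * x⁻¹) * y⁻¹ := by
          rw [hxy]
          have h4 := d.hc x⁻¹ (inv_mem hx) b d.hbL
          rw [h4]
      _ = ((x * y) * (a * b)) * (x⁻¹ * y⁻¹) := by group
      _ = ((a * b) * (x * y)) * (x⁻¹ * y⁻¹) := by rw [h]
      _ = (a * b) * (y * x) * (x⁻¹ * y⁻¹) := by rw [hxy]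
      _ = a * b := by group
  rcases d.cmp (mul_mem (mul_mem hx d.ha) (inv_mem hx)) d.ha (mul_mem (mul_mem hy d.hbL) (inv_mem hy)) d.hbL h1 with
    ⟨h2, h3⟩ | ⟨h2, h3⟩
  · left
    exact ⟨mul_inv_eq_iff_eq_mul.1 h2, mul_inv_eq_iff_eq_mul.1 h3⟩
  · right; exact ⟨h2, h3⟩

/-- square roots of `t` inside -/
theorem root_in (d : Dat2 L₁ L₂ j n a b) {x : G} (hx : x ∈ L₁ ⊔ L₂) (hxt : x * (a * b) = (a * b) * x)
    (hsq : x * x = a * b) : ∃ x₁ ∈ L₁, ∃ x₂ ∈ L₂, x = x₁ * x₂ ∧ x₁ * a = a * x₁ ∧ x₂ * b = b * x₂ := by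
  obtain ⟨x₁, h1, x₂, h2, rfl⟩ := d.mem_L.1 hx
  refine ⟨x₁, h1, x₂, h2, rfl, ?_⟩
  rcases d.comm_t h1 h2 hxt with h | ⟨h3, h4⟩
  · exact h
  · exfalso
    have h5 := d.sl.anti a d.ha x₁ h1 d.haa h3
    have h6 := d.anti2 d.hbL h2 d.hbb h4
    have h7 : x₁ * x₂ * (x₁ * x₂) = 1 := by
      have h8 := d.hc x₁ h1 x₂ h2
      calc x₁ * x₂ * (x₁ * x₂) = x₁ * (x₂ * x₁) * x₂ := by group
        _ = x₁ * (x₁ * x₂) * x₂ := by rw [h8]
        _ = (x₁ * x₁) * (x₂ * x₂) := by group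
        _ = 1 := by rw [h5, h6, d.sl.jj]
    rw [h7] at hsq
    exact d.t1 hsq.symm

/-- square roots of `t` outside -/
theorem root_out (d : Dat2 L₁ L₂ j n a b) {y₁ y₂ : G} (h1 : y₁ ∈ L₁) (h2 : y₂ ∈ L₂)
    (hxt : (y₁ * y₂ * n) * (a * b) = (a * b) * (y₁ * y₂ * n))
    (hsq : (y₁ * y₂ * n) * (y₁ * y₂ * n) = a * b) :
    (y₁ * y₂ * n) * a * (y₁ * y₂ * n)⁻¹ = b⁻¹ := by
  have hyt : (y₁ * y₂) * (a * b) = (a * b) * (y₁ * y₂) := by
    have h3 : (y₁ * y₂ * n) * (a * b) = (y₁ * y₂) * (n * (a * b) * n⁻¹) * n := by group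
    rw [h3, d.nt] at hxt
    have h4 : (a * b) * (y₁ * y₂ * n) = (a * b) * (y₁ * y₂) * n := by group
    rw [h4] at hxt
    exact mul_right_cancel hxt
  rcases d.comm_t h1 h2 hyt with ⟨h3, h4⟩ | ⟨h3, h4⟩
  · exfalso
    rw [d.sq_out h1 h2] at hsq
    obtain ⟨u, hu⟩ : ∃ u, u = y₁ * (n * y₂ * n⁻¹) := ⟨_, rfl⟩
    obtain ⟨v, hv⟩ : ∃ v, v = y₂ * (n * y₁ * n⁻¹) := ⟨_, rfl⟩
    have huL : u ∈ L₁ := by rw [hu]; exact mul_mem h1 (d.sw2 y₂ h2)
    have hvL : v ∈ L₂ := by rw [hv]; exact mul_mem h2 (d.sw1 y₁ h1)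
    rw [← hu, ← hv] at hsq
    -- `n u n⁻¹ = v`
    have h5 : n * u * n⁻¹ = v := by
      rw [hu, hv]
      have h6 : n * (y₁ * (n * y₂ * n⁻¹)) * n⁻¹ = (n * y₁ * n⁻¹) * (n * (n * y₂ * n⁻¹) * n⁻¹) := by group
      rw [h6, d.nn2 h2]
      apply d.comm2 d.hbL (d.sw1 y₁ h1) h2 d.hbb _ h4
      have e : ∀ u v : G, (n * u * n⁻¹) * (n * v * n⁻¹) = n * (u * v) * n⁻¹ := fun u v => by group
      rw [d.hb, e, e, h3]
    have h6 : u * (v * j) = a * b := hsq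
    rcases d.cmp huL d.ha (mul_mem hvL d.j2) d.hbL h6 with ⟨h7, h8⟩ | ⟨h7, h8⟩
    · rw [h7, ← d.hb] at h5
      rw [← h5] at h8
      have h9 : j = 1 := mul_eq_left.1 h8
      exact d.sl.j1 h9
    · have h9 : v = b := mul_right_cancel h8
      rw [h7] at h5
      have h10 : n * (a * j) * n⁻¹ = (n * a * n⁻¹) * (n * j * n⁻¹) := by group
      rw [h10, ← d.hb, d.nj, mul_inv_cancel_right, h9] at h5
      exact d.sl.j1 (mul_eq_left.1 h5)
  · have h5 : (y₁ * y₂ * n) * a * (y₁ * y₂ * n)⁻¹ = y₁ * (y₂ * (n * a * n⁻¹) * y₂⁻¹) * y₁⁻¹ := by group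
    rw [h5, ← d.hb, h4]
    have h6 := d.hc y₁ h1 (b * j) (mul_mem d.hbL d.j2)
    rw [h6, mul_inv_cancel_right]
    rw [eq_inv_iff_mul_eq_one]
    have h7 := d.jc2 d.hbL
    rw [h7, mul_assoc, d.hbb, d.sl.jj]

end Dat2

section main
variable [Finite G] {a b : G}

/-- no element swaps `j` and `t` -/
theorem Dat2.no_swap (d : Dat2 L₁ L₂ j n a b)
    (hidx : ∀ x, x * j = j * x → x ∈ L₁ ⊔ L₂ ∨ ∃ y ∈ L₁ ⊔ L₂, x = y * n)
    (hnL : n ∉ L₁ ⊔ L₂) (hLj : ∀ x ∈ L₁ ⊔ L₂, x * j = j * x) {g : G} (h1 : g * j * g⁻¹ = a * b)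
    (h2 : g * (a * b) * g⁻¹ = j) : False := by
  classical
  -- the two sets
  let J : Set G := {x | (x * j = j * x ∧ x * (a * b) = (a * b) * x) ∧ x * x = j}
  let T : Set G := {x | (x * j = j * x ∧ x * (a * b) = (a * b) * x) ∧ x * x = a * b}
  have e : ∀ u v : G, (g * u * g⁻¹) * (g * v * g⁻¹) = g * (u * v) * g⁻¹ := fun u v => by group
  have hJT : ∀ x ∈ J, g * x * g⁻¹ ∈ T := by
    rintro x ⟨⟨hx1, hx2⟩, hx3⟩
    refine ⟨⟨?_, ?_⟩, ?_⟩
    · rw [← h2, e, e, hx2]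
    · rw [← h1, e, e, hx1]
    · rw [e, hx3, h1]
  have haL : a ∈ L₁ ⊔ L₂ := le_sup_left (a := L₁) (b := L₂) d.ha
  have hat : a * (a * b) = (a * b) * a := by rw [d.hab, ← mul_assoc, d.hab]
  have haj : a * j = j * a := d.jc1 d.ha
  have htj : (a * b) * j = j * (a * b) := by
    have h3 := d.jc2 d.hbL
    calc a * b * j = a * (b * j) := by group
      _ = a * (j * b) := by rw [h3]
      _ = (a * j) * b := by group
      _ = j * (a * b) := by rw [haj]; group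
  have htinv : (a * b)⁻¹ = a * b := inv_eq_of_mul_eq_one_left d.tt
  obtain ⟨x₀, hx₀⟩ : ∃ x₀ : G, ∀ x ∈ T, x ∈ L₁ ⊔ L₂ → x₀ ∈ T ∧ x₀ ∈ L₁ ⊔ L₂ := by
    by_cases h : ∃ x ∈ T, x ∈ L₁ ⊔ L₂
    · obtain ⟨x, hx, hx'⟩ := h
      exact ⟨x, fun _ _ _ => ⟨hx, hx'⟩⟩
    · exact ⟨1, fun x hx hx' => absurd ⟨x, hx, hx'⟩ h⟩
  let Φ : G → G := fun x => if x ∈ L₁ ⊔ L₂ then a * x₀⁻¹ * x else a * x
  have hΦin : ∀ x ∈ T, x ∈ L₁ ⊔ L₂ → Φ x ∈ J ∧ Φ x ∈ L₁ ⊔ L₂ := by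
    intro x hx hxL
    obtain ⟨hx₀T, hx₀L⟩ := hx₀ x hx hxL
    have hΦ : Φ x = a * x₀⁻¹ * x := if_pos hxL
    obtain ⟨p, hp, q, hq, hpq, hpa, hqb⟩ := d.root_in hxL hx.1.2 hx.2
    obtain ⟨p₀, hp₀, q₀, hq₀, hpq₀, hpa₀, hqb₀⟩ := d.root_in hx₀L hx₀T.1.2 hx₀T.2
    have hmem : Φ x ∈ L₁ ⊔ L₂ := by rw [hΦ]; exact mul_mem (mul_mem haL (inv_mem hx₀L)) hxL
    refine ⟨⟨⟨hLj _ hmem, ?_⟩, ?_⟩, hmem⟩
    · rw [hΦ]
      have c1 : Commute (a : G) (a * b) := hat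
      have c2 : Commute x₀ (a * b) := hx₀T.1.2
      have c3 : Commute x (a * b) := hx.1.2
      exact ((c1.mul_left c2.inv_left).mul_left c3).eq
    · rw [hΦ]
      -- everything commutes
      have c1 : Commute p p₀ := d.sl.comm a d.ha p hp p₀ hp₀ d.haa hpa hpa₀
      have c2 : Commute q q₀ := d.comm2 d.hbL hq hq₀ d.hbb hqb hqb₀
      have c3 : Commute p q₀ := d.hc p hp q₀ hq₀
      have c4 : Commute q p₀ := (d.hc p₀ hp₀ q hq).symm
      have c5 : Commute x x₀ := by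
        rw [hpq, hpq₀]
        exact (c1.mul_right c3).mul_left (c4.mul_right c2)
      have c6 : Commute a x := by
        rw [hpq]
        exact (show Commute a p from hpa.symm).mul_right (d.hc a d.ha q hq)
      have c7 : Commute a x₀ := by
        rw [hpq₀]
        exact (show Commute a p₀ from hpa₀.symm).mul_right (d.hc a d.ha q₀ hq₀)
      have c8 : Commute (a * x₀⁻¹) x := c6.mul_left c5.symm.inv_left
      have e1 : a * x₀⁻¹ * x * (a * x₀⁻¹ * x) = (a * x₀⁻¹) * (a * x₀⁻¹) * (x * x) := by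
        calc a * x₀⁻¹ * x * (a * x₀⁻¹ * x) = (a * x₀⁻¹) * (x * (a * x₀⁻¹)) * x := by group
          _ = (a * x₀⁻¹) * ((a * x₀⁻¹) * x) * x := by rw [c8.eq]
          _ = _ := by group
      have e2 : (a * x₀⁻¹) * (a * x₀⁻¹) = (a * a) * (x₀ * x₀)⁻¹ := by
        have c9 : Commute a x₀⁻¹ := c7.inv_right
        calc (a * x₀⁻¹) * (a * x₀⁻¹) = a * (x₀⁻¹ * a) * x₀⁻¹ := by group
          _ = a * (a * x₀⁻¹) * x₀⁻¹ := by rw [c9.eq]
          _ = _ := by group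
      rw [e1, e2, hx.2, hx₀T.2, d.haa, inv_mul_cancel_right]
  have hΦout : ∀ x ∈ T, x ∉ L₁ ⊔ L₂ → Φ x ∈ J ∧ Φ x ∉ L₁ ⊔ L₂ := by
    intro x hx hxL
    have hΦ : Φ x = a * x := if_neg hxL
    rcases hidx x hx.1.1 with h | ⟨y, hy, hxy⟩
    · exact absurd h hxL
    obtain ⟨y₁, h3, y₂, h4, rfl⟩ := d.mem_L.1 hy
    have h5 : x * a * x⁻¹ = b⁻¹ := by
      rw [hxy]
      apply d.root_out h3 h4
      · rw [← hxy]; exact hx.1.2
      · rw [← hxy]; exact hx.2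
    refine ⟨⟨⟨?_, ?_⟩, ?_⟩, ?_⟩
    · rw [hΦ]
      exact ((show Commute a j from haj).mul_left hx.1.1).eq
    · rw [hΦ]
      exact ((show Commute a (a * b) from hat).mul_left hx.1.2).eq
    · rw [hΦ]
      have h6 : a * x * (a * x) = a * (x * a * x⁻¹) * (x * x) := by group
      rw [h6, h5, hx.2, d.hab]
      have h7 : a * b⁻¹ * (b * a) = a * a := by group
      rw [h7, d.haa]
    · rw [hΦ]
      intro h6
      apply hxL
      have := mul_mem (inv_mem haL) h6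
      rwa [inv_mul_cancel_left] at this
  have hΦJ : ∀ x ∈ T, Φ x ∈ J := by
    intro x hx
    by_cases h : x ∈ L₁ ⊔ L₂
    · exact (hΦin x hx h).1
    · exact (hΦout x hx h).1
  have hΦinj : ∀ x ∈ T, ∀ y ∈ T, Φ x = Φ y → x = y := by
    intro x hx y hy hxy
    by_cases h : x ∈ L₁ ⊔ L₂
    · by_cases h' : y ∈ L₁ ⊔ L₂
      · have e1 : Φ x = a * x₀⁻¹ * x := if_pos h
        have e2 : Φ y = a * x₀⁻¹ * y := if_pos h'
        rw [e1, e2] at hxy
        exact mul_left_cancel hxy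
      · exfalso
        have h3 := (hΦin x hx h).2
        rw [hxy] at h3
        exact (hΦout y hy h').2 h3
    · by_cases h' : y ∈ L₁ ⊔ L₂
      · exfalso
        have h3 := (hΦin y hy h').2
        rw [← hxy] at h3
        exact (hΦout x hx h).2 h3
      · have e1 : Φ x = a * x := if_neg h
        have e2 : Φ y = a * y := if_neg h'
        rw [e1, e2] at hxy
        exact mul_left_cancel hxy
  -- `n` is missed
  have hnJ : n ∈ J := by
    refine ⟨⟨d.nj, ?_⟩, d.hn2⟩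
    have := d.nt
    calc n * (a * b) = (n * (a * b) * n⁻¹) * n := by group
      _ = a * b * n := by rw [this]
  have hmiss : ∀ x ∈ T, Φ x ≠ n := by
    intro x hx hxn
    by_cases h : x ∈ L₁ ⊔ L₂
    · have := (hΦin x hx h).2
      rw [hxn] at this
      exact hnL this
    · have hΦ : Φ x = a * x := if_neg h
      rw [hΦ] at hxn
      have h3 : x = a⁻¹ * n := by rw [← hxn]; group
      have h4 := hx.2
      rw [h3] at h4
      have h5 : a⁻¹ * n * (a⁻¹ * n) = a⁻¹ * (n * a * n⁻¹)⁻¹ * (n * n) := by group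
      rw [h5, ← d.hb, d.hn2, ← mul_inv_rev, ← d.hab, htinv] at h4
      exact d.sl.j1 (mul_eq_left.1 h4)
  -- conclusion
  let Ψ : J → J := fun x => ⟨Φ (g * x * g⁻¹), hΦJ _ (hJT x x.2)⟩
  have hinj : Function.Injective Ψ := by
    intro x y hxy
    have h3 := hΦinj _ (hJT x x.2) _ (hJT y y.2) (congrArg Subtype.val hxy)
    exact Subtype.ext (mul_left_cancel (mul_right_cancel h3))
  have hsurj := Finite.injective_iff_surjective.1 hinj
  obtain ⟨x, hx⟩ := hsurj ⟨n, hnJ⟩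
  exact hmiss _ (hJT x x.2) (congrArg Subtype.val hx)

/-- `j` is isolated -/
theorem Dat.isolated (d : Dat L₁ L₂ j n)
    (hidx : ∀ x, x * j = j * x → x ∈ L₁ ⊔ L₂ ∨ ∃ y ∈ L₁ ⊔ L₂, x = y * n)
    (hnL : n ∉ L₁ ⊔ L₂) : IsIsolatedInvolution j := by
  have hLj : ∀ x ∈ L₁ ⊔ L₂, x * j = j * x := by
    intro x hx
    obtain ⟨y, hy, z, hz, rfl⟩ := d.mem_L.1 hx
    exact ((show Commute y j from d.jc1 hy).mul_left (d.jc2 hz)).eq
  obtain ⟨a, ha, haa⟩ := d.sl.four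
  obtain ⟨b, hb⟩ : ∃ b, b = n * a * n⁻¹ := ⟨_, rfl⟩
  have d2 : Dat2 L₁ L₂ j n a b := { toDat := d, ha := ha, haa := haa, hb := hb }
  -- all involutions of `C(j)` other than `j` are conjugate to `ab`
  have key : ∀ s, s * s = 1 → s ≠ 1 → s ≠ j → s * j = j * s → ∃ c, c * j = j * c ∧ c * s * c⁻¹ = a * b := by
    intro s hss hs1 hsj hsc
    rcases hidx s hsc with h | ⟨y, hy, hsy⟩
    · obtain ⟨x, hx, y, hy, rfl⟩ := d.mem_L.1 h
      have h1 : (x * x) * (y * y) = 1 * 1 := by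
        have := d.hc x hx y hy
        rw [mul_one, ← hss]
        calc x * x * (y * y) = x * (x * y) * y := by group
          _ = x * (y * x) * y := by rw [this]
          _ = x * y * (x * y) := by group
      rcases d.cmp (mul_mem hx hx) L₁.one_mem (mul_mem hy hy) L₂.one_mem h1 with ⟨h2, h3⟩ | ⟨h2, h3⟩
      · exfalso
        rcases d.sl.inv x hx h2 with h4 | h4 <;> rcases d.inv2 hy h3 with h5 | h5
        · exact hs1 (by rw [h4, h5, mul_one])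
        · exact hsj (by rw [h4, h5, one_mul])
        · exact hsj (by rw [h4, h5, mul_one])
        · exact hs1 (by rw [h4, h5, d.sl.jj])
      · rw [one_mul] at h2 h3
        obtain ⟨u, hu, hux⟩ := d.sl.conj a ha x hx haa h2
        -- conjugate `y` to `b`
        have hy' : n⁻¹ * y * n ∈ L₁ := by
          have h4 := d.sw2 y hy
          have h5 : n * y * n⁻¹ = n⁻¹ * y * n := by
            have h6 := d.nn2 hy
            calc n * y * n⁻¹ = n⁻¹ * (n * (n * y * n⁻¹) * n⁻¹) * n := by group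
              _ = n⁻¹ * y * n := by rw [h6]
          rwa [h5] at h4
        have hyy : (n⁻¹ * y * n) * (n⁻¹ * y * n) = j := by
          calc (n⁻¹ * y * n) * (n⁻¹ * y * n) = n⁻¹ * (y * y) * n := by group
            _ = n⁻¹ * (j * n) := by rw [h3, mul_assoc]
            _ = j := by rw [← d.nj, inv_mul_cancel_left]
        obtain ⟨v, hv, hvy⟩ := d.sl.conj a ha _ hy' haa hyy
        have hvy' : (n * v * n⁻¹) * y * (n * v * n⁻¹)⁻¹ = b := by
          rw [hb, ← hvy]; group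
        obtain ⟨w, hw⟩ : ∃ w, w = n * v * n⁻¹ := ⟨_, rfl⟩
        rw [← hw] at hvy'
        have hwL : w ∈ L₂ := by rw [hw]; exact d.sw1 v hv
        refine ⟨u * w, ((show Commute u j from d.jc1 hu).mul_left (d.jc2 hwL)).eq, ?_⟩
        have h4 := d.hc u hu w hwL
        have h5 := d.hc x hx w⁻¹ (inv_mem hwL)
        have h6 := d.hc u hu b d2.hbL
        have h7 := d.hc x hx w hwL
        calc u * w * (x * y) * (u * w)⁻¹ = u * (w * x) * y * w⁻¹ * u⁻¹ := by group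
          _ = u * (x * w) * y * w⁻¹ * u⁻¹ := by rw [h7]
          _ = (u * x * u⁻¹) * (u * (w * y * w⁻¹) * u⁻¹) := by group
          _ = a * (u * b * u⁻¹) := by rw [hux, hvy']
          _ = a * b := by rw [h6, mul_inv_cancel_right]
    · exfalso
      obtain ⟨y₁, h3, y₂, h4, rfl⟩ := d.mem_L.1 hy
      rw [hsy] at hss
      exact d.no_inv_out h3 h4 hss
  refine ⟨orderOf_two_of d.sl.jj d.sl.j1, ?_⟩
  intro g hg
  by_contra hne
  have hg' : j * (g * j * g⁻¹) = (g * j * g⁻¹) * j := hg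
  have e : ∀ g u v : G, (g * u * g⁻¹) * (g * v * g⁻¹) = g * (u * v) * g⁻¹ := fun g u v => by group
  obtain ⟨c, hcj, hc⟩ := key (g * j * g⁻¹) (by rw [e, d.sl.jj]; group)
    (fun h => d.sl.j1 (conj_eq_one_iff.1 h)) hne hg'.symm
  obtain ⟨g₁, hg₁⟩ : ∃ g₁, g₁ = c * g := ⟨_, rfl⟩
  have h1 : g₁ * j * g₁⁻¹ = a * b := by
    rw [hg₁, ← hc]; group
  have htj : (a * b) * j = j * (a * b) := by
    have h3 := d.jc2 d2.hbL
    have h4 := d.jc1 ha
    exact ((show Commute a j from h4).mul_left h3).eq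
  obtain ⟨c', hcj', hc'⟩ := key (g₁⁻¹ * j * g₁) (by
      calc g₁⁻¹ * j * g₁ * (g₁⁻¹ * j * g₁) = g₁⁻¹ * (j * j) * g₁ := by group
        _ = 1 := by rw [d.sl.jj]; group)
    (by
      intro h
      apply d.sl.j1
      calc j = g₁ * (g₁⁻¹ * j * g₁) * g₁⁻¹ := by group
        _ = 1 := by rw [h]; group)
    (by
      intro h
      apply d2.tj
      rw [← h1]
      nth_rewrite 1 [← h]
      group)
    (by
      have h5 : g₁⁻¹ * j * g₁ * j = g₁⁻¹ * (j * (g₁ * j * g₁⁻¹)) * g₁ := by group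
      have h6 : j * (g₁⁻¹ * j * g₁) = g₁⁻¹ * ((g₁ * j * g₁⁻¹) * j) * g₁ := by group
      rw [h5, h6, h1, htj])
  apply d2.no_swap hidx hnL hLj (g := c' * g₁⁻¹)
  · rw [← hc']; group
  · rw [← h1]
    calc c' * g₁⁻¹ * (g₁ * j * g₁⁻¹) * (c' * g₁⁻¹)⁻¹ = c' * j * c'⁻¹ := by group
      _ = j := by rw [hcj', mul_inv_cancel_right]

end main

end Cfsg.Agent.H4.SwapPair
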