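import Cfsg.Agent.H4.SC

/-!
# Combinatorics of integral vectors with a prescribed Gram matrix, second case (S3805)
-/

set_option autoImplicit false

namespace Cfsg.Agent.H4.TC

open Matrix Cfsg.Agent.H4

variable {I : Type*} [Fintype I]

/-- Gram data -/
structure Gram (o a1 a2 b1 b2 : I → ℤ) : Prop where
  ho : o ⬝ᵥ o = 1
  ha1o : a1 ⬝ᵥ o = -1
  ha2o : a2 ⬝ᵥ o = -1
  hb1o : b1 ⬝ᵥ o = 0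
  hb2o : b2 ⬝ᵥ o = 0
  h11 : a1 ⬝ᵥ a1 = 3
  h22 : a2 ⬝ᵥ a2 = 3
  h12 : a1 ⬝ᵥ a2 = 1
  hb11 : b1 ⬝ᵥ b1 = 3
  hb22 : b2 ⬝ᵥ b2 = 3
  hb12 : b1 ⬝ᵥ b2 = 1
  k11 : b1 ⬝ᵥ a1 = 0
  k12 : b1 ⬝ᵥ a2 = 1
  k21 : b2 ⬝ᵥ a1 = 1
  k22 : b2 ⬝ᵥ a2 = 0

/-- decomposition -/
structure Dec (o a1 a2 A1 B1 A2 B2 : I → ℤ) : Prop where
  hA1 : A1 ⬝ᵥ A1 = 1
  hB1 : B1 ⬝ᵥ B1 = 1
  hA2 : A2 ⬝ᵥ A2 = 1
  hB2 : B2 ⬝ᵥ B2 = 1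
  h1 : A1 ⬝ᵥ B1 = 0
  h2 : A2 ⬝ᵥ B2 = 0
  e1 : a1 + o = A1 + B1
  e2 : a2 + o = A2 + B2
  o1 : A1 ⬝ᵥ A2 = 0
  o2 : A1 ⬝ᵥ B2 = 0
  o3 : B1 ⬝ᵥ A2 = 0
  o4 : B1 ⬝ᵥ B2 = 0

variable {o a1 a2 b1 b2 : I → ℤ}

theorem Dec.swap1 {A1 B1 A2 B2 : I → ℤ} (d : Dec o a1 a2 A1 B1 A2 B2) :
    Dec o a1 a2 B1 A1 A2 B2 :=
  ⟨d.hB1, d.hA1, d.hA2, d.hB2, by rw [dotProduct_comm]; exact d.h1, d.h2,
    by rw [d.e1, add_comm], d.e2, d.o3, d.o4, d.o1, d.o2⟩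

theorem Dec.swap2 {A1 B1 A2 B2 : I → ℤ} (d : Dec o a1 a2 A1 B1 A2 B2) :
    Dec o a1 a2 A1 B1 B2 A2 :=
  ⟨d.hA1, d.hB1, d.hB2, d.hA2, d.h1, by rw [dotProduct_comm]; exact d.h2,
    d.e1, by rw [d.e2, add_comm], d.o2, d.o1, d.o4, d.o3⟩

theorem exists_dec (g : Gram o a1 a2 b1 b2) : ∃ A1 B1 A2 B2, Dec o a1 a2 A1 B1 A2 B2 := by
  have h1 : (a1 + o) ⬝ᵥ (a1 + o) = 2 := by
    rw [add_dotProduct, dotProduct_add, dotProduct_add, g.h11, g.ha1o,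
      dotProduct_comm o a1, g.ha1o, g.ho]; rfl
  have h2 : (a2 + o) ⬝ᵥ (a2 + o) = 2 := by
    rw [add_dotProduct, dotProduct_add, dotProduct_add, g.h22, g.ha2o,
      dotProduct_comm o a2, g.ha2o, g.ho]; rfl
  have h12 : (a1 + o) ⬝ᵥ (a2 + o) = 0 := by
    rw [add_dotProduct, dotProduct_add, dotProduct_add, g.h12, g.ha1o,
      dotProduct_comm o a2, g.ha2o, g.ho]; rfl
  obtain ⟨A1, B1, p1, p2, p3, p4⟩ := SC.split2 h1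
  obtain ⟨A2, B2, q1, q2, q3, q4⟩ := SC.split2 h2
  have hb1 : b1 ⬝ᵥ (A1 + B1) = 0 := by
    rw [← p4, dotProduct_add, g.k11, g.hb1o]; rfl
  have hb2 : b1 ⬝ᵥ (A2 + B2) = 1 := by
    rw [← q4, dotProduct_add, g.k12, g.hb1o]; rfl
  rw [p4, q4] at h12
  obtain ⟨r1, r2, r3, r4⟩ := SC.pair_orth p1 p2 q1 q2 p3 q3 h12 hb1 hb2
  exact ⟨A1, B1, A2, B2, p1, p2, q1, q2, p3, q3, p4, q4, r1, r2, r3, r4⟩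

theorem Dec.rem {A1 B1 A2 B2 : I → ℤ} (d : Dec o a1 a2 A1 B1 A2 B2) (v w : I → ℤ) :
    v ⬝ᵥ w = (v ⬝ᵥ A1) * (w ⬝ᵥ A1) + (v ⬝ᵥ B1) * (w ⬝ᵥ B1) + (v ⬝ᵥ A2) * (w ⬝ᵥ A2) +
      (v ⬝ᵥ B2) * (w ⬝ᵥ B2) +
      (v - ((v ⬝ᵥ A1) • A1 + (v ⬝ᵥ B1) • B1 + (v ⬝ᵥ A2) • A2 + (v ⬝ᵥ B2) • B2)) ⬝ᵥ
      (w - ((w ⬝ᵥ A1) • A1 + (w ⬝ᵥ B1) • B1 + (w ⬝ᵥ A2) • A2 + (w ⬝ᵥ B2) • B2)) := by
  have c1 : B1 ⬝ᵥ A1 = 0 := by rw [dotProduct_comm]; exact d.h1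
  have c2 : B2 ⬝ᵥ A2 = 0 := by rw [dotProduct_comm]; exact d.h2
  have c3 : A2 ⬝ᵥ A1 = 0 := by rw [dotProduct_comm]; exact d.o1
  have c4 : B2 ⬝ᵥ A1 = 0 := by rw [dotProduct_comm]; exact d.o2
  have c5 : A2 ⬝ᵥ B1 = 0 := by rw [dotProduct_comm]; exact d.o3
  have c6 : B2 ⬝ᵥ B1 = 0 := by rw [dotProduct_comm]; exact d.o4
  simp only [sub_dotProduct, dotProduct_sub, add_dotProduct, dotProduct_add, smul_dotProduct,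
    dotProduct_smul, smul_eq_mul, d.hA1, d.hB1, d.hA2, d.hB2, d.h1, d.h2, d.o1, d.o2, d.o3, d.o4,
    c1, c2, c3, c4, c5, c6, dotProduct_comm A1 w, dotProduct_comm B1 w, dotProduct_comm A2 w,
    dotProduct_comm B2 w]
  ring

theorem comb (g : Gram o a1 a2 b1 b2) : ∃ A1 B1 A2 B2, Dec o a1 a2 A1 B1 A2 B2 ∧
    b1 ⬝ᵥ A2 = 1 ∧ b2 ⬝ᵥ A1 = 1 ∧
    ((b1 ⬝ᵥ A1 = 0 ∧ b2 ⬝ᵥ A2 = 0) ∨ b1 = A1 - B1 + A2 ∨ b2 = A2 - B2 + A1) := by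
  obtain ⟨A1, B1, A2, B2, d⟩ := exists_dec g
  have s1 : ∀ {A1 B1 A2 B2 : I → ℤ}, Dec o a1 a2 A1 B1 A2 B2 →
      b1 ⬝ᵥ A1 + b1 ⬝ᵥ B1 = 0 ∧ b1 ⬝ᵥ A2 + b1 ⬝ᵥ B2 = 1 ∧ b2 ⬝ᵥ A1 + b2 ⬝ᵥ B1 = 1 ∧
      b2 ⬝ᵥ A2 + b2 ⬝ᵥ B2 = 0 := by
    intro A1 B1 A2 B2 d
    refine ⟨?_, ?_, ?_, ?_⟩
    · rw [← dotProduct_add, ← d.e1, dotProduct_add, g.k11, g.hb1o]; rfl
    · rw [← dotProduct_add, ← d.e2, dotProduct_add, g.k12, g.hb1o]; rfl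
    · rw [← dotProduct_add, ← d.e1, dotProduct_add, g.k21, g.hb2o]; rfl
    · rw [← dotProduct_add, ← d.e2, dotProduct_add, g.k22, g.hb2o]; rfl
  have key : ∀ {x x' y y' n : ℤ}, x + x' = 0 → y + y' = 1 →
      3 = x * x + x' * x' + y * y + y' * y' + n → 0 ≤ n →
      (y = 0 ∨ y = 1) ∧ (x = 0 ∨ ((x = 1 ∨ x = -1) ∧ n = 0)) := by
    intro x x' y y' n hx hy hn h0
    have hy1 := SC.sq01 hy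
    have hx1 : x' = - x := by omega
    subst hx1
    have hxx : 0 ≤ x * x := mul_self_nonneg x
    have hy3 : y' = 1 - y := by omega
    subst hy3
    have hx2 : x * x ≤ 1 := by nlinarith
    have hx3 : x ≤ 1 := by nlinarith
    have hx4 : -1 ≤ x := by nlinarith
    have hy4 : y ≤ 1 := by nlinarith
    have hy5 : 0 ≤ y := by nlinarith
    have hy6 : y = 0 ∨ y = 1 := by omega
    refine ⟨hy6, ?_⟩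
    by_cases h : x = 0
    · left; exact h
    · right
      have h5 : x = 1 ∨ x = -1 := by omega
      refine ⟨h5, ?_⟩
      rcases h5 with rfl | rfl <;> rcases hy6 with rfl | rfl <;> simp at hn <;> omega
  have key1 : ∀ {A1 B1 A2 B2 : I → ℤ}, Dec o a1 a2 A1 B1 A2 B2 →
      (b1 ⬝ᵥ A2 = 0 ∨ b1 ⬝ᵥ A2 = 1) ∧ (b1 ⬝ᵥ A1 = 0 ∨ ((b1 ⬝ᵥ A1 = 1 ∨ b1 ⬝ᵥ A1 = -1) ∧
        b1 = ((b1 ⬝ᵥ A1) • A1 + (b1 ⬝ᵥ B1) • B1 + (b1 ⬝ᵥ A2) • A2 + (b1 ⬝ᵥ B2) • B2))) := by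
    intro A1 B1 A2 B2 d
    obtain ⟨t1, t2, t3, t4⟩ := s1 d
    have h3 := d.rem b1 b1
    rw [g.hb11] at h3
    obtain ⟨u1, u2⟩ := key t1 t2 h3 (SC.self_nonneg _)
    refine ⟨u1, ?_⟩
    rcases u2 with u2 | ⟨u2, u3⟩
    · left; exact u2
    · right
      refine ⟨u2, ?_⟩
      exact sub_eq_zero.mp (dotProduct_self_eq_zero.mp u3)
  have key2 : ∀ {A1 B1 A2 B2 : I → ℤ}, Dec o a1 a2 A1 B1 A2 B2 →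
      (b2 ⬝ᵥ A1 = 0 ∨ b2 ⬝ᵥ A1 = 1) ∧ (b2 ⬝ᵥ A2 = 0 ∨ ((b2 ⬝ᵥ A2 = 1 ∨ b2 ⬝ᵥ A2 = -1) ∧
        b2 = ((b2 ⬝ᵥ A1) • A1 + (b2 ⬝ᵥ B1) • B1 + (b2 ⬝ᵥ A2) • A2 + (b2 ⬝ᵥ B2) • B2))) := by
    intro A1 B1 A2 B2 d
    obtain ⟨t1, t2, t3, t4⟩ := s1 d
    have h3 := d.rem b2 b2
    rw [g.hb22] at h3
    obtain ⟨u1, u2⟩ := key t4 t3 (h3.trans (by ring)) (SC.self_nonneg _)
    refine ⟨u1, ?_⟩
    rcases u2 with u2 | ⟨u2, u3⟩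
    · left; exact u2
    · right
      refine ⟨u2, ?_⟩
      exact sub_eq_zero.mp (dotProduct_self_eq_zero.mp u3)
  -- normalize the names
  obtain ⟨A1, B1, A2, B2, d, hA2, hA1⟩ : ∃ A1 B1 A2 B2, Dec o a1 a2 A1 B1 A2 B2 ∧
      b1 ⬝ᵥ A2 = 1 ∧ b2 ⬝ᵥ A1 = 1 := by
    obtain ⟨t1, t2, t3, t4⟩ := s1 d
    rcases (key1 d).1 with h | h <;> rcases (key2 d).1 with h' | h'
    · exact ⟨B1, A1, B2, A2, d.swap1.swap2, by omega, by omega⟩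
    · exact ⟨A1, B1, B2, A2, d.swap2, by omega, h'⟩
    · exact ⟨B1, A1, A2, B2, d.swap1, h, by omega⟩
    · exact ⟨A1, B1, A2, B2, d, h, h'⟩
  refine ⟨A1, B1, A2, B2, d, hA2, hA1, ?_⟩
  obtain ⟨t1, t2, t3, t4⟩ := s1 d
  have h12 := d.rem b1 b2
  rw [g.hb12, hA1, hA2] at h12
  have hB2 : b1 ⬝ᵥ B2 = 0 := by omega
  have hB1 : b2 ⬝ᵥ B1 = 0 := by omega
  rcases (key1 d).2 with h | ⟨h, h'⟩
  · rcases (key2 d).2 with k | ⟨k, k'⟩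
    · left; exact ⟨h, k⟩
    · right; right
      have hz : b2 - ((b2 ⬝ᵥ A1) • A1 + (b2 ⬝ᵥ B1) • B1 + (b2 ⬝ᵥ A2) • A2 + (b2 ⬝ᵥ B2) • B2)
          = 0 := by rw [← k', sub_self]
      rw [hA1] at hz
      rw [hz, dotProduct_zero, h, hB1, hB2] at h12
      have k1 : b2 ⬝ᵥ A2 = 1 := by linarith
      have k2 : b2 ⬝ᵥ B2 = -1 := by omega
      have k3 := k'
      rw [hA1, hB1, k1, k2] at k3
      rw [k3]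
      simp only [one_smul, zero_smul, neg_smul]
      abel
  · right; left
    have hz : b1 - ((b1 ⬝ᵥ A1) • A1 + (b1 ⬝ᵥ B1) • B1 + (b1 ⬝ᵥ A2) • A2 + (b1 ⬝ᵥ B2) • B2)
        = 0 := by rw [← h', sub_self]
    rw [hA2] at hz
    rw [hz, zero_dotProduct, hB1, hB2] at h12
    rcases (key2 d).2 with k | ⟨k, k'⟩
    · have k1 : b1 ⬝ᵥ A1 = 1 := by rw [k] at h12; linarith
      have k2 : b1 ⬝ᵥ B1 = -1 := by omega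
      have k3 := h'
      rw [hA2, hB2, k1, k2] at k3
      rw [k3]
      simp only [one_smul, zero_smul, neg_smul]
      abel
    · exfalso
      rcases h with h | h <;> rcases k with k | k <;> rw [h, k] at h12 <;> norm_num at h12

end Cfsg.Agent.H4.TC
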