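import Cfsg.Agent.H4.SE
import Cfsg.Agent.H4.TC

/-!
# Strongly embedded `S₃ × S₃`: signed irreducible characters (S3805)
-/

set_option autoImplicit false
set_option linter.unusedSectionVars false
set_option linter.style.haveILetI false

namespace Cfsg.Agent.H4.TB

open Cfsg Cfsg.Agent.H3 Cfsg.Agent.H27 Cfsg.Agent.H4.SA Matrix
open Cfsg.Agent.H4.SB (fn fn_gen inner_fn fn_add fn_neg exists_fn comm_even sign_pow27)
open Cfsg.Agent.H4.SD (Th Th_class conj_Th inner_Th_irr gen_one_ne inner_Th cc ta)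
open scoped ComplexConjugate

universe u

/-- `S₃²` -/
abbrev V2 := Fin 2 → S3

/-- the functions -/
def al2 : Fin 4 → V2 → ℤ
  | 0, w => gZ (w 0)
  | 1, w => gZ (w 1)
  | 2, w => gZ (w 0) * sZ (w 1)
  | 3, w => gZ (w 1) * sZ (w 0)

theorem al2_gen (i : Fin 4) : IsGeneralizedCharacter V2 (fun w => ((al2 i w : ℤ) : ℂ)) := by
  have hg : ∀ j : Fin 2, IsGeneralizedCharacter V2 (fun w : V2 => ((gZ (w j) : ℤ) : ℂ)) :=
    fun j => isGen_comp gZ_gen (Pi.evalMonoidHom (fun _ : Fin 2 => S3) j)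
  have hs : ∀ j : Fin 2, IsGeneralizedCharacter V2 (fun w : V2 => ((sZ (w j) : ℤ) : ℂ)) :=
    fun j => isGen_comp sZ_gen (Pi.evalMonoidHom (fun _ : Fin 2 => S3) j)
  have hb : ∀ i j : Fin 2, IsGeneralizedCharacter V2 (fun w : V2 =>
      ((gZ (w i) * sZ (w j) : ℤ) : ℂ)) := by
    intro i j
    have := isGen_mul (hg i) (hs j)
    convert this using 1
    ext w; simp
  fin_cases i
  · exact hg 0
  · exact hg 1
  · exact hb 0 1
  · exact hb 1 0

/-- Gram matrix -/
def gm2 : Fin 4 → Fin 4 → ℤ := ![![3, 1, 0, 1], ![1, 3, 1, 0], ![0, 1, 3, 1], ![1, 0, 1, 3]]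

theorem gram2_eq : ∀ i j : Fin 4, (∑ w : V2, al2 i w * al2 j w) = 36 * gm2 i j := by
  decide +kernel

theorem one2_eq : ∀ i : Fin 4, (∑ w : V2, al2 i w) = 36 * (![-1, -1, 0, 0] : Fin 4 → ℤ) i := by
  decide +kernel

theorem supp2 : ∀ w : V2, w ^ 4 = 1 → ∀ i : Fin 4, al2 i w = 0 := by
  decide +kernel

theorem card_V2 : Fintype.card V2 = 36 := by decide +kernel

theorem card_even2 : Fintype.card {w : V2 // ∀ i, Equiv.Perm.sign (w i) = 1} = 9 := by
  decide +kernel

variable {G : Type u} [Group G] [Fintype G]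

/-- the setting -/
structure Setting (H T : Subgroup G) (φ : H ≃* V2) : Prop where
  hTH : T ≤ H
  hT : Nat.card T = 9
  hN : Subgroup.normalizer (T : Set G) = H
  hC : ∀ t ∈ T, t ≠ 1 → Subgroup.centralizer ({t} : Set G) ≤ H

variable {H T : Subgroup G} {φ : H ≃* V2}

theorem sign_pow9 {x : ℤˣ} (h : x ^ 9 = 1) : x = 1 := by
  rcases Int.units_eq_one_or x with h1 | h1
  · exact h1
  · subst h1; exact absurd h (by decide)

theorem sign_of_pow (h : H) (hh : h ^ 9 = 1) (i : Fin 2) :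
    Equiv.Perm.sign ((φ h) i) = 1 := by
  apply sign_pow9
  rw [← map_pow]
  have h1 : ((φ h) i) ^ 9 = 1 := by
    have h2 : (φ h) ^ 9 = 1 := by rw [← map_pow, hh]; simp
    have := congrFun h2 i
    simpa using this
  rw [h1]; simp

theorem Setting.mem_iff (S : Setting H T φ) (h : H) :
    (h : G) ∈ T ↔ ∀ i, Equiv.Perm.sign ((φ h) i) = 1 := by
  have h9 : ∀ x : T, ∀ i, Equiv.Perm.sign ((φ ⟨x.1, S.hTH x.2⟩) i) = 1 := by
    intro x
    apply sign_of_pow
    have h1 : x ^ 9 = 1 := by rw [← S.hT]; exact pow_card_eq_one'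
    apply Subtype.ext
    have := congrArg Subtype.val h1
    simpa using this
  constructor
  · intro hh i
    exact h9 ⟨h.1, hh⟩ i
  · intro hh
    let f : T → {w : V2 // ∀ i, Equiv.Perm.sign (w i) = 1} :=
      fun x => ⟨(φ ⟨x.1, S.hTH x.2⟩), h9 x⟩
    have hf : Function.Injective f := by
      intro x y hxy
      have h1 := congrArg Subtype.val hxy
      have h2 := φ.injective h1
      have h3 := congrArg Subtype.val h2
      exact Subtype.ext h3
    haveI : Finite T := inferInstance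
    haveI := Fintype.ofFinite T
    have hb : Function.Bijective f := by
      rw [Fintype.bijective_iff_injective_and_card]
      refine ⟨hf, ?_⟩
      rw [card_even2, ← S.hT, Nat.card_eq_fintype_card]
    obtain ⟨x, hx⟩ := hb.2 ⟨(φ h), hh⟩
    have h1 := congrArg Subtype.val hx
    have h2 := φ.injective h1
    have h3 := congrArg Subtype.val h2
    rw [← h3]; exact x.2

theorem Setting.mem_of_pow (S : Setting H T φ) {h : G} (hH : h ∈ H) (hh : h ^ 9 = 1) : h ∈ T := by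
  have := (S.mem_iff ⟨h, hH⟩).2 (sign_of_pow _ (Subtype.ext (by simpa using hh)))
  exact this

theorem Setting.comm (S : Setting H T φ) {x y : G} (hx : x ∈ T) (hy : y ∈ T) : x * y = y * x := by
  have h1 := (S.mem_iff ⟨x, S.hTH hx⟩).1 hx
  have h2 := (S.mem_iff ⟨y, S.hTH hy⟩).1 hy
  have h3 : (⟨x, S.hTH hx⟩ * ⟨y, S.hTH hy⟩ : H) = ⟨y, S.hTH hy⟩ * ⟨x, S.hTH hx⟩ := by
    apply φ.injective
    rw [map_mul, map_mul]
    ext1 i
    simp only [Pi.mul_apply]
    exact comm_even _ _ (h1 i) (h2 i)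
  exact congrArg Subtype.val h3

theorem Setting.pow4 (S : Setting H T φ) {x : G} (hx : x ∈ H) : x ^ 4 ∈ T := by
  have := (S.mem_iff ⟨x ^ 4, H.pow_mem hx 4⟩).2 (by
    intro i
    have h1 : (⟨x ^ 4, H.pow_mem hx 4⟩ : H) = ⟨x, hx⟩ ^ 4 := rfl
    rw [h1, map_pow, Pi.pow_apply, map_pow]
    rcases Int.units_eq_one_or (Equiv.Perm.sign ((φ ⟨x, hx⟩) i)) with h | h <;> rw [h] <;>
      decide)
  exact this

theorem Setting.mem_of_conj (S : Setting H T φ) {g s : G} (hs : s ∈ T) (hs1 : s ≠ 1)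
    (h : g * s * g⁻¹ ∈ T) : g ∈ H := by
  have h1 : g * s * g⁻¹ ≠ 1 := by
    intro h2; apply hs1
    have : s = g⁻¹ * (g * s * g⁻¹) * g := by group
    rw [this, h2]; group
  have h2 : ∀ x ∈ T, g * x * g⁻¹ ∈ T := by
    intro x hx
    apply S.mem_of_pow
    · apply S.hC _ h h1
      rw [Subgroup.mem_centralizer_singleton_iff]
      have := S.comm hs hx
      calc (g * x * g⁻¹) * (g * s * g⁻¹) = g * (x * s) * g⁻¹ := by group
        _ = g * (s * x) * g⁻¹ := by rw [this]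
        _ = (g * s * g⁻¹) * (g * x * g⁻¹) := by group
    · have h3 : x ^ 9 = 1 := by
        have := pow_card_eq_one' (x := (⟨x, hx⟩ : T))
        rw [S.hT] at this
        simpa using congrArg Subtype.val this
      have : (g * x * g⁻¹) ^ 9 = g * x ^ 9 * g⁻¹ := by
        rw [← MulAut.conj_apply, ← map_pow, MulAut.conj_apply]
      rw [this, h3]; group
  rw [← S.hN]
  exact Subgroup.mem_normalizer_fintype h2

/-- the 3-singular elements -/
def Aset (H : Subgroup G) : Set G := {g | g ∈ H ∧ g ^ 4 ≠ 1}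

theorem Setting.TI (S : Setting H T φ) : ∀ g : G, g ∉ H → ∀ t ∈ Aset H, g * t * g⁻¹ ∈ Aset H →
    t = 1 := by
  intro g hg t ht ht'
  exfalso
  apply hg
  refine S.mem_of_conj (S.pow4 ht.1) ht.2 ?_
  have h1 : g * t ^ 4 * g⁻¹ = (g * t * g⁻¹) ^ 4 := by
    rw [← MulAut.conj_apply, ← MulAut.conj_apply, map_pow]
  rw [h1]
  exact S.pow4 ht'.1

/-- the generalized characters of `H` -/
noncomputable def be (φ : H ≃* V2) (i : Fin 4) : H → ℂ := fun h => ((al2 i (φ h) : ℤ) : ℂ)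

theorem be_gen (i : Fin 4) : IsGeneralizedCharacter H (be φ i) :=
  isGen_comp (al2_gen i) φ.toMonoidHom

theorem be_supp (i : Fin 4) (x : H) (hx : (x : G) ∉ Aset H) : be φ i x = 0 := by
  have h1 : (x : G) ^ 4 = 1 := by
    by_contra h; exact hx ⟨x.2, h⟩
  have h2 : (φ x) ^ 4 = 1 := by
    rw [← map_pow]
    have : x ^ 4 = 1 := Subtype.ext (by simpa using h1)
    rw [this]; simp
  unfold be
  rw [supp2 _ h2 i]; simp

theorem sumH [Fintype H] {M : Type*} [AddCommMonoid M] (φ : H ≃* V2) (F : V2 → M) :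
    ∑ h : H, F (φ h) = ∑ w : V2, F w :=
  Equiv.sum_comp φ.toEquiv F

theorem card_H (φ : H ≃* V2) : Nat.card H = 36 := by
  rw [Nat.card_congr φ.toEquiv, ← card_V2, ← Nat.card_eq_fintype_card]

theorem inner_be [Fintype H] (i j : Fin 4) : classInner (be φ i) (be φ j) = gm2 i j := by
  unfold classInner be
  rw [card_H φ]
  have h1 : ∀ h : H, (((al2 i (φ h) : ℤ) : ℂ)) * conj ((al2 j (φ h) : ℤ) : ℂ) =
      (((al2 i (φ h) * al2 j (φ h) : ℤ)) : ℂ) := by
    intro h; rw [map_intCast]; push_cast; rfl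
  rw [Finset.sum_congr rfl fun h _ => h1 h, ← Int.cast_sum,
    sumH φ (fun w => al2 i w * al2 j w), gram2_eq]
  push_cast; ring

theorem inner_be_one [Fintype H] (i : Fin 4) : classInner (be φ i) (fun _ => 1) =
    (((![-1, -1, 0, 0] : Fin 4 → ℤ) i : ℤ) : ℂ) := by
  unfold classInner be
  rw [card_H φ]
  simp only [map_one, mul_one]
  rw [← Int.cast_sum, sumH φ (fun w => al2 i w), one2_eq]
  push_cast; ring

theorem Setting.inner_ind [Fintype H] (S : Setting H T φ) (i j : Fin 4) :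
    classInner (indFun H (be φ i)) (indFun H (be φ j)) = gm2 i j := by
  rw [classInner_indFun_of_TI H (Aset H) S.TI _ _ (isGen_classFun (be_gen j))
    (be_supp i) (be_supp j) (be_supp i 1 (by simp [Aset])), inner_be]

theorem inner_ind_one [Fintype H] (i : Fin 4) :
    classInner (indFun H (be φ i)) (fun _ => 1) =
      (((![-1, -1, 0, 0] : Fin 4 → ℤ) i : ℤ) : ℂ) := by
  rw [frobenius_reciprocity H _ (classFun_const 1), inner_be_one]

/-- signed irreducible -/
structure SIrr (E : G → ℂ) : Prop where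
  gen : IsGeneralizedCharacter G E
  norm : classInner E E = 1

/-- The signed irreducible characters. -/
theorem Setting.main1 (S : Setting H T φ) : ∃ A1 B1 A2 B2 : G → ℂ,
    SIrr A1 ∧ SIrr B1 ∧ SIrr A2 ∧ SIrr B2 ∧
    (∀ g, indFun H (be φ 0) g = - 1 + A1 g + B1 g) ∧
    (∀ g, indFun H (be φ 1) g = - 1 + A2 g + B2 g) ∧
    classInner (indFun H (be φ 0)) A1 = 1 ∧ classInner (indFun H (be φ 0)) A2 = 0 ∧
    classInner (indFun H (be φ 1)) A1 = 0 ∧ classInner (indFun H (be φ 1)) A2 = 1 ∧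
    classInner (indFun H (be φ 2)) A2 = 1 ∧ classInner (indFun H (be φ 3)) A1 = 1 ∧
    ((classInner (indFun H (be φ 2)) A1 = 0 ∧ classInner (indFun H (be φ 3)) A2 = 0) ∨
      (∀ g, indFun H (be φ 2) g = A1 g - B1 g + A2 g) ∨
      (∀ g, indFun H (be φ 3) g = A2 g - B2 g + A1 g)) := by
  classical
  haveI := Fintype.ofFinite (IrrCharacter G)
  haveI := Fintype.ofFinite H
  choose m hm using fun i : Fin 4 => exists_fn (isGen_ind H (be_gen (φ := φ) i))
  obtain ⟨o, ho⟩ := exists_fn (isGen_one (G := G))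
  have hmm : ∀ i j, m i ⬝ᵥ m j = gm2 i j := by
    intro i j
    have h1 := S.inner_ind i j
    rw [hm i, hm j, inner_fn] at h1
    exact_mod_cast h1
  have hmo : ∀ i, m i ⬝ᵥ o = (![-1, -1, 0, 0] : Fin 4 → ℤ) i := by
    intro i
    have h1 := inner_ind_one (φ := φ) i
    rw [hm i, ho, inner_fn] at h1
    exact_mod_cast h1
  have hoo : o ⬝ᵥ o = 1 := by
    have h1 : classInner (fun _ : G => (1 : ℂ)) (fun _ => 1) = 1 := classInner_self_of_irr isIrr_one
    rw [ho, inner_fn] at h1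
    exact_mod_cast h1
  have g : TC.Gram o (m 0) (m 1) (m 2) (m 3) :=
    ⟨hoo, hmo 0, hmo 1, hmo 2, hmo 3, hmm 0 0, hmm 1 1, hmm 0 1, hmm 2 2, hmm 3 3, hmm 2 3,
      hmm 2 0, hmm 2 1, hmm 3 0, hmm 3 1⟩
  obtain ⟨A1, B1, A2, B2, d, h1, h2, h3⟩ := TC.comb g
  have e1 : m 0 = A1 + B1 + (-o) := by rw [← d.e1]; abel
  have e2 : m 1 = A2 + B2 + (-o) := by rw [← d.e2]; abel
  have s : ∀ {A : IrrCharacter G → ℤ}, A ⬝ᵥ A = 1 → SIrr (fn A) := by
    intro A hA
    refine ⟨fn_gen _, ?_⟩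
    rw [inner_fn, hA]; simp
  -- orthogonality to the trivial character
  have hoA : ∀ {A B : IrrCharacter G → ℤ}, A ⬝ᵥ A = 1 → B ⬝ᵥ B = 1 → A ⬝ᵥ B = 0 →
      (A + B) ⬝ᵥ o = 0 → A ⬝ᵥ o = 0 := by
    intro A B hA hB hAB h
    rw [add_dotProduct] at h
    rcases SC.unit_bd hA hoo with h2 | h2 | h2
    · exfalso
      have h4 := SC.unit_neg hA hoo h2
      have h5 : B ⬝ᵥ o = 1 := by omega
      rw [h4, dotProduct_neg, dotProduct_comm, hAB] at h5
      omega
    · exact h2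
    · exfalso
      have h4 := SC.unit_eq hA hoo h2
      have h5 : B ⬝ᵥ o = -1 := by omega
      rw [h4, dotProduct_comm, hAB] at h5
      omega
  have oA1 : A1 ⬝ᵥ o = 0 := hoA d.hA1 d.hB1 d.h1 (by
    rw [← d.e1, add_dotProduct, hoo, hmo 0]; rfl)
  have oA2 : A2 ⬝ᵥ o = 0 := hoA d.hA2 d.hB2 d.h2 (by
    rw [← d.e2, add_dotProduct, hoo, hmo 1]; rfl)
  refine ⟨fn A1, fn B1, fn A2, fn B2, s d.hA1, s d.hB1, s d.hA2, s d.hB2, ?_, ?_, ?_, ?_, ?_, ?_,
    ?_, ?_, ?_⟩
  · intro x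
    rw [hm, e1, fn_add, fn_add, fn_neg, ← ho]
    simp only [Pi.add_apply, Pi.neg_apply]
    ring
  · intro x
    rw [hm, e2, fn_add, fn_add, fn_neg, ← ho]
    simp only [Pi.add_apply, Pi.neg_apply]
    ring
  · rw [hm, inner_fn, e1, add_dotProduct, add_dotProduct, neg_dotProduct, dotProduct_comm o, oA1,
      d.hA1, dotProduct_comm, d.h1]; simp
  · rw [hm, inner_fn, e1, add_dotProduct, add_dotProduct, neg_dotProduct, dotProduct_comm o, oA2,
      d.o1, d.o3]; simp
  · rw [hm, inner_fn, e2, add_dotProduct, add_dotProduct, neg_dotProduct, dotProduct_comm o, oA1,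
      dotProduct_comm A2, d.o1, dotProduct_comm B2, d.o2]; simp
  · rw [hm, inner_fn, e2, add_dotProduct, add_dotProduct, neg_dotProduct, dotProduct_comm o, oA2,
      d.hA2, dotProduct_comm, d.h2]; simp
  · rw [hm, inner_fn, h1]; simp
  · rw [hm, inner_fn, h2]; simp
  · rcases h3 with ⟨h3, h4⟩ | h3 | h3
    · left
      rw [hm, hm, inner_fn, inner_fn, h3, h4]; simp
    · right; left
      intro x
      have : m 2 = A1 + (-B1) + A2 := by rw [h3]; abel
      rw [hm, this, fn_add, fn_add, fn_neg]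
      simp only [Pi.add_apply, Pi.neg_apply]
      ring
    · right; right
      intro x
      have : m 3 = A2 + (-B2) + A1 := by rw [h3]; abel
      rw [hm, this, fn_add, fn_add, fn_neg]
      simp only [Pi.add_apply, Pi.neg_apply]
      ring

end Cfsg.Agent.H4.TB
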