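import Cfsg.Agent.H4.TB

/-!
# Strongly embedded `S₃ × S₃`: class algebra (S3805)
-/

set_option autoImplicit false
set_option linter.unusedSectionVars false
set_option linter.style.haveILetI false

namespace Cfsg.Agent.H4.TD

open Cfsg Cfsg.Agent.H3 Cfsg.Agent.H27 Cfsg.Agent.H4.SA Cfsg.Agent.H4.TB
open Cfsg.Agent.H4.SD (Th Th_class conj_Th inner_Th_irr gen_one_ne inner_Th cc ta alg)
open Cfsg.Agent.H4.SE (inv_of_conj)
open scoped ComplexConjugate

universe u

variable {G : Type u} [Group G] [Fintype G] {H T : Subgroup G} {φ : H ≃* V2}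

/-- types of involutions -/
def D : Fin 3 → V2 → Prop
  | 0, w => w 0 = 1 ∧ Equiv.Perm.sign (w 1) = -1
  | 1, w => w 1 = 1 ∧ Equiv.Perm.sign (w 0) = -1
  | 2, w => Equiv.Perm.sign (w 0) = -1 ∧ Equiv.Perm.sign (w 1) = -1

instance instDecD : (k : Fin 3) → (w : V2) → Decidable (D k w)
  | 0, w => inferInstanceAs (Decidable (w 0 = 1 ∧ Equiv.Perm.sign (w 1) = -1))
  | 1, w => inferInstanceAs (Decidable (w 1 = 1 ∧ Equiv.Perm.sign (w 0) = -1))
  | 2, w => inferInstanceAs (Decidable (Equiv.Perm.sign (w 0) = -1 ∧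
      Equiv.Perm.sign (w 1) = -1))

/-- representatives -/
def re2 : Fin 3 → V2 := ![![1, ta], ![ta, 1], ![ta, ta]]

theorem g3 : ∀ k w, D k w → ∃ v : V2, v * w * v⁻¹ = re2 k := by decide +kernel
theorem g4 : ∀ w : V2, w ^ 2 = 1 → w ≠ 1 → ∃ k, D k w := by decide +kernel
theorem g13 : ∀ k, re2 k ^ 2 = 1 ∧ re2 k ≠ 1 := by decide +kernel

/-- involutions of types in `δ` -/
def JJ (δ : Fin 3 → Bool) (w : V2) : Prop := ∃ k, δ k = true ∧ D k w

instance (δ : Fin 3 → Bool) (w : V2) : Decidable (JJ δ w) := by unfold JJ; infer_instance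

/-- class algebra sums -/
def RR (i : Fin 4) (δ : Fin 3 → Bool) : ℤ :=
  ∑ v : V2, ∑ w : V2, if JJ δ v ∧ JJ δ w then al2 i (v * w) else 0

/-- Boolean to integer -/
def bi (b : Bool) : ℤ := if b then 1 else 0

theorem RR_eq : ∀ δ : Fin 3 → Bool, RR 0 δ = -18 * (bi (δ 1) + 3 * bi (δ 2)) ^ 2 ∧
    RR 1 δ = -18 * (bi (δ 0) + 3 * bi (δ 2)) ^ 2 ∧
    RR 2 δ = -18 * (bi (δ 1) - 3 * bi (δ 2)) ^ 2 ∧
    RR 3 δ = -18 * (bi (δ 0) - 3 * bi (δ 2)) ^ 2 := by
  decide +kernel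

/-- involutions -/
noncomputable def es (φ : H ≃* V2) (k : Fin 3) : H := φ.symm (re2 k)

theorem es_sq (φ : H ≃* V2) (k : Fin 3) : ((es φ k : H) : G) ^ 2 = 1 ∧ ((es φ k : H) : G) ≠ 1 := by
  have h1 : (es φ k) ^ 2 = 1 := by
    apply φ.injective
    rw [map_pow, es, φ.apply_symm_apply, (g13 k).1, map_one]
  have h2 : es φ k ≠ 1 := by
    intro h
    apply (g13 k).2
    have h1 : φ (es φ k) = 1 := by rw [h]; simp
    rw [← h1, es, φ.apply_symm_apply]
  constructor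
  · have := congrArg Subtype.val h1; simpa using this
  · intro h; exact h2 (Subtype.ext h)

theorem conj_symm (φ : H ≃* V2) {w w' : V2} (h : ∃ v : V2, v * w * v⁻¹ = w') :
    IsConj ((φ.symm w : H) : G) ((φ.symm w' : H) : G) := by
  obtain ⟨v, rfl⟩ := h
  refine MonoidHom.map_isConj H.subtype (isConj_iff.mpr ⟨φ.symm v, ?_⟩)
  simp

/-- fusion pattern of `u` -/
structure Pat (φ : H ≃* V2) (u : G) (δ : Fin 3 → Bool) : Prop where
  hu : u ^ 2 = 1
  hu1 : u ≠ 1
  h : ∀ k, δ k = true ↔ IsConj u (es φ k : G)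

theorem Pat.JJ_iff {u : G} {δ : Fin 3 → Bool} (p : Pat φ u δ) (w : V2) :
    JJ δ w ↔ IsConj u ((φ.symm w : H) : G) := by
  constructor
  · rintro ⟨k, hk, hD⟩
    exact ((p.h k).1 hk).trans (conj_symm φ (g3 k w hD)).symm
  · intro h
    obtain ⟨h1, h2⟩ := inv_of_conj p.hu p.hu1 h
    have h3 : w ^ 2 = 1 := by
      apply φ.symm.injective
      apply Subtype.ext
      rw [map_pow, Subgroup.coe_pow, h1]; simp
    have h4 : w ≠ 1 := by
      rintro rfl; apply h2; simp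
    obtain ⟨k, hk⟩ := g4 w h3 h4
    exact ⟨k, (p.h k).2 (h.trans (conj_symm φ (g3 k w hk))), hk⟩

theorem Setting.inv_mem (S : Setting H T φ) {u x y : G} (hu : u ^ 2 = 1) (hu1 : u ≠ 1)
    (hx : IsConj u x) (hy : IsConj u y) {h : G} (hA : h ∈ Aset H) (hxy : x * y = h) :
    x ∈ H ∧ y ∈ H := by
  obtain ⟨hx1, hx2⟩ := inv_of_conj hu hu1 hx
  obtain ⟨hy1, hy2⟩ := inv_of_conj hu hu1 hy
  have hxi : x⁻¹ = x := by
    rw [inv_eq_iff_mul_eq_one, ← sq]; exact hx1
  have hyi : y⁻¹ = y := by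
    rw [inv_eq_iff_mul_eq_one, ← sq]; exact hy1
  have h1 : x * h * x⁻¹ = h⁻¹ := by
    rw [← hxy, mul_inv_rev, hxi, hyi]
    have : x * (x * y) * x = x ^ 2 * (y * x) := by rw [sq]; group
    rw [this, hx1, one_mul]
  have h2 : x * h ^ 4 * x⁻¹ = (h ^ 4)⁻¹ := by
    have h5 := map_pow (MulAut.conj x) h 4
    simp only [MulAut.conj_apply] at h5
    rw [h5, h1, inv_pow]
  have hxH : x ∈ H := by
    apply S.mem_of_conj (S.pow4 hA.1) hA.2
    rw [h2]; exact T.inv_mem (S.pow4 hA.1)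
  refine ⟨hxH, ?_⟩
  have : y = x⁻¹ * h := by rw [← hxy]; group
  rw [this]; exact H.mul_mem (H.inv_mem hxH) hA.1

theorem Setting.Th_eq (S : Setting H T φ) {u : G} {δ : Fin 3 → Bool} (p : Pat φ u δ) (h : H)
    (hA : (h : G) ∈ Aset H) :
    Th u h = ((∑ v : V2, ∑ w : V2, if JJ δ v ∧ JJ δ w ∧ v * w = φ h then (1 : ℕ) else 0 : ℕ) : ℂ) := by
  classical
  unfold Th
  rw [conv_ind]
  refine congrArg (Nat.cast : ℕ → ℂ) ?_
  have e1 : Nat.card {p : G × G // p.1 ∈ {x | IsConj u x} ∧ p.2 ∈ {x | IsConj u x} ∧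
      p.1 * p.2 = (h : G)} = Nat.card {q : V2 × V2 // JJ δ q.1 ∧ JJ δ q.2 ∧ q.1 * q.2 = φ h} := by
    symm
    apply Nat.card_congr
    refine Equiv.ofBijective (fun q => ⟨((φ.symm q.1.1 : H), (φ.symm q.1.2 : H)), ?_, ?_, ?_⟩)
      ⟨?_, ?_⟩
    · exact (p.JJ_iff _).1 q.2.1
    · exact (p.JJ_iff _).1 q.2.2.1
    · have h1 := q.2.2.2
      have h2 : φ.symm q.1.1 * φ.symm q.1.2 = h := by
        rw [← map_mul, h1, φ.symm_apply_apply]
      have := congrArg Subtype.val h2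
      simpa using this
    · intro q q' hq
      have h1 := congrArg Subtype.val hq
      rw [Prod.ext_iff] at h1
      obtain ⟨h2, h3⟩ := h1
      have h4 := φ.symm.injective (Subtype.ext h2)
      have h5 := φ.symm.injective (Subtype.ext h3)
      exact Subtype.ext (Prod.ext h4 h5)
    · rintro ⟨⟨x, y⟩, hx, hy, hxy⟩
      obtain ⟨hxH, hyH⟩ := Setting.inv_mem S p.hu p.hu1 hx hy hA hxy
      refine ⟨⟨(φ ⟨x, hxH⟩, φ ⟨y, hyH⟩), ?_, ?_, ?_⟩, ?_⟩
      · rw [p.JJ_iff, φ.symm_apply_apply]; exact hx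
      · rw [p.JJ_iff, φ.symm_apply_apply]; exact hy
      · simp only
        rw [← map_mul]
        congr 1
        exact Subtype.ext hxy
      · apply Subtype.ext
        simp
  rw [e1, Nat.card_eq_fintype_card, Fintype.card_subtype, Finset.card_filter,
    ← Finset.univ_product_univ, Finset.sum_product]

theorem Setting.rhs [Fintype H] (S : Setting H T φ) {u : G} {δ : Fin 3 → Bool} (p : Pat φ u δ)
    (i : Fin 4) : classInner (indFun H (be φ i)) (Th u) = (36 : ℂ)⁻¹ * (RR i δ : ℤ) := by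
  classical
  rw [frobenius_reciprocity H _ (Th_class u)]
  unfold classInner
  rw [card_H φ]
  have h1 : ∀ h : H, be φ i h * conj (Th u (h : G)) =
      (((∑ v : V2, ∑ w : V2, if JJ δ v ∧ JJ δ w ∧ v * w = φ h then al2 i (φ h) else 0 : ℤ)) : ℂ) := by
    intro h
    by_cases hb : be φ i h = 0
    · have hb' : al2 i (φ h) = 0 := by unfold be at hb; exact_mod_cast hb
      rw [hb, zero_mul, hb']
      simp
    · have hA : (h : G) ∈ Aset H := by
        by_contra hh; exact hb (be_supp _ _ hh)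
      rw [conj_Th, Setting.Th_eq S p h hA]
      unfold be
      have h2 : (∑ v : V2, ∑ w : V2, if JJ δ v ∧ JJ δ w ∧ v * w = φ h then al2 i (φ h) else 0 : ℤ)
          = al2 i (φ h) *
          ((∑ v : V2, ∑ w : V2, if JJ δ v ∧ JJ δ w ∧ v * w = φ h then (1 : ℕ) else 0 : ℕ) : ℤ) := by
        push_cast
        rw [Finset.mul_sum]
        refine Finset.sum_congr rfl fun v _ => ?_
        rw [Finset.mul_sum]
        refine Finset.sum_congr rfl fun w _ => ?_
        split_ifs <;> simp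
      rw [h2]
      push_cast
      rfl
  rw [Finset.sum_congr rfl fun h _ => h1 h, ← Int.cast_sum,
    sumH φ (fun z => ∑ v : V2, ∑ w : V2, if JJ δ v ∧ JJ δ w ∧ v * w = z then al2 i z else 0)]
  have h3 : (∑ z : V2, ∑ v : V2, ∑ w : V2, if JJ δ v ∧ JJ δ w ∧ v * w = z then al2 i z else 0) =
      RR i δ := by
    rw [Finset.sum_comm]
    unfold RR
    refine Finset.sum_congr rfl fun v _ => ?_
    rw [Finset.sum_comm]
    refine Finset.sum_congr rfl fun w _ => ?_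
    by_cases hvw : JJ δ v ∧ JJ δ w
    · rw [if_pos hvw]
      rw [Finset.sum_eq_single (v * w)]
      · rw [if_pos ⟨hvw.1, hvw.2, rfl⟩]
      · intro z _ hz
        rw [if_neg]
        rintro ⟨_, _, h⟩
        exact hz h.symm
      · intro h; exact absurd (Finset.mem_univ _) h
    · rw [if_neg hvw]
      refine Finset.sum_eq_zero fun z _ => ?_
      rw [if_neg]
      rintro ⟨h1, h2, _⟩
      exact hvw ⟨h1, h2⟩
  rw [h3]
  push_cast; rfl

/-- the constant -/
noncomputable def qq (u : G) : ℂ := (Nat.card G : ℂ)⁻¹ * ((cl u).card : ℂ) ^ 2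

theorem qq_ne (u : G) : qq u ≠ 0 := by
  have hG : (Nat.card G : ℂ) ≠ 0 := card_ne_zeroC
  have hc : ((cl u).card : ℂ) ≠ 0 := by
    have : (cl u).card ≠ 0 := Finset.card_ne_zero.mpr ⟨u, self_mem_cl u⟩
    exact_mod_cast this
  exact mul_ne_zero (inv_ne_zero hG) (pow_ne_zero _ hc)

theorem SIrr.th {A : G → ℂ} (hA : SIrr A) (u : G) : classInner A (Th u) =
    qq u * (A u ^ 2 / A 1) := inner_Th hA.gen hA.norm u

theorem SIrr.ne {A : G → ℂ} (hA : SIrr A) : A 1 ≠ 0 := gen_one_ne hA.gen hA.norm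

theorem SIrr.int {A : G → ℂ} (hA : SIrr A) : ∃ n : ℤ, A 1 = n := by
  rcases gen_norm_one hA.gen hA.norm with h | h
  · obtain ⟨n, _, hn⟩ := irr_one_eq_nat h
    exact ⟨n, by rw [hn]; simp⟩
  · obtain ⟨n, _, hn⟩ := irr_one_eq_nat h
    refine ⟨-n, ?_⟩
    rw [Pi.neg_apply] at hn
    push_cast
    linear_combination -hn

theorem one_th (u : G) : classInner (fun _ : G => (1 : ℂ)) (Th u) = qq u * 1 := by
  rw [inner_Th_irr isIrr_one]; unfold qq; ring

theorem ind_zero (i : Fin 4) {g : G} (hg : g ^ 4 = 1) : indFun H (be φ i) g = 0 := by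
  unfold indFun
  rw [Finset.sum_eq_zero, mul_zero]
  intro x _
  by_cases hx : x⁻¹ * g * x ∈ H
  · rw [extendByZero_mem H _ hx]
    apply be_supp
    intro h
    apply h.2
    have : (x⁻¹ * g * x) ^ 4 = x⁻¹ * g ^ 4 * x := by
      have h5 := map_pow (MulAut.conj x⁻¹) g 4
      simp only [MulAut.conj_apply, inv_inv] at h5
      exact h5.symm
    rw [this, hg]; group
  · exact extendByZero_not_mem H _ hx

theorem pow4_of_sq {u : G} (hu : u ^ 2 = 1) : u ^ 4 = 1 := by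
  have : u ^ 4 = (u ^ 2) ^ 2 := by rw [← pow_mul]
  rw [this, hu, one_pow]

/-- the exceptional configuration is impossible: algebra -/
theorem exc_alg {a b c α β γ q : ℂ} {x : ℤ} (n : ℤ) (hbn : b = n) (hq : q ≠ 0)
    (ha : a ≠ 0) (hb : b ≠ 0) (hc : c ≠ 0)
    (h1 : -1 + a + b = 0) (h2 : a - b + c = 0) (h3 : -1 + α + β = 0) (h4 : α - β + γ = 0)
    (hx : x = 0 ∨ x = 1)
    (e1 : q * (-1 + α ^ 2 / a + β ^ 2 / b) = (36 : ℂ)⁻¹ * ((-18 * (x + 3 * 1) ^ 2 : ℤ) : ℂ))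
    (e2 : q * (α ^ 2 / a - β ^ 2 / b + γ ^ 2 / c) =
      (36 : ℂ)⁻¹ * ((-18 * (x - 3 * 1) ^ 2 : ℤ) : ℂ)) : False := by
  have ha' : a = 1 - b := by linear_combination h1
  have hc' : c = 2 * b - 1 := by linear_combination h2 - h1
  have hα : α = 1 - β := by linear_combination h3
  have hγ : γ = 2 * β - 1 := by linear_combination h4 - h3
  have k1 : q * (β - b) ^ 2 = -((x : ℂ) + 3) ^ 2 / 2 * (a * b) := by
    have : q * (β - b) ^ 2 = (q * (-1 + α ^ 2 / a + β ^ 2 / b)) * (a * b) := by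
      field_simp
      rw [ha', hα]; ring
    rw [this, e1]; push_cast; ring
  have k2 : q * (β - b) ^ 2 = -((x : ℂ) - 3) ^ 2 / 2 * (a * b * c) := by
    have : q * (β - b) ^ 2 = (q * (α ^ 2 / a - β ^ 2 / b + γ ^ 2 / c)) * (a * b * c) := by
      field_simp
      rw [ha', hα, hc', hγ]; ring
    rw [this, e2]; push_cast; ring
  have k3 : (a * b) * (((x : ℂ) + 3) ^ 2 - ((x : ℂ) - 3) ^ 2 * c) = 0 := by
    linear_combination 2 * k1 - 2 * k2
  rcases mul_eq_zero.mp k3 with h | h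
  · exact (mul_ne_zero ha hb) h
  · rw [hc', hbn] at h
    have h5 : ((x + 3) ^ 2 - (x - 3) ^ 2 * (2 * n - 1) : ℤ) = 0 := by exact_mod_cast h
    rcases hx with rfl | rfl
    · have hn : n = 1 := by omega
      rw [hn] at hbn
      apply ha
      rw [ha', hbn]; simp
    · omega

end Cfsg.Agent.H4.TD
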