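import Cfsg.Agent.H4.TD
import Cfsg.Agent.H4.SF

/-!
# Strongly embedded `S₃ × S₃`: conclusion (S3805)
-/

set_option autoImplicit false
set_option linter.unusedSectionVars false
set_option linter.style.haveILetI false

namespace Cfsg.Agent.H4.TE

open Cfsg Cfsg.Agent.H3 Cfsg.Agent.H27 Cfsg.Agent.H4.SA Cfsg.Agent.H4.TB Cfsg.Agent.H4.TD
open Cfsg.Agent.H4.SD (Th Th_class conj_Th inner_Th_irr gen_one_ne inner_Th cc ta alg)
open Cfsg.Agent.H4.SE (inv_of_conj)
open Cfsg.Agent.H4.SF (exists_ker)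
open scoped ComplexConjugate

universe u

variable {G : Type u} [Group G] [Fintype G] {H T : Subgroup G} {φ : H ≃* V2}

/-- index of `a i` -/
abbrev ia : Fin 2 → Fin 4 := ![0, 1]
/-- index of `b i` -/
abbrev ib : Fin 2 → Fin 4 := ![2, 3]
/-- index of the involution commuting with the `i`-th factor -/
abbrev ie : Fin 2 → Fin 3 := ![0, 1]

/-- representatives of order 6 -/
def rr2 : Fin 2 → V2 := ![![cc, ta], ![ta, cc]]
/-- odd off `i`, even at `i` -/
def Q2 (i : Fin 2) (w : V2) : Prop :=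
  (∀ j, j ≠ i → Equiv.Perm.sign (w j) = -1) ∧ Equiv.Perm.sign (w i) = 1
/-- even -/
def Ev2 (w : V2) : Prop := ∀ j, Equiv.Perm.sign (w j) = 1

instance (i : Fin 2) (w : V2) : Decidable (Q2 i w) := by unfold Q2; infer_instance
instance (w : V2) : Decidable (Ev2 w) := by unfold Ev2; infer_instance

theorem g1 : ∀ i, ∀ w, al2 (ia i) w - al2 (ib i) w = if (Q2 i w ∧ w i ≠ 1) then -6 else 0 := by
  decide +kernel
theorem g2 : ∀ i, ∀ w, Q2 i w → w i ≠ 1 → ∃ k : V2, k * w * k⁻¹ = rr2 i := by decide +kernel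
theorem g3' : ∀ i, ∀ w, Q2 i w → w i = 1 → ∃ k : V2, k * w * k⁻¹ = re2 (ie i) := by
  decide +kernel
theorem g5 : ∀ i, (∑ w : V2, (if (Q2 i w ∧ w i ≠ 1) then (-6 : ℤ) else 0)) = -36 := by
  decide +kernel

/-- auxiliary generalized character -/
def ga2 (i : Fin 2) (w : V2) : ℤ := (1 + sZ (w i)) * (1 - sZ (w (i + 1)))

theorem g6 : ∀ i, ∀ w, ga2 i w = if Q2 i w then 4 else 0 := by decide +kernel
theorem g6a : ∀ i, (∑ w : V2, (if (Q2 i w ∧ w i = 1) then (4 : ℤ) else 0)) = 12 := by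
  decide +kernel
theorem g6b : ∀ i, (∑ w : V2, (if (Q2 i w ∧ w i ≠ 1) then (4 : ℤ) else 0)) = 24 := by
  decide +kernel
theorem g7 : ∀ j, ∀ w, al2 (ia j) w + al2 (ib j) w =
    if (Ev2 w ∧ w j ≠ 1) ∨ (w j ≠ 1 ∧ Equiv.Perm.sign (w j) = 1 ∧ ¬ Ev2 w ∧ False) then -6
    else 0 := by decide +kernel
theorem g8a : ∀ i j, i ≠ j → (∑ w : V2,
    (if (Ev2 w ∧ w j ≠ 1 ∧ w i = 1) then (-6 : ℤ) else 0)) = -12 := by decide +kernel
theorem g8b : ∀ i j, i ≠ j → (∑ w : V2,
    (if (Ev2 w ∧ w j ≠ 1 ∧ w i ≠ 1) then (-6 : ℤ) else 0)) = -24 := by decide +kernel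
theorem g9 : ∀ i, ∀ w, Ev2 w → w i = 1 →
    w = re2 (ie i) * w * (re2 (ie i))⁻¹ * w⁻¹ := by decide +kernel
theorem g10 : ∀ i, ∀ w, Ev2 w → w i ≠ 1 → Q2 i (w * re2 (ie i)) ∧ (w * re2 (ie i)) i ≠ 1 := by
  decide +kernel
theorem g12 : ∀ i w, Q2 i w → Ev2 (w⁻¹ * rr2 i) := by decide +kernel

/-- `c_i e_i` -/
noncomputable def ss (φ : H ≃* V2) (i : Fin 2) : H := φ.symm (rr2 i)

theorem conj_ss {h : H} {i : Fin 2} (hQ : Q2 i (φ h)) (h1 : (φ h) i ≠ 1) :
    IsConj (h : G) (ss φ i : G) := by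
  have := conj_symm φ (g2 i _ hQ h1)
  rw [φ.symm_apply_apply] at this
  exact this

theorem conj_es {h : H} {i : Fin 2} (hQ : Q2 i (φ h)) (h1 : (φ h) i = 1) :
    IsConj (h : G) (es φ (ie i) : G) := by
  have := conj_symm φ (g3' i _ hQ h1)
  rw [φ.symm_apply_apply] at this
  exact this

theorem two_vals [Fintype H] (b b1 b2 : V2 → ℤ) (E : H → ℂ) (x y : ℂ)
    (h : ∀ h : H, ((b (φ h) : ℤ) : ℂ) * conj (E h) =
      ((b1 (φ h) : ℤ) : ℂ) * x + ((b2 (φ h) : ℤ) : ℂ) * y) (n1 n2 : ℤ)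
    (hn1 : (∑ w : V2, b1 w) = n1) (hn2 : (∑ w : V2, b2 w) = n2) :
    classInner (fun h : H => ((b (φ h) : ℤ) : ℂ)) E = (36 : ℂ)⁻¹ * (n1 * x + n2 * y) := by
  unfold classInner
  rw [card_H φ, Finset.sum_congr rfl fun k _ => h k, Finset.sum_add_distrib, ← Finset.sum_mul,
    ← Finset.sum_mul, ← Int.cast_sum, ← Int.cast_sum, sumH φ b1, sumH φ b2, hn1, hn2]
  push_cast; ring

/-- value at `c_i e_i` -/
theorem val_ss [Fintype H] (φ : H ≃* V2) {E : G → ℂ} (hE : IsClassFunction G E) (i : Fin 2) :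
    classInner (indFun H (be φ (ia i))) E - classInner (indFun H (be φ (ib i))) E =
      - conj (E (ss φ i)) := by
  rw [frobenius_reciprocity H _ hE, frobenius_reciprocity H _ hE, ← classInner_sub_left]
  have h1 := two_vals (φ := φ) (fun w => al2 (ia i) w - al2 (ib i) w)
    (fun w => if (Q2 i w ∧ w i ≠ 1) then -6 else 0) (fun _ => 0) (fun h : H => E h)
    (conj (E (ss φ i))) 0 (by
      intro h
      rw [g1 i _]
      by_cases hQ : Q2 i (φ h) ∧ (φ h) i ≠ 1
      · rw [if_pos hQ, classFun_isConj hE (conj_ss hQ.1 hQ.2)]; simp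
      · rw [if_neg hQ]; simp) (-36) 0 (g5 i) (by simp)
  have h2 : be φ (ia i) - be φ (ib i) = fun h : H => ((al2 (ia i) (φ h) -
      al2 (ib i) (φ h) : ℤ) : ℂ) := by
    ext h; simp [be]
  rw [h2]
  refine h1.trans ?_
  push_cast; ring

/-- congruence -/
theorem congr3 [Fintype H] (φ : H ≃* V2) {E : G → ℂ} (hE : IsGeneralizedCharacter G E)
    (i : Fin 2) : ∃ n : ℤ, conj (E (es φ (ie i))) + 2 * conj (E (ss φ i)) = 3 * n := by
  have hEc := isGen_classFun hE
  have hg : IsGeneralizedCharacter H (fun h : H => ((ga2 i (φ h) : ℤ) : ℂ)) := by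
    have hs : ∀ j : Fin 2, IsGeneralizedCharacter H (fun h : H => ((sZ ((φ h) j) : ℤ) : ℂ)) :=
      fun j => isGen_comp sZ_gen ((Pi.evalMonoidHom (fun _ : Fin 2 => S3) j).comp φ.toMonoidHom)
    have := isGen_mul (isGen_add (isGen_one (G := H)) (hs i))
      (isGen_sub (isGen_one (G := H)) (hs (i + 1)))
    convert this using 1
    ext w; simp [ga2]
  obtain ⟨n, hn⟩ := classInner_gen_int hg (isGen_restrict H hE)
  have h1 := two_vals (φ := φ) (ga2 i)
    (fun w => if (Q2 i w ∧ w i = 1) then 4 else 0) (fun w => if (Q2 i w ∧ w i ≠ 1) then 4 else 0)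
    (fun h : H => E h) (conj (E (es φ (ie i)))) (conj (E (ss φ i))) (by
      intro h
      rw [g6 i _]
      by_cases hQ : Q2 i (φ h)
      · by_cases h1 : (φ h) i = 1
        · rw [classFun_isConj hEc (conj_es hQ h1)]; simp [hQ, h1]
        · rw [classFun_isConj hEc (conj_ss hQ h1)]; simp [hQ, h1]
      · simp [hQ]) 12 24 (g6a i) (g6b i)
  refine ⟨n, ?_⟩
  have h2 := hn.symm.trans h1
  push_cast at h2
  linear_combination 3 * -h2

/-- the natural configuration -/
structure Chars (φ : H ≃* V2) (E L : Fin 2 → G → ℂ) : Prop where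
  hE : ∀ i, SIrr (E i)
  hL : ∀ i, SIrr (L i)
  hd : ∀ i g, indFun H (be φ (ia i)) g = - 1 - E i g + L i g
  ha : ∀ i j, classInner (indFun H (be φ (ia i))) (E j) = if i = j then -1 else 0
  hb : ∀ i j, classInner (indFun H (be φ (ib i))) (E j) = if i = j then 0 else -1

theorem SIrr.neg {A : G → ℂ} (hA : SIrr A) : SIrr (-A) :=
  ⟨isGen_neg hA.gen, by rw [classInner_neg_left, classInner_neg_right, neg_neg]; exact hA.norm⟩

theorem exists_pat (φ : H ≃* V2) (k : Fin 3) : ∃ δ : Fin 3 → Bool,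
    Pat φ (es φ k : G) δ ∧ δ k = true := by
  classical
  have h := es_sq φ k
  exact ⟨fun l => decide (IsConj (es φ k : G) (es φ l : G)), ⟨h.1, h.2, fun l => decide_eq_true_iff⟩,
    decide_eq_true (IsConj.refl _)⟩

theorem exists_chars (S : Setting H T φ) : ∃ E L : Fin 2 → G → ℂ, Chars φ E L := by
  haveI := Fintype.ofFinite H
  obtain ⟨A1, B1, A2, B2, sA1, sB1, sA2, sB2, d0, d1, p1, p2, p3, p4, p5, p6, h⟩ := S.main1
  obtain ⟨δ, p, hδ⟩ := exists_pat φ 2
  obtain ⟨r0, r1, r2, r3⟩ := RR_eq δ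
  have hu4 : ((es φ 2 : H) : G) ^ 4 = 1 := pow4_of_sq (es_sq φ 2).1
  have hbi : ∀ b : Bool, bi b = 0 ∨ bi b = 1 := by intro b; cases b <;> simp [bi]
  have hb2 : bi (δ 2) = 1 := by rw [hδ]; rfl
  rw [hb2] at r0 r1 r2 r3
  have th3 : ∀ {A B C : G → ℂ}, SIrr A → SIrr B → SIrr C → ∀ i,
      (∀ g, indFun H (be φ i) g = A g - B g + C g) →
      qq (es φ 2 : G) * (A (es φ 2) ^ 2 / A 1 - B (es φ 2) ^ 2 / B 1 + C (es φ 2) ^ 2 / C 1) =
        (36 : ℂ)⁻¹ * (RR i δ : ℤ) := by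
    intro A B C hA hB hC i hi
    rw [← Setting.rhs S p i]
    have : indFun H (be φ i) = A - B + C := by ext g; rw [hi]; simp
    rw [this, classInner_add_left, classInner_sub_left, SIrr.th hA, SIrr.th hB, SIrr.th hC]
    ring
  have th2 : ∀ {A B : G → ℂ}, SIrr A → SIrr B → ∀ i,
      (∀ g, indFun H (be φ i) g = -1 + A g + B g) →
      qq (es φ 2 : G) * (-1 + A (es φ 2) ^ 2 / A 1 + B (es φ 2) ^ 2 / B 1) =
        (36 : ℂ)⁻¹ * (RR i δ : ℤ) := by
    intro A B hA hB i hi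
    rw [← Setting.rhs S p i]
    have : indFun H (be φ i) = A + B - (fun _ => (1 : ℂ)) := by ext g; rw [hi]; simp; ring
    rw [this, classInner_sub_left, classInner_add_left, SIrr.th hA, SIrr.th hB, one_th]
    ring
  rcases h with ⟨h1, h2⟩ | h | h
  · refine ⟨![-A1, -A2], ![B1, B2], ?_, ?_, ?_, ?_, ?_⟩
    · intro i; fin_cases i
      · exact SIrr.neg sA1
      · exact SIrr.neg sA2
    · intro i; fin_cases i
      · exact sB1
      · exact sB2
    · intro i g; fin_cases i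
      · change indFun H (be φ 0) g = -1 - (-A1) g + B1 g
        rw [d0, Pi.neg_apply]; ring
      · change indFun H (be φ 1) g = -1 - (-A2) g + B2 g
        rw [d1, Pi.neg_apply]; ring
    · intro i j; fin_cases i <;> fin_cases j
      · change classInner (indFun H (be φ 0)) (-A1) = _
        rw [classInner_neg_right, p1]; simp
      · change classInner (indFun H (be φ 0)) (-A2) = _
        rw [classInner_neg_right, p2]; simp
      · change classInner (indFun H (be φ 1)) (-A1) = _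
        rw [classInner_neg_right, p3]; simp
      · change classInner (indFun H (be φ 1)) (-A2) = _
        rw [classInner_neg_right, p4]; simp
    · intro i j; fin_cases i <;> fin_cases j
      · change classInner (indFun H (be φ 2)) (-A1) = _
        rw [classInner_neg_right, h1]; simp
      · change classInner (indFun H (be φ 2)) (-A2) = _
        rw [classInner_neg_right, p5]; simp
      · change classInner (indFun H (be φ 3)) (-A1) = _
        rw [classInner_neg_right, p6]; simp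
      · change classInner (indFun H (be φ 3)) (-A2) = _
        rw [classInner_neg_right, h2]; simp
  · exfalso
    obtain ⟨n, hn⟩ := SIrr.int sB1
    have e1 := th2 sA1 sB1 0 d0
    have e2 := th3 sA1 sB1 sA2 2 h
    rw [r0] at e1
    rw [r2] at e2
    refine exc_alg n hn (qq_ne _) (SIrr.ne sA1) (SIrr.ne sB1) (SIrr.ne sA2) ?_ ?_ ?_ ?_ (hbi (δ 1)) e1 e2
    · rw [← d0, ind_zero _ (by simp)]
    · rw [← h, ind_zero _ (by simp)]
    · rw [← d0, ind_zero _ hu4]
    · rw [← h, ind_zero _ hu4]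
  · exfalso
    obtain ⟨n, hn⟩ := SIrr.int sB2
    have e1 := th2 sA2 sB2 1 d1
    have e2 := th3 sA2 sB2 sA1 3 h
    rw [r1] at e1
    rw [r3] at e2
    refine exc_alg n hn (qq_ne _) (SIrr.ne sA2) (SIrr.ne sB2) (SIrr.ne sA1) ?_ ?_ ?_ ?_ (hbi (δ 0)) e1 e2
    · rw [← d1, ind_zero _ (by simp)]
    · rw [← h, ind_zero _ (by simp)]
    · rw [← d1, ind_zero _ hu4]
    · rw [← h, ind_zero _ hu4]

variable {E L : Fin 2 → G → ℂ}

theorem Chars.ss_val (c : Chars φ E L) (i j : Fin 2) :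
    E j (ss φ i) = if i = j then 1 else -1 := by
  haveI := Fintype.ofFinite H
  have h1 := val_ss φ (isGen_classFun (c.hE j).gen) i
  rw [c.ha, c.hb] at h1
  have h2 : conj (E j (ss φ i)) = if i = j then 1 else -1 := by
    split_ifs at h1 ⊢
    · linear_combination h1
    · linear_combination h1
  have h3 := congrArg conj h2
  rw [Complex.conj_conj] at h3
  rw [h3]
  split_ifs <;> simp

theorem Chars.es_val (c : Chars φ E L) (i j : Fin 2) :
    ∃ n : ℤ, E j (es φ (ie i)) = 3 * n + (if i = j then -2 else 2) := by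
  haveI := Fintype.ofFinite H
  obtain ⟨n, hn⟩ := congr3 φ (c.hE j).gen i
  rw [c.ss_val i j] at hn
  refine ⟨n, ?_⟩
  have h3 := congrArg conj hn
  have e2 : conj (2 : ℂ) = 2 := map_ofNat _ 2
  have e3 : conj (3 : ℂ) = 3 := map_ofNat _ 3
  simp only [map_add, map_mul, Complex.conj_conj, e2, e3] at h3
  split_ifs at h3 ⊢
  · simp at h3; linear_combination h3
  · simp at h3; linear_combination h3

/-- no fusion -/
theorem Chars.no_fusion (c : Chars φ E L) (h : IsConj (es φ 0 : G) (es φ 1 : G)) : False := by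
  obtain ⟨n, hn⟩ := c.es_val 0 0
  obtain ⟨m, hm⟩ := c.es_val 1 0
  change E 0 (es φ 0) = _ at hn
  change E 0 (es φ 1) = _ at hm
  rw [classFun_isConj (isGen_classFun (c.hE 0).gen) h, hm] at hn
  simp at hn
  have h1 : (3 : ℤ) * m + 2 = 3 * n + -2 := by exact_mod_cast hn
  omega

end Cfsg.Agent.H4.TE
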