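import Cfsg.Agent.H4.TB

/-!
# Recognition of `S₃ × S₃` (S3805)
-/

set_option autoImplicit false
set_option linter.unusedSectionVars false
set_option linter.style.haveILetI false

namespace Cfsg.Agent.H4.TF

open Cfsg.Agent.H4.SA Cfsg.Agent.H4.TB

universe u

variable {N : Type u} [Group N] [Finite N]

/-- homomorphism to `S₃` from a subgroup of index 3 -/
theorem exists_hom (U : Subgroup N) (hU : U.index = 3) : ∃ f : N →* S3, f.ker = U.normalCore := by
  have h1 : Nat.card (N ⧸ U) = 3 := hU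
  let e : N ⧸ U ≃ Fin 3 := (Finite.equivFin _).trans (finCongr h1)
  refine ⟨e.permCongrHom.toMonoidHom.comp (MulAction.toPermHom N (N ⧸ U)), ?_⟩
  rw [Subgroup.normalCore_eq_ker]
  ext x
  rw [MonoidHom.mem_ker, MonoidHom.mem_ker]
  constructor
  · intro h
    apply e.permCongrHom.injective
    rw [map_one]; exact h
  · intro h
    rw [MonoidHom.comp_apply, h, map_one]

/-- centralized part -/
def fixA (T : Subgroup N) (v : N) : Subgroup N := T ⊓ Subgroup.centralizer {v}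

theorem iso_core (T : Subgroup N) [hTn : T.Normal] (hcard : Nat.card T = 9)
    (hexp : ∀ t ∈ T, t ^ 3 = 1) (hcomm : ∀ x ∈ T, ∀ y ∈ T, x * y = y * x)
    (hC : ∀ x : N, (∀ t ∈ T, x * t = t * x) → x ∈ T) (hN : Nat.card N = 36)
    (hsq : ∀ x : N, x ^ 2 ∈ T) : Nonempty (N ≃* V2) := by
  classical
  haveI : Fact (Nat.Prime 2) := ⟨Nat.prime_two⟩
  haveI : Fact (Nat.Prime 3) := ⟨Nat.prime_three⟩
  obtain ⟨S⟩ : Nonempty (Sylow 2 N) := inferInstance
  have hScard : Nat.card (S : Subgroup N) = 4 := by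
    have h1 := S.card_eq_multiplicity
    rw [h1, hN]
    have : (36 : ℕ) = 2 ^ 2 * 9 := by norm_num
    rw [this, Nat.factorization_mul (by norm_num) (by norm_num), Nat.Prime.factorization_pow
      Nat.prime_two]
    have h9 : (9 : ℕ).factorization 2 = 0 := Nat.factorization_eq_zero_of_not_dvd (by norm_num)
    simp [h9]
  have hST : (S : Subgroup N) ⊓ T = ⊥ :=
    (Subgroup.disjoint_of_coprime_natCard (by rw [hScard, hcard]; norm_num)).eq_bot
  have hS2 : ∀ s ∈ (S : Subgroup N), s * s = 1 := by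
    intro s hs
    have h1 : s ^ 2 ∈ (S : Subgroup N) ⊓ T := ⟨(S : Subgroup N).pow_mem hs 2, hsq s⟩
    rw [hST, Subgroup.mem_bot, sq] at h1; exact h1
  have hSinv : ∀ s ∈ (S : Subgroup N), s⁻¹ = s := fun s hs => inv_eq_of_mul_eq_one_left (hS2 s hs)
  have hScomm : ∀ s ∈ (S : Subgroup N), ∀ r ∈ (S : Subgroup N), s * r = r * s := by
    intro s hs r hr
    have h1 := hSinv (s * r) ((S : Subgroup N).mul_mem hs hr)
    rw [mul_inv_rev, hSinv s hs, hSinv r hr] at h1
    exact h1.symm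
  -- commutators are in `T`
  have hcomT : ∀ n v : N, n * v * n⁻¹ * v⁻¹ ∈ T := by
    intro n v
    have h1 := hsq (n * v)
    have h2 : v⁻¹ * (n ^ 2)⁻¹ * v⁻¹⁻¹ ∈ T := hTn.conj_mem _ (T.inv_mem (hsq n)) _
    have h3 := T.inv_mem (hsq v)
    have h4 := T.mul_mem (T.mul_mem h1 h2) h3
    have h5 : n * v * n⁻¹ * v⁻¹ = (n * v) ^ 2 * (v⁻¹ * (n ^ 2)⁻¹ * v⁻¹⁻¹) * (v ^ 2)⁻¹ := by
      rw [sq, sq, sq]; group
    rw [h5]; exact h4
  -- cube trick
  have hcube : ∀ t ∈ T, t = t⁻¹ → t = 1 := by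
    intro t ht h
    have h1 := hexp t ht
    have h2 : t ^ 3 = t * (t * t) := by rw [pow_succ, sq]; group
    have h3 : t * t = 1 := by
      calc t * t = t * t⁻¹ := by rw [← h]
        _ = 1 := mul_inv_cancel t
    rw [h2, h3, mul_one] at h1
    exact h1
  -- some involution fixes a non-identity element
  obtain ⟨v, hvS, hv1, t0, ht0, ht01, hvt0⟩ : ∃ v ∈ (S : Subgroup N), v ≠ 1 ∧
      ∃ t ∈ T, t ≠ 1 ∧ v * t * v⁻¹ = t := by
    by_contra hcon
    push Not at hcon
    have hinv : ∀ v ∈ (S : Subgroup N), v ≠ 1 → ∀ t ∈ T, v * t * v⁻¹ = t⁻¹ := by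
      intro v hv hv1 t ht
      have h1 : v * t * v⁻¹ ∈ T := hTn.conj_mem t ht v
      have h2 : v * (t * (v * t * v⁻¹)) * v⁻¹ = t * (v * t * v⁻¹) := by
        have hvv := hS2 v hv
        have hvi := hSinv v hv
        calc v * (t * (v * t * v⁻¹)) * v⁻¹ = (v * t * v⁻¹) * ((v * v) * t * (v * v)⁻¹) := by group
          _ = (v * t * v⁻¹) * t := by rw [hvv]; simp
          _ = t * (v * t * v⁻¹) := hcomm _ h1 _ ht
      have h3 : t * (v * t * v⁻¹) = 1 := by
        by_contra h4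
        exact hcon v hv hv1 _ (T.mul_mem ht h1) h4 h2
      exact (inv_eq_of_mul_eq_one_right h3).symm
    -- two different involutions
    haveI : Nontrivial (S : Subgroup N) := by
      rw [← Finite.one_lt_card_iff_nontrivial, hScard]; norm_num
    obtain ⟨v, hv⟩ := exists_ne (1 : (S : Subgroup N))
    have hv' : (v : N) ≠ 1 := fun h => hv (Subtype.ext h)
    have h2 : ∃ w : (S : Subgroup N), w ≠ 1 ∧ w ≠ v := by
      by_contra hcon2
      push Not at hcon2
      haveI := Fintype.ofFinite (S : Subgroup N)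
      have h3 : (Finset.univ : Finset (S : Subgroup N)) ⊆ {1, v} := by
        intro w _
        by_cases hw : w = 1
        · simp [hw]
        · simp [hcon2 w hw]
      have h4 := Finset.card_le_card h3
      rw [Finset.card_univ, ← Nat.card_eq_fintype_card, hScard] at h4
      have h5 : ({1, v} : Finset (S : Subgroup N)).card ≤ 2 := Finset.card_le_two
      omega
    obtain ⟨w, hw1, hwv⟩ := h2
    have hw' : (w : N) ≠ 1 := fun h => hw1 (Subtype.ext h)
    have h3 : (v : N) * w ∈ T := by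
      apply hC
      intro t ht
      have e1 := hinv v v.2 hv' _ (T.inv_mem ht)
      have e2 := hinv w w.2 hw' t ht
      have e3 : (v : N) * w * t * ((v : N) * w)⁻¹ = t := by
        calc (v : N) * w * t * ((v : N) * w)⁻¹ = v * (w * t * (w : N)⁻¹) * (v : N)⁻¹ := by group
          _ = t := by rw [e2, e1, inv_inv]
      exact mul_inv_eq_iff_eq_mul.mp e3
    have h4 : (v : N) * w ∈ (S : Subgroup N) ⊓ T := ⟨(S : Subgroup N).mul_mem v.2 w.2, h3⟩
    rw [hST, Subgroup.mem_bot] at h4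
    apply hwv
    apply Subtype.ext
    rw [← hSinv v v.2]
    exact (inv_eq_of_mul_eq_one_right h4).symm
  -- conjugation by `v` commutes with everything on `T`
  have hvn : ∀ n : N, ∀ t ∈ T, v * (n * t * n⁻¹) * v⁻¹ = n * (v * t * v⁻¹) * n⁻¹ := by
    intro n t ht
    obtain ⟨c, hc⟩ : ∃ c, c = n⁻¹ * v⁻¹ * n⁻¹⁻¹ * v⁻¹⁻¹ := ⟨_, rfl⟩
    have hcT : c ∈ T := by rw [hc]; exact hcomT _ _
    have h1 : v * n = n * v * c⁻¹ * 1 := by
      rw [hc]; group
    have hvt : v * t * v⁻¹ ∈ T := hTn.conj_mem t ht v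
    have h2 : c⁻¹ * t * c = t := by
      have := hcomm _ (T.inv_mem hcT) _ ht
      rw [this]; group
    calc v * (n * t * n⁻¹) * v⁻¹ = (v * n) * t * (v * n)⁻¹ := by group
      _ = (n * v) * (c⁻¹ * t * c) * (n * v)⁻¹ := by rw [h1]; group
      _ = n * (v * t * v⁻¹) * n⁻¹ := by rw [h2]; group
  let A : Subgroup N :=
    { carrier := {t | t ∈ T ∧ v * t * v⁻¹ = t}
      one_mem' := ⟨T.one_mem, by group⟩
      mul_mem' := by
        rintro a b ⟨ha, ha'⟩ ⟨hb, hb'⟩
        refine ⟨T.mul_mem ha hb, ?_⟩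
        calc v * (a * b) * v⁻¹ = (v * a * v⁻¹) * (v * b * v⁻¹) := by group
          _ = a * b := by rw [ha', hb']
      inv_mem' := by
        rintro a ⟨ha, ha'⟩
        refine ⟨T.inv_mem ha, ?_⟩
        calc v * a⁻¹ * v⁻¹ = (v * a * v⁻¹)⁻¹ := by group
          _ = a⁻¹ := by rw [ha'] }
  let B : Subgroup N :=
    { carrier := {t | t ∈ T ∧ v * t * v⁻¹ = t⁻¹}
      one_mem' := ⟨T.one_mem, by group⟩
      mul_mem' := by
        rintro a b ⟨ha, ha'⟩ ⟨hb, hb'⟩
        refine ⟨T.mul_mem ha hb, ?_⟩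
        calc v * (a * b) * v⁻¹ = (v * a * v⁻¹) * (v * b * v⁻¹) := by group
          _ = a⁻¹ * b⁻¹ := by rw [ha', hb']
          _ = (b * a)⁻¹ := by group
          _ = (a * b)⁻¹ := by rw [hcomm a ha b hb]
      inv_mem' := by
        rintro a ⟨ha, ha'⟩
        refine ⟨T.inv_mem ha, ?_⟩
        calc v * a⁻¹ * v⁻¹ = (v * a * v⁻¹)⁻¹ := by group
          _ = (a⁻¹)⁻¹ := by rw [ha'] }
  have hAn : A.Normal := ⟨fun a ha n => ⟨hTn.conj_mem a ha.1 n, by rw [hvn n a ha.1, ha.2]⟩⟩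
  have hBn : B.Normal := ⟨fun a ha n => ⟨hTn.conj_mem a ha.1 n, by
    rw [hvn n a ha.1, ha.2]; group⟩⟩
  have hAT : A ≤ T := fun a ha => ha.1
  have hBT : B ≤ T := fun a ha => ha.1
  have hAB : A ⊓ B = ⊥ := by
    rw [eq_bot_iff]
    rintro t ⟨h1, h2⟩
    exact hcube t h1.1 (h1.2.symm.trans h2.2)
  have hA1 : A ≠ ⊥ := by
    intro h
    have : t0 ∈ A := ⟨ht0, hvt0⟩
    rw [h] at this
    exact ht01 this
  have hvT : v ∉ T := by
    intro h
    have : v ∈ (S : Subgroup N) ⊓ T := ⟨hvS, h⟩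
    rw [hST] at this
    exact hv1 this
  have hATne : A ≠ T := by
    intro h
    apply hvT
    apply hC
    intro t ht
    have : t ∈ A := by rw [h]; exact ht
    exact mul_inv_eq_iff_eq_mul.mp this.2
  have hB1 : B ≠ ⊥ := by
    intro hB
    apply hATne
    apply le_antisymm hAT
    intro t ht
    refine ⟨ht, ?_⟩
    have h1 : v * t * v⁻¹ ∈ T := hTn.conj_mem t ht v
    have h2 : t * (v * t * v⁻¹)⁻¹ ∈ B := by
      refine ⟨T.mul_mem ht (T.inv_mem h1), ?_⟩
      have hvv := hS2 v hvS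
      calc v * (t * (v * t * v⁻¹)⁻¹) * v⁻¹ =
          (v * t * v⁻¹) * ((v * v) * t⁻¹ * (v * v)⁻¹) := by group
        _ = (v * t * v⁻¹) * t⁻¹ := by rw [hvv]; simp
        _ = (t * (v * t * v⁻¹)⁻¹)⁻¹ := by group
    rw [hB, Subgroup.mem_bot] at h2
    exact (mul_inv_eq_one.mp h2).symm
  have hBTne : B ≠ T := by
    intro h
    apply hA1
    rw [← hAB, h]
    exact (inf_eq_left.mpr hAT).symm
  have hc3 : ∀ D : Subgroup N, D ≤ T → D ≠ ⊥ → D ≠ T → Nat.card D = 3 := by
    intro D hD h1 h2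
    have h3 : Nat.card D ∣ 3 ^ 2 := by
      have := Subgroup.card_dvd_of_le hD
      rw [hcard] at this; exact this
    rw [Nat.dvd_prime_pow Nat.prime_three] at h3
    obtain ⟨k, hk, hk2⟩ := h3
    have hk0 : k ≠ 0 := by
      rintro rfl
      rw [pow_zero] at hk2
      exact h1 ((Subgroup.card_eq_one).mp hk2)
    have hk3 : k ≠ 2 := by
      rintro rfl
      exact h2 (Subgroup.eq_of_le_of_card_ge hD (by rw [hk2, hcard]; norm_num))
    have : k = 1 := by omega
    rw [hk2, this]; rfl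
  have hcA := hc3 A hAT hA1 hATne
  have hcB := hc3 B hBT hB1 hBTne
  have hidx : ∀ D : Subgroup N, D.Normal → D ≤ T → Nat.card D = 3 →
      (D ⊔ (S : Subgroup N)).index = 3 := by
    intro D hD hDT hD3
    haveI := hD
    have h1 : D.relIndex (D ⊔ (S : Subgroup N)) = 4 := by
      rw [Subgroup.relIndex_sup_left, ← Subgroup.inf_relIndex_right]
      have : D ⊓ (S : Subgroup N) = ⊥ := by
        rw [eq_bot_iff, ← hST]
        exact fun x hx => ⟨hx.2, hDT hx.1⟩
      rw [this, Subgroup.relIndex_bot_left, hScard]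
    have h2 := Subgroup.relIndex_mul_index (H := D) (K := D ⊔ (S : Subgroup N)) le_sup_left
    have h3 := Subgroup.card_mul_index D
    rw [h1] at h2
    rw [hD3, hN] at h3
    omega
  have hmeet : ∀ D : Subgroup N, D.Normal → D ≤ T → (D ⊔ (S : Subgroup N)) ⊓ T ≤ D := by
    intro D hD hDT x hx
    haveI := hD
    obtain ⟨hx1, hx2⟩ := hx
    obtain ⟨d, hd, s, hs, rfl⟩ :=
      Subgroup.mem_sup_of_normal_left.mp (show x ∈ D ⊔ (S : Subgroup N) from hx1)
    have h1 : s ∈ T := by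
      have := T.mul_mem (T.inv_mem (hDT hd)) hx2
      rwa [inv_mul_cancel_left] at this
    have h2 : s ∈ (S : Subgroup N) ⊓ T := ⟨hs, h1⟩
    rw [hST, Subgroup.mem_bot] at h2
    rw [h2, mul_one]; exact hd
  obtain ⟨f1, hf1⟩ := exists_hom _ (hidx B hBn hBT hcB)
  obtain ⟨f2, hf2⟩ := exists_hom _ (hidx A hAn hAT hcA)
  let f : N →* V2 :=
    { toFun := fun x => ![f1 x, f2 x]
      map_one' := by ext1 i; fin_cases i <;> simp
      map_mul' := fun x y => by ext1 i; fin_cases i <;> simp }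
  have hker : f1.ker ⊓ f2.ker = ⊥ := by
    have hn : (f1.ker ⊓ f2.ker).Normal := inferInstance
    have hT0 : (f1.ker ⊓ f2.ker) ⊓ T = ⊥ := by
      rw [eq_bot_iff, ← hAB]
      rintro x ⟨⟨h1, h2⟩, h3⟩
      refine ⟨hmeet A hAn hAT ⟨?_, h3⟩, hmeet B hBn hBT ⟨?_, h3⟩⟩
      · have : x ∈ f2.ker := h2
        rw [hf2] at this
        exact Subgroup.normalCore_le _ this
      · have : x ∈ f1.ker := h1
        rw [hf1] at this
        exact Subgroup.normalCore_le _ this
    rw [eq_bot_iff]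
    intro x hx
    have hxT : x ∈ T := by
      apply hC
      intro t ht
      have h1 : x * t * x⁻¹ * t⁻¹ ∈ (f1.ker ⊓ f2.ker) ⊓ T := by
        refine ⟨?_, T.mul_mem (hTn.conj_mem t ht x) (T.inv_mem ht)⟩
        have h2 := hn.conj_mem _ ((f1.ker ⊓ f2.ker).inv_mem hx) t
        have h3 := (f1.ker ⊓ f2.ker).mul_mem hx h2
        have : x * t * x⁻¹ * t⁻¹ = x * (t * x⁻¹ * t⁻¹) := by group
        rw [this]; exact h3
      rw [hT0, Subgroup.mem_bot] at h1
      have h2 : x * t * x⁻¹ = t := mul_inv_eq_one.mp h1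
      exact mul_inv_eq_iff_eq_mul.mp h2
    have : x ∈ (f1.ker ⊓ f2.ker) ⊓ T := ⟨hx, hxT⟩
    rw [hT0] at this
    exact this
  have hinj : Function.Injective f := by
    rw [injective_iff_map_eq_one]
    intro x hx
    have h1 : x ∈ f1.ker ⊓ f2.ker := by
      refine ⟨?_, ?_⟩
      · have := congrFun hx 0
        exact (MonoidHom.mem_ker (f := f1)).2 this
      · have := congrFun hx 1
        exact (MonoidHom.mem_ker (f := f2)).2 this
    rw [hker] at h1
    exact h1
  haveI := Fintype.ofFinite N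
  have hbij : Function.Bijective f := by
    rw [Fintype.bijective_iff_injective_and_card]
    refine ⟨hinj, ?_⟩
    rw [card_V2, ← hN, Nat.card_eq_fintype_card]
  exact ⟨MulEquiv.ofBijective f hbij⟩

end Cfsg.Agent.H4.TF
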