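import Cfsg.Agent.H4.TE

/-!
# Strongly embedded `S₃ × S₃`: end of the proof (S3805)
-/

set_option autoImplicit false
set_option linter.unusedSectionVars false
set_option linter.style.haveILetI false

namespace Cfsg.Agent.H4.TG

open Cfsg Cfsg.Agent.H3 Cfsg.Agent.H27 Cfsg.Agent.H4.SA Cfsg.Agent.H4.TB Cfsg.Agent.H4.TD
open Cfsg.Agent.H4.TE
open Cfsg.Agent.H4.SD (Th Th_class conj_Th inner_Th_irr gen_one_ne inner_Th cc ta alg)
open Cfsg.Agent.H4.SE (inv_of_conj)
open Cfsg.Agent.H4.SF (exists_ker)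
open scoped ComplexConjugate

universe u

variable {G : Type u} [Group G] [Fintype G] {H T : Subgroup G} {φ : H ≃* V2}
variable {E L : Fin 2 → G → ℂ}

theorem g7' : ∀ j, ∀ w, al2 (ia j) w + al2 (ib j) w =
    if (Ev2 w ∧ w j ≠ 1) then -6 else 0 := by decide +kernel
theorem g14' : ∀ w : V2, ¬ Ev2 w → (Q2 0 w ∨ (Q2 1 w ∨ ∃ y : V2, (Q2 0 y ∧ Q2 1 (y⁻¹ * w)))) := by
  decide +kernel
theorem g14 (w : V2) (h : ¬ Ev2 w) :
    Q2 0 w ∨ Q2 1 w ∨ ∃ y z, Q2 0 y ∧ Q2 1 z ∧ w = y * z := by
  rcases g14' w h with h | h | ⟨y, h1, h2⟩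
  · exact Or.inl h
  · exact Or.inr (Or.inl h)
  · exact Or.inr (Or.inr ⟨y, y⁻¹ * w, h1, h2, by simp⟩)
theorem g15 : ∀ w : V2, al2 3 w ≠ 0 → Ev2 w ∨ Q2 1 w := by decide +kernel
theorem g16 : Q2 0 (re2 0) := by decide +kernel
theorem even_pow3 : ∀ w : V2, Ev2 w → w ^ 3 = 1 := by decide +kernel

/-- class functional of `a i` -/
theorem Chars.fa [Fintype H] (S : Setting H T φ) (c : Chars φ E L) {u : G} {δ : Fin 3 → Bool}
    (p : Pat φ u δ) (i : Fin 2) :
    qq u * (-1 - E i u ^ 2 / E i 1 + L i u ^ 2 / L i 1) = (36 : ℂ)⁻¹ * (RR (ia i) δ : ℤ) := by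
  rw [← Setting.rhs S p (ia i)]
  have : indFun H (be φ (ia i)) = (L i - E i) - (fun _ => (1 : ℂ)) := by
    ext g; rw [c.hd]; simp only [Pi.sub_apply]; ring
  rw [this, classInner_sub_left, classInner_sub_left, SIrr.th (c.hE i), SIrr.th (c.hL i), one_th]
  ring

theorem Chars.z1 (c : Chars φ E L) (i : Fin 2) : (0 : ℂ) = -1 - E i 1 + L i 1 := by
  rw [← c.hd, ind_zero _ (by simp)]

theorem Chars.zu (c : Chars φ E L) (i : Fin 2) {u : G} (hu : u ^ 2 = 1) :
    (0 : ℂ) = -1 - E i u + L i u := by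
  rw [← c.hd, ind_zero _ (pow4_of_sq hu)]

theorem Chars.value_one (S : Setting H T φ) (c : Chars φ E L) (i : Fin 2)
    (hnf : ¬ IsConj (es φ (ie i) : G) (es φ 2 : G)) : E i (es φ (ie i)) = E i 1 := by
  haveI := Fintype.ofFinite H
  obtain ⟨δ, p, hδ⟩ := exists_pat φ (ie i)
  obtain ⟨r0, r1, r2, r3⟩ := RR_eq δ
  have h2 : δ 2 = false := by
    rw [← Bool.not_eq_true]
    intro h; exact hnf ((p.h 2).1 h)
  have hR : RR (ia i) δ = 0 := by
    fin_cases i
    · have h1 : δ 1 = false := by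
        rw [← Bool.not_eq_true]
        intro h; exact c.no_fusion ((p.h 1).1 h)
      change RR 0 δ = 0
      rw [r0, h1, h2]; rfl
    · have h1 : δ 0 = false := by
        rw [← Bool.not_eq_true]
        intro h; exact c.no_fusion ((p.h 0).1 h).symm
      change RR 1 δ = 0
      rw [r1, h1, h2]; rfl
  have h3 := Chars.fa S c p i
  rw [hR] at h3
  refine alg (SIrr.ne (c.hE i)) (SIrr.ne (c.hL i)) (Chars.z1 c i) (Chars.zu c i (es_sq φ _).1) ?_
  have h4 : qq (es φ (ie i) : G) ≠ 0 := qq_ne _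
  have h5 : qq (es φ (ie i) : G) * (-1 - E i (es φ (ie i)) ^ 2 / E i 1 +
      L i (es φ (ie i)) ^ 2 / L i 1) = 0 := by rw [h3]; simp
  exact (mul_eq_zero.mp h5).resolve_left h4

/-- values on `T` -/
theorem Chars.on_even (c : Chars φ E L) (i : Fin 2)
    (hv : E i (es φ (ie i)) = E i 1) (h : H) (hev : Ev2 (φ h)) :
    ((φ h) i = 1 → E i h = E i 1) ∧ ((φ h) i ≠ 1 → E i h = 1) := by
  obtain ⟨N, hN, hmem, hmul⟩ := exists_ker (c.hE i).gen (c.hE i).norm
  have hes : (es φ (ie i) : G) ∈ N := (hmem _).2 hv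
  constructor
  · intro h1
    rw [← hmem]
    have h2 := g9 i _ hev h1
    have h3 : h = es φ (ie i) * h * (es φ (ie i))⁻¹ * h⁻¹ := by
      apply φ.injective
      rw [map_mul, map_mul, map_mul, map_inv, map_inv, es, φ.apply_symm_apply]
      exact h2
    have h4 : (h : G) = (es φ (ie i) : G) * ((h : G) * (es φ (ie i) : G)⁻¹ * (h : G)⁻¹) := by
      have := congrArg Subtype.val h3
      simp only [Subgroup.coe_mul, Subgroup.coe_inv] at this
      rw [← mul_assoc, ← mul_assoc]; exact this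
    rw [h4]
    exact N.mul_mem hes (hN.conj_mem _ (N.inv_mem hes) _)
  · intro h1
    obtain ⟨h2, h3⟩ := g10 i _ hev h1
    have h5 : φ (h * es φ (ie i)) = (φ h) * re2 (ie i) := by
      rw [map_mul, es, φ.apply_symm_apply]
    have h6 : IsConj ((h * es φ (ie i) : H) : G) (ss φ i : G) := by
      apply conj_ss
      · rw [h5]; exact h2
      · rw [h5]; exact h3
    have hcl := isGen_classFun (c.hE i).gen
    have h7 := classFun_isConj hcl h6
    rw [c.ss_val i i, if_pos rfl, Subgroup.coe_mul, classFun_mul_comm hcl, hmul _ hes] at h7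
    exact h7

theorem Chars.one_val (c : Chars φ E L) (i : Fin 2)
    (hv : E i (es φ (ie i)) = E i 1) : E i 1 = 1 := by
  haveI := Fintype.ofFinite H
  obtain ⟨j, hj⟩ : ∃ j : Fin 2, i ≠ j := by
    have : ∀ i : Fin 2, ∃ j : Fin 2, i ≠ j := by decide
    exact this i
  have hcl := isGen_classFun (c.hE i).gen
  have ha := c.ha j i
  have hb := c.hb j i
  rw [if_neg (fun h => hj h.symm)] at ha hb
  rw [frobenius_reciprocity H _ hcl] at ha hb
  have h1 := two_vals (φ := φ) (fun w => al2 (ia j) w + al2 (ib j) w)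
    (fun w => if (Ev2 w ∧ w j ≠ 1 ∧ w i = 1) then -6 else 0)
    (fun w => if (Ev2 w ∧ w j ≠ 1 ∧ w i ≠ 1) then -6 else 0) (fun h : H => E i h)
    (conj (E i 1)) 1 (by
      intro h
      rw [g7' j _]
      by_cases hev : Ev2 (φ h)
      · have h2 := Chars.on_even c i hv h hev
        by_cases hji : (φ h) j = 1
        · simp [hji]
        · by_cases hi : (φ h) i = 1
          · rw [h2.1 hi]; simp [hev, hji, hi]
          · rw [h2.2 hi]; simp [hev, hji, hi]
      · simp [hev]) (-12) (-24) (g8a i j hj) (g8b i j hj)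
  have h2 : (fun h : H => ((al2 (ia j) (φ h) + al2 (ib j) (φ h) : ℤ) : ℂ)) =
      be φ (ia j) + be φ (ib j) := by
    ext h; simp [be]
  have h3 : classInner (be φ (ia j) + be φ (ib j)) (fun h : H => E i h) =
      (36 : ℂ)⁻¹ * (((-12 : ℤ) : ℂ) * conj (E i 1) + ((-24 : ℤ) : ℂ) * 1) := by
    rw [← h2]; exact h1
  rw [classInner_add_left, ha, hb] at h3
  push_cast at h3
  have h4 : conj (E i 1) = 1 := by linear_combination (3 : ℂ) * h3
  have h5 := congrArg conj h4
  rw [Complex.conj_conj] at h5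
  rw [h5]; simp

theorem Chars.lin (c : Chars φ E L) (i : Fin 2)
    (hv : E i (es φ (ie i)) = E i 1) : ∃ μ : G →* ℂˣ, E i = fun g => ((μ g : ℂˣ) : ℂ) := by
  have h1 := Chars.one_val c i hv
  rcases gen_norm_one (c.hE i).gen (c.hE i).norm with h | h
  · exact exists_hom_of_char_one (irr_isChar h) h1
  · exfalso
    obtain ⟨n, hn, h2⟩ := irr_one_eq_nat h
    rw [Pi.neg_apply, h1] at h2
    have h3 : (-1 : ℤ) = n := by exact_mod_cast h2
    omega

theorem Chars.on_T (c : Chars φ E L) (i : Fin 2)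
    (hv : E i (es φ (ie i)) = E i 1) (h : H) (hev : Ev2 (φ h)) : E i h = 1 := by
  have h2 := Chars.on_even c i hv h hev
  by_cases h' : (φ h) i = 1
  · rw [← Chars.one_val c i hv]; exact h2.1 h'
  · exact h2.2 h'

theorem Chars.on_Q (c : Chars φ E L) (j k : Fin 2) (hv : E j (es φ (ie j)) = E j 1) (h : H)
    (hQ : Q2 k (φ h)) : E j h = if k = j then 1 else -1 := by
  obtain ⟨μ, hμ⟩ := Chars.lin c j hv
  have h2 := Chars.on_T c j hv (h⁻¹ * ss φ k) (by
    rw [map_mul, map_inv, ss, φ.apply_symm_apply]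
    exact g12 k _ hQ)
  have h3 := c.ss_val k j
  rw [hμ] at h2 h3 ⊢
  simp only at h2 h3 ⊢
  have h4 : (ss φ k : G) = (h : G) * ((h⁻¹ * ss φ k : H) : G) := by
    simp
  rw [h4, map_mul, Units.val_mul, h2, mul_one] at h3
  exact h3

/-- the normal subgroup -/
theorem Chars.exists_normal (S : Setting H T φ) (c : Chars φ E L)
    (hv0 : E 0 (es φ (ie 0)) = E 0 1) (hv1 : E 1 (es φ (ie 1)) = E 1 1) :
    ∃ N : Subgroup G, N.Normal ∧ T ≤ N ∧ N ⊓ H = T := by
  obtain ⟨μ0, h0⟩ := Chars.lin c 0 hv0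
  obtain ⟨μ1, h1⟩ := Chars.lin c 1 hv1
  have hT : T ≤ μ0.ker ⊓ μ1.ker := by
    intro t ht
    have e0 := Chars.on_T c 0 hv0 ⟨t, S.hTH ht⟩ ((S.mem_iff ⟨t, S.hTH ht⟩).1 ht)
    have e1 := Chars.on_T c 1 hv1 ⟨t, S.hTH ht⟩ ((S.mem_iff ⟨t, S.hTH ht⟩).1 ht)
    rw [h0] at e0
    rw [h1] at e1
    refine ⟨?_, ?_⟩
    · exact (MonoidHom.mem_ker (f := μ0)).2 (Units.ext e0)
    · exact (MonoidHom.mem_ker (f := μ1)).2 (Units.ext e1)
  refine ⟨μ0.ker ⊓ μ1.ker, inferInstance, hT, ?_⟩
  apply le_antisymm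
  · rintro x ⟨⟨hx0, hx1⟩, hxH⟩
    by_contra hxT
    have h2 : ¬ Ev2 (φ ⟨x, hxH⟩) := fun h => hxT ((S.mem_iff ⟨x, hxH⟩).2 h)
    have e0 : E 0 x = 1 := by
      rw [h0]
      have : μ0 x = 1 := hx0
      simp only [this]; simp
    have e1 : E 1 x = 1 := by
      rw [h1]
      have : μ1 x = 1 := hx1
      simp only [this]; simp
    rcases g14 _ h2 with hk | hk | ⟨y, z, hy, hz, hyz⟩
    · have h3 := Chars.on_Q c 1 0 hv1 ⟨x, hxH⟩ hk
      have h4 : E 1 x = -1 := h3
      rw [e1] at h4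
      norm_num at h4
    · have h3 := Chars.on_Q c 0 1 hv0 ⟨x, hxH⟩ hk
      have h4 : E 0 x = -1 := h3
      rw [e0] at h4
      norm_num at h4
    · have h3 := Chars.on_Q c 0 0 hv0 (φ.symm y) (by rw [φ.apply_symm_apply]; exact hy)
      have h4 := Chars.on_Q c 0 1 hv0 (φ.symm z) (by rw [φ.apply_symm_apply]; exact hz)
      have h5 : (⟨x, hxH⟩ : H) = φ.symm y * φ.symm z := by
        rw [← map_mul, ← hyz, φ.symm_apply_apply]
      have h6 : x = ((φ.symm y : H) : G) * ((φ.symm z : H) : G) := congrArg Subtype.val h5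
      rw [h0] at h3 h4 e0
      simp only at h3 h4 e0
      rw [h6, map_mul, Units.val_mul, h3, h4] at e0
      norm_num at e0
  · exact le_inf hT S.hTH

theorem Setting.pow3 (S : Setting H T φ) {t : G} (ht : t ∈ T) : t ^ 3 = 1 := by
  have h1 := (S.mem_iff ⟨t, S.hTH ht⟩).1 ht
  have h2 := even_pow3 _ h1
  have h3 : (⟨t, S.hTH ht⟩ : H) ^ 3 = 1 := by
    apply φ.injective
    rw [map_pow, h2]; simp
  have := congrArg Subtype.val h3
  simpa using this

theorem Setting.not_cyclic (S : Setting H T φ) : ¬ IsCyclic T := by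
  intro h
  obtain ⟨g, hg⟩ := IsCyclic.exists_ofOrder_eq_natCard (α := T)
  rw [S.hT] at hg
  have h1 : g ^ 3 = 1 := by
    apply Subtype.ext
    have := Setting.pow3 S g.2
    simpa using this
  have h2 := orderOf_dvd_of_pow_eq_one h1
  rw [hg] at h2
  omega

/-- the group theoretic end -/
theorem Setting.eq_of_normal (S : Setting H T φ) {N : Subgroup G} (hTN : T ≤ N)
    (hNH : N ⊓ H = T) : N = T := by
  classical
  haveI : Fact (Nat.Prime 3) := ⟨Nat.prime_three⟩
  have hnorm : Subgroup.normalizer ((T.subgroupOf N : Subgroup N) : Set N) = T.subgroupOf N := by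
    apply le_antisymm
    · intro x hx
      rw [Subgroup.mem_subgroupOf]
      have h1 : (x : G) ∈ H := by
        rw [← S.hN]
        apply Subgroup.mem_normalizer_fintype
        intro t ht
        have := (Subgroup.mem_normalizer_iff.mp hx ⟨t, hTN ht⟩).1 (by
          rw [Subgroup.mem_subgroupOf]; exact ht)
        rw [Subgroup.mem_subgroupOf] at this
        simpa using this
      have h2 : (x : G) ∈ N ⊓ H := ⟨x.2, h1⟩
      rw [hNH] at h2; exact h2
    · exact Subgroup.le_normalizer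
  have hcT : Nat.card (T.subgroupOf N) = 3 ^ 2 := by
    rw [Nat.card_congr (Subgroup.subgroupOfEquivOfLe hTN).toEquiv, S.hT]; rfl
  have hnd : ¬ 3 ^ 3 ∣ Nat.card N := by
    intro hd
    have h1 := Sylow.prime_dvd_card_quotient_normalizer (p := 3) (n := 2) hd hcT
    have h2 : Nat.card (Subgroup.normalizer ((T.subgroupOf N : Subgroup N) : Set N) ⧸
        (T.subgroupOf N).subgroupOf (Subgroup.normalizer ((T.subgroupOf N : Subgroup N) : Set N)))
        = 1 := by
      rw [← Subgroup.index, ← Subgroup.relIndex, hnorm, Subgroup.relIndex_self]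
    have h3 : (3 : ℕ) ∣ 1 := by rw [← h2]; exact h1
    omega
  have hdv : 3 ^ 2 ∣ Nat.card N := by
    rw [← hcT]; exact Subgroup.card_subgroup_dvd_card _
  have hfac : (Nat.card N).factorization 3 = 2 := by
    have hne : Nat.card N ≠ 0 := Nat.card_pos.ne'
    apply le_antisymm
    · by_contra hlt
      push Not at hlt
      exact hnd ((Nat.Prime.pow_dvd_iff_le_factorization Nat.prime_three hne).2 hlt)
    · exact (Nat.Prime.pow_dvd_iff_le_factorization Nat.prime_three hne).1 hdv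
  let P : Sylow 3 N := Sylow.ofCard (T.subgroupOf N) (by rw [hcT, hfac])
  have hP : Subgroup.normalizer ((P : Subgroup N) : Set N) ≤
      Subgroup.centralizer ((P : Subgroup N) : Set N) := by
    change Subgroup.normalizer ((T.subgroupOf N : Subgroup N) : Set N) ≤
      Subgroup.centralizer ((T.subgroupOf N : Subgroup N) : Set N)
    rw [hnorm]
    intro x hx
    rw [Subgroup.mem_centralizer_iff]
    intro y hy
    apply Subtype.ext
    exact S.comm (Subgroup.mem_subgroupOf.mp hy) (Subgroup.mem_subgroupOf.mp hx)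
  have hcomp := MonoidHom.ker_transferSylow_isComplement' P hP
  have hnd3 := MonoidHom.not_dvd_card_ker_transferSylow P hP
  obtain ⟨M, hM⟩ : ∃ M, M = (MonoidHom.transferSylow P hP).ker := ⟨_, rfl⟩
  rw [← hM] at hcomp hnd3
  haveI hMn : M.Normal := by rw [hM]; infer_instance
  have hcardM : Nat.card (M.map N.subtype) = Nat.card M :=
    Nat.card_congr (Subgroup.equivMapOfInjective M N.subtype N.subtype_injective).symm.toEquiv
  have hcop : (Nat.card T).Coprime (Nat.card (M.map N.subtype)) := by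
    rw [S.hT, hcardM]
    have : (3 : ℕ).Coprime (Nat.card M) := (Nat.Prime.coprime_iff_not_dvd Nat.prime_three).2 hnd3
    exact Nat.Coprime.pow_left 2 this
  have hTM : T ≤ Subgroup.normalizer ((M.map N.subtype : Subgroup G) : Set G) := by
    intro t ht
    apply Subgroup.mem_normalizer_fintype
    rintro _ ⟨m, hm, rfl⟩
    exact ⟨⟨t, hTN ht⟩ * m * ⟨t, hTN ht⟩⁻¹, hMn.conj_mem m hm _, by simp⟩
  have hTc : IsMulCommutative T := ⟨⟨fun a b => Subtype.ext (S.comm a.2 b.2)⟩⟩
  have hgen := Cfsg.Agent.H23.iSup_centralizer_of_not_isCyclic hTc (Setting.not_cyclic S) hTM hcop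
  have hinf : M.map N.subtype ⊓ T = ⊥ :=
    (Subgroup.disjoint_of_coprime_natCard hcop.symm).eq_bot
  have hbot : M.map N.subtype = ⊥ := by
    rw [← hgen]
    rw [iSup_eq_bot]
    rintro ⟨a, ha, ha1⟩
    rw [eq_bot_iff]
    rintro x ⟨hx1, hx2⟩
    have h1 : x ∈ H := S.hC a ha ha1 hx2
    have h2 : x ∈ N := by
      obtain ⟨m, _, rfl⟩ := hx1; exact m.2
    have h3 : x ∈ T := by rw [← hNH]; exact ⟨h2, h1⟩
    have h4 : x ∈ M.map N.subtype ⊓ T := ⟨hx1, h3⟩
    rw [hinf] at h4; exact h4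
  have hM1 : Nat.card M = 1 := by
    rw [← hcardM, hbot]; simp
  have hNcard : Nat.card N = 9 := by
    have h1 := hcomp.card_mul_card
    rw [hM1, one_mul] at h1
    rw [← h1]
    exact hcT
  exact (Subgroup.eq_of_le_of_card_ge hTN (by rw [hNcard, S.hT])).symm

/-- elements outside the kernel are not seen by `b_2` -/
theorem Chars.vanish (c : Chars φ E L) (hv1 : E 1 (es φ (ie 1)) = E 1 1) (g : G) :
    indFun H (be φ 3) g = 0 ∨ E 1 g = 1 := by
  by_contra hcon
  push Not at hcon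
  obtain ⟨h1, h2⟩ := hcon
  apply h1
  unfold indFun
  rw [Finset.sum_eq_zero, mul_zero]
  intro x _
  by_cases hx : x⁻¹ * g * x ∈ H
  · rw [extendByZero_mem H _ hx]
    by_contra hb
    apply h2
    have h3 : al2 3 (φ ⟨x⁻¹ * g * x, hx⟩) ≠ 0 := by
      intro h; apply hb; unfold be; rw [h]; simp
    have h4 : E 1 (x⁻¹ * g * x) = E 1 g := by
      have := isGen_classFun (c.hE 1).gen g x⁻¹
      rw [inv_inv] at this; exact this
    rw [← h4]
    rcases g15 _ h3 with h | h
    · exact Chars.on_T c 1 hv1 ⟨x⁻¹ * g * x, hx⟩ h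
    · have h5 := Chars.on_Q c 1 1 hv1 ⟨x⁻¹ * g * x, hx⟩ h
      rw [if_pos rfl] at h5; exact h5
  · exact extendByZero_not_mem H _ hx

theorem final_alg {v d q : ℂ} (n : ℤ) (hn : v = n) (hd : d ≠ 0) (hl : 1 + d ≠ 0)
    (h1 : q * (-1 - (-1) ^ 2 / 1 + 0 ^ 2 / 2) = -8)
    (h2 : q * (-1 - v ^ 2 / d + (1 + v) ^ 2 / (1 + d)) = -9 / 2)
    (h3 : q * (-(v ^ 2 / d) * 2) = -2) : False := by
  have hq : q = 4 := by linear_combination (-1 / 2 : ℂ) * h1
  subst hq
  have e1 : v ^ 2 / d = 1 / 4 := by linear_combination (-1 / 8 : ℂ) * h3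
  have e2 : d = 4 * v ^ 2 := by
    field_simp at e1
    linear_combination -e1
  rw [e1] at h2
  have e3 : (1 + v) ^ 2 / (1 + d) = 1 / 8 := by linear_combination (1 / 4 : ℂ) * h2
  have e4 : 8 * (1 + v) ^ 2 = 1 + d := by
    field_simp at e3
    linear_combination e3
  rw [e2, hn] at e4
  have e5 : (8 * (1 + n) ^ 2 : ℤ) = 1 + 4 * n ^ 2 := by exact_mod_cast e4
  omega

/-- no fusion of the first involution with the diagonal one -/
theorem Chars.no_fusion02 (S : Setting H T φ) (c : Chars φ E L)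
    (hf : IsConj (es φ 0 : G) (es φ 2 : G)) : False := by
  haveI := Fintype.ofFinite H
  have hv1 : E 1 (es φ (ie 1)) = E 1 1 :=
    Chars.value_one S c 1 (fun h => c.no_fusion (hf.trans h.symm))
  obtain ⟨δ, p, hδ⟩ := exists_pat φ 0
  obtain ⟨r0, r1, r2, r3⟩ := RR_eq δ
  have d2 : δ 2 = true := (p.h 2).2 hf
  have d1 : δ 1 = false := by
    rw [← Bool.not_eq_true]
    intro h; exact c.no_fusion ((p.h 1).1 h)
  have hu := es_sq φ 0
  obtain ⟨μ, hμ⟩ := Chars.lin c 1 hv1
  have hE11 := Chars.one_val c 1 hv1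
  have hE1u : E 1 (es φ 0) = -1 := by
    have := Chars.on_Q c 1 0 hv1 (es φ 0) (by rw [es, φ.apply_symm_apply]; exact g16)
    rw [if_neg (by decide)] at this; exact this
  -- the constituents of `b_2`
  obtain ⟨F, hF⟩ : ∃ F : G → ℂ, F = fun g => E 1 g * E 0 g := ⟨_, rfl⟩
  have sF : SIrr F := by
    refine ⟨?_, ?_⟩
    · rw [hF]; exact isGen_mul (c.hE 1).gen (c.hE 0).gen
    · rcases gen_norm_one (c.hE 0).gen (c.hE 0).norm with h | h
      · have h1 := isIrr_mul_hom h μ
        have : F = fun g => ((μ g : ℂˣ) : ℂ) * E 0 g := by rw [hF, hμ]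
        rw [this]; exact classInner_self_of_irr h1
      · have h1 := isIrr_mul_hom h μ
        have : F = -(fun g => ((μ g : ℂˣ) : ℂ) * (-E 0) g) := by
          rw [hF, hμ]; ext g; simp
        rw [this, classInner_neg_left, classInner_neg_right, neg_neg]
        exact classInner_self_of_irr h1
  have hEF : classInner (E 0) F = 0 := by
    have hne : E 0 ≠ F := by
      intro h
      have h1 := congrFun h (ss φ 0)
      rw [hF] at h1
      simp only at h1
      rw [c.ss_val 0 0, c.ss_val 0 1] at h1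
      norm_num at h1
    rcases gen_norm_one (c.hE 0).gen (c.hE 0).norm with h | h
    · have h1 := isIrr_mul_hom h μ
      have e : F = fun g => ((μ g : ℂˣ) : ℂ) * E 0 g := by rw [hF, hμ]
      rw [e] at hne ⊢
      exact classInner_of_irr_ne h h1 hne
    · have h1 := isIrr_mul_hom h μ
      have e : F = -(fun g => ((μ g : ℂˣ) : ℂ) * (-E 0) g) := by
        rw [hF, hμ]; ext g; simp
      have hne2 : -E 0 ≠ (fun g => ((μ g : ℂˣ) : ℂ) * (-E 0) g) := by
        intro h2
        apply hne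
        rw [e, ← h2, neg_neg]
      have h3 := classInner_of_irr_ne h h1 hne2
      have h4 : classInner (E 0) F =
          classInner (-E 0) (fun g => ((μ g : ℂˣ) : ℂ) * (-E 0) g) := by
        rw [e, classInner_neg_right, ← classInner_neg_left]
      rw [h4, h3]
  have hFE : classInner F (E 0) = 0 := by
    rw [← classInner_conj_symm, hEF, map_zero]
  obtain ⟨f, hfd⟩ : ∃ f, f = indFun H (be φ 3) := ⟨_, rfl⟩
  have hfg : IsGeneralizedCharacter G f := by rw [hfd]; exact isGen_ind H (be_gen 3)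
  have hff : classInner f f = 3 := by
    have h33 : gm2 3 3 = 3 := by decide
    rw [hfd, S.inner_ind 3 3, h33]
    norm_num
  have hfE : classInner f (E 0) = -1 := by
    have := c.hb 1 0
    rw [if_neg (by decide)] at this
    rw [hfd]; exact this
  have hfF : classInner f F = -1 := by
    rw [← hfE, hF]
    unfold classInner
    congr 1
    refine Finset.sum_congr rfl fun g _ => ?_
    rcases Chars.vanish c hv1 g with h | h
    · rw [hfd, h]; simp
    · simp only [h, one_mul]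
  have hEf : classInner (E 0) f = -1 := by
    rw [← classInner_conj_symm, hfE]; simp
  have hFf : classInner F f = -1 := by
    rw [← classInner_conj_symm, hfF]; simp
  have sN : SIrr (f + E 0 + F) := by
    refine ⟨isGen_add (isGen_add hfg (c.hE 0).gen) sF.gen, ?_⟩
    simp only [classInner_add_left, classInner_add_right, hff, hfE, hfF, hEf, hFf, hEF, hFE,
      (c.hE 0).norm, sF.norm]
    norm_num
  have hNu : (f + E 0 + F) (es φ 0) = 0 := by
    simp only [Pi.add_apply]
    rw [hF, hfd, ind_zero _ (pow4_of_sq hu.1)]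
    simp only
    rw [hE1u]; ring
  have th3 : classInner f (Th (es φ 0 : G)) = -2 := by
    rw [hfd, Setting.rhs S p 3, r3, hδ, d2]
    norm_num [bi]
  have th3' : classInner f (Th (es φ 0 : G)) =
      qq (es φ 0 : G) * (-(E 0 (es φ 0) ^ 2 / E 0 1) * 2) := by
    have : f = (f + E 0 + F) - E 0 - F := by abel
    rw [this, classInner_sub_left, classInner_sub_left, SIrr.th sN, SIrr.th sF,
      SIrr.th (c.hE 0), hNu, hF]
    simp only
    rw [hE1u, hE11]
    ring
  have th1 := Chars.fa S c p 1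
  have th0 := Chars.fa S c p 0
  change _ = (36 : ℂ)⁻¹ * (RR 1 δ : ℤ) at th1
  change _ = (36 : ℂ)⁻¹ * (RR 0 δ : ℤ) at th0
  rw [r1, hδ, d2] at th1
  rw [r0, d1, d2] at th0
  have l1 : L 1 1 = 2 := by have := Chars.z1 c 1; rw [hE11] at this; linear_combination -this
  have l2 : L 1 (es φ 0) = 0 := by
    have := Chars.zu c 1 hu.1; rw [hE1u] at this; linear_combination -this
  have l3 : L 0 1 = 1 + E 0 1 := by have := Chars.z1 c 0; linear_combination -this
  have l4 : L 0 (es φ 0) = 1 + E 0 (es φ 0) := by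
    have := Chars.zu c 0 hu.1; linear_combination -this
  rw [hE1u, hE11, l1, l2] at th1
  rw [l3, l4] at th0
  obtain ⟨n, hn⟩ := c.es_val 0 0
  rw [if_pos rfl] at hn
  refine final_alg (v := E 0 (es φ 0)) (d := E 0 1) (q := qq (es φ 0 : G)) (3 * n - 2) ?_
    (SIrr.ne (c.hE 0)) (by rw [← l3]; exact SIrr.ne (c.hL 0)) ?_ ?_ ?_
  · change E 0 (es φ 0) = _ at hn
    rw [hn]; push_cast; ring
  · rw [th1]; norm_num [bi]
  · rw [th0]; norm_num [bi]
  · rw [← th3', th3]

/-- exchanging the factors -/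
def sw : V2 ≃* V2 where
  toFun w := ![w 1, w 0]
  invFun w := ![w 1, w 0]
  left_inv w := by ext1 i; fin_cases i <;> rfl
  right_inv w := by ext1 i; fin_cases i <;> rfl
  map_mul' a b := by ext1 i; fin_cases i <;> rfl

theorem sw_re : sw (re2 0) = re2 1 ∧ sw (re2 2) = re2 2 := by decide +kernel

theorem Setting.top (S : Setting H T φ) : H = ⊤ := by
  obtain ⟨E, L, c⟩ := exists_chars S
  have n02 := fun h => Chars.no_fusion02 S c h
  have n12 : IsConj (es φ 1 : G) (es φ 2 : G) → False := by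
    intro h
    have S' : Setting H T (φ.trans sw) := ⟨S.hTH, S.hT, S.hN, S.hC⟩
    obtain ⟨E', L', c'⟩ := exists_chars S'
    apply Chars.no_fusion02 S' c'
    have e0 : es (φ.trans sw) 0 = es φ 1 := by
      apply (φ.trans sw).injective
      rw [es, (φ.trans sw).apply_symm_apply, MulEquiv.trans_apply, es, φ.apply_symm_apply]
      decide +kernel
    have e2 : es (φ.trans sw) 2 = es φ 2 := by
      apply (φ.trans sw).injective
      rw [es, (φ.trans sw).apply_symm_apply, MulEquiv.trans_apply, es, φ.apply_symm_apply]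
      decide +kernel
    rw [e0, e2]; exact h
  have hv0 := Chars.value_one S c 0 (fun h => n02 h)
  have hv1 := Chars.value_one S c 1 (fun h => n12 h)
  obtain ⟨N, hN, hTN, hNH⟩ := Chars.exists_normal S c hv0 hv1
  have h6 := Setting.eq_of_normal S hTN hNH
  rw [← S.hN]
  haveI : T.Normal := by rw [← h6]; exact hN
  exact Subgroup.normalizer_eq_top_iff.mpr inferInstance

end Cfsg.Agent.H4.TG
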